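/-
Linear algebra behind the Hall–Higman theorem B.

`x = 1 + N` is an endomorphism with inverse `xi`, over a field of characteristic `p`, and
`traceMap n x xi f = ∑ i < n, x ^ i * f * xi ^ i` for `n = p ^ m`. If every endomorphism commuting
with `N` is a scalar plus a value of the trace map and `N ^ (n - 1) = 0`, then either `N = 0` or the
space has dimension `n - 1` and `N ^ (n - 2) ≠ 0`.
-/
import Mathlib

set_option autoImplicit false

namespace Cfsg.Agent.HH

open Polynomial

variable {F : Type*} [Field F] {V : Type*} [AddCommGroup V] [Module F V]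

/-- `∑ i < n, x ^ i * f * xi ^ i`. -/
def traceMap (n : ℕ) (x xi f : Module.End F V) : Module.End F V :=
  ∑ i ∈ Finset.range n, x ^ i * f * xi ^ i

/-- In characteristic `p`, `(X - 1) ^ (p ^ m - 1) = ∑ i < p ^ m, X ^ i`. -/
theorem sub_one_pow_pred (p : ℕ) [Fact p.Prime] [CharP F p] (m : ℕ) :
    ((X : F[X]) - 1) ^ (p ^ m - 1) = ∑ i ∈ Finset.range (p ^ m), X ^ i := by
  have hpos : 0 < p ^ m := pow_pos (Fact.out : p.Prime).pos m
  have hne : ((X : F[X]) - 1) ≠ 0 := by simpa using X_sub_C_ne_zero (1 : F)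
  refine mul_right_cancel₀ hne ?_
  rw [geom_sum_mul, ← pow_succ, Nat.sub_add_cancel hpos, sub_pow_char_pow, one_pow]

theorem traceMap_eq_ad (p : ℕ) [Fact p.Prime] [CharP F p] (m : ℕ) {x xi N : Module.End F V}
    (hN : x = 1 + N) (hxi : x * xi = 1) (hxi' : xi * x = 1) (f : Module.End F V) :
    traceMap (p ^ m) x xi f = ((fun g => N * g - g * N)^[p ^ m - 1] f) * xi ^ (p ^ m - 1) := by
  set Φ : Module.End F (Module.End F V) := LinearMap.mulLeft F x * LinearMap.mulRight F xi with hΦ
  have hΦa : ∀ g, Φ g = x * g * xi := fun g => by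
    simp only [hΦ, Module.End.mul_apply, LinearMap.mulLeft_apply, LinearMap.mulRight_apply, mul_assoc]
  have hΦi : ∀ (i : ℕ) g, (Φ ^ i) g = x ^ i * g * xi ^ i := by
    intro i
    induction i with
    | zero => intro g; simp
    | succ i ih =>
      intro g
      rw [pow_succ', Module.End.mul_apply, ih, hΦa, pow_succ', pow_succ]
      simp only [mul_assoc]
  have h1 : traceMap (p ^ m) x xi f = (∑ i ∈ Finset.range (p ^ m), Φ ^ i) f := by
    simp only [traceMap, LinearMap.sum_apply, hΦi]
  have h2 : (∑ i ∈ Finset.range (p ^ m), Φ ^ i) = (Φ - 1) ^ (p ^ m - 1) := by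
    have := congrArg (aeval Φ) (sub_one_pow_pred (F := F) p m)
    simpa using this.symm
  rw [h1, h2]
  have hc : Commute N xi := by
    have hcx : Commute x xi := hxi.trans hxi'.symm
    have : N = x - 1 := by rw [hN]; abel
    rw [this]
    exact hcx.sub_left (Commute.one_left xi)
  have key : ∀ j, ((Φ - 1) ^ j) f = ((fun g => N * g - g * N)^[j] f) * xi ^ j := by
    intro j
    induction j with
    | zero => simp
    | succ j ih =>
      rw [pow_succ', Module.End.mul_apply, ih, Function.iterate_succ_apply']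
      set g := (fun g => N * g - g * N)^[j] f
      show (Φ - 1) (g * xi ^ j) = (N * g - g * N) * xi ^ (j + 1)
      rw [LinearMap.sub_apply, Module.End.one_apply, hΦa]
      have h3 : g * xi ^ j = g * x * xi ^ (j + 1) := by
        rw [pow_succ', ← mul_assoc (g * x) xi, mul_assoc g x xi, hxi, mul_one]
      have h4 : x * (g * xi ^ j) * xi = x * g * xi ^ (j + 1) := by rw [pow_succ]; simp only [mul_assoc]
      rw [h4, h3, ← sub_mul, hN, add_mul, one_mul, mul_add, mul_one]
      congr 1
      abel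
  exact key _

theorem iterate_ad_form (N f : Module.End F V) : ∀ j, ∃ (g : Module.End F V) (a b : F),
    (fun g => N * g - g * N)^[j + 1] f = N * N * g + a • (f * N ^ (j + 1)) + b • (N * f * N ^ j) := by
  intro j
  induction j with
  | zero => exact ⟨0, -1, 1, by simp [sub_eq_neg_add]⟩
  | succ j ih =>
    obtain ⟨g, a, b, h⟩ := ih
    refine ⟨N * g - g * N + b • (f * N ^ j), -a, a - b, ?_⟩
    rw [Function.iterate_succ_apply', h]
    simp only [mul_add, add_mul, mul_sub, sub_mul, mul_smul_comm, smul_mul_assoc, neg_smul, sub_smul,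
      pow_succ, mul_assoc]
    abel

theorem traceMap_range_le (p : ℕ) [Fact p.Prime] [CharP F p] (m : ℕ) {x xi N : Module.End F V}
    (hN : x = 1 + N) (hxi : x * xi = 1) (hxi' : xi * x = 1) (hNk : N ^ (p ^ m - 1) = 0)
    (hm : 2 ≤ p ^ m) (f : Module.End F V) :
    ∀ v, traceMap (p ^ m) x xi f v ∈ LinearMap.range N := by
  intro v
  obtain ⟨j, hj⟩ : ∃ j, p ^ m - 1 = j + 1 := ⟨p ^ m - 2, by omega⟩
  obtain ⟨g, a, b, h⟩ := iterate_ad_form N f j
  rw [hj] at hNk
  rw [traceMap_eq_ad p m hN hxi hxi', hj, h, hNk, mul_zero, smul_zero, add_zero, Module.End.mul_apply,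
    LinearMap.add_apply, LinearMap.smul_apply, Module.End.mul_apply, Module.End.mul_apply, Module.End.mul_apply, Module.End.mul_apply]
  exact Submodule.add_mem _ ⟨_, rfl⟩ (Submodule.smul_mem _ _ ⟨_, rfl⟩)

theorem traceMap_range_le_sq (p : ℕ) [Fact p.Prime] [CharP F p] (m : ℕ) {x xi N : Module.End F V}
    (hN : x = 1 + N) (hxi : x * xi = 1) (hxi' : xi * x = 1) (hNk : N ^ (p ^ m - 2) = 0)
    (hm : 2 ≤ p ^ m) (f : Module.End F V) :
    ∀ v, traceMap (p ^ m) x xi f v ∈ LinearMap.range (N * N) := by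
  intro v
  obtain ⟨j, hj⟩ : ∃ j, p ^ m - 1 = j + 1 := ⟨p ^ m - 2, by omega⟩
  obtain ⟨g, a, b, h⟩ := iterate_ad_form N f j
  rw [show p ^ m - 2 = j by omega] at hNk
  rw [traceMap_eq_ad p m hN hxi hxi', hj, h, pow_succ, hNk, zero_mul, mul_zero, mul_zero, smul_zero, smul_zero,
    add_zero, add_zero, Module.End.mul_apply, Module.End.mul_apply]
  exact ⟨_, rfl⟩

/-- A nilpotent endomorphism whose range is contained in the range of its square is zero. -/
theorem eq_zero_of_range_le_sq {N : Module.End F V} (hnil : ∃ k, N ^ k = 0)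
    (h : ∀ v, N v ∈ LinearMap.range (N * N)) : N = 0 := by
  obtain ⟨k, hk⟩ := hnil
  have key : ∀ j v, N v ∈ LinearMap.range (N ^ (j + 1)) := by
    intro j
    induction j with
    | zero => intro v; rw [pow_one]; exact ⟨v, rfl⟩
    | succ j ih =>
      intro v
      obtain ⟨w, hw⟩ := h v
      obtain ⟨u, hu⟩ := ih w
      refine ⟨u, ?_⟩
      rw [pow_succ', Module.End.mul_apply, hu, ← hw, Module.End.mul_apply]
  refine LinearMap.ext fun v => ?_
  obtain ⟨w, hw⟩ := key k v
  rw [← hw, pow_succ, hk, zero_mul]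
  simp

/-- The dichotomy. -/
theorem finrank_eq_of_fixed (p : ℕ) [Fact p.Prime] [CharP F p] [Nontrivial V] [FiniteDimensional F V]
    (m : ℕ) (hm : 2 ≤ p ^ m) {x xi N : Module.End F V}
    (hN : x = 1 + N) (hxi : x * xi = 1) (hxi' : xi * x = 1) (hNk : N ^ (p ^ m - 1) = 0)
    (hfix : ∀ f : Module.End F V, N * f = f * N → ∃ (a : F) (g : Module.End F V),
      f = a • (1 : Module.End F V) + traceMap (p ^ m) x xi g) :
    N = 0 ∨ (Module.finrank F V = p ^ m - 1 ∧ N ^ (p ^ m - 2) ≠ 0) := by
  have hnotsurj : ¬ Function.Surjective N := by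
    intro hs
    have := (Function.Surjective.iterate hs (p ^ m - 1))
    rw [← Module.End.coe_pow, hNk] at this
    obtain ⟨v, hv⟩ := exists_ne (0 : V)
    obtain ⟨w, hw⟩ := this v
    exact hv hw.symm
  by_cases hk : N ^ (p ^ m - 2) = 0
  · left
    obtain ⟨a, g, hag⟩ := hfix N rfl
    have ha : a = 0 := by
      by_contra ha
      refine hnotsurj fun v => ?_
      obtain ⟨w, hw⟩ := traceMap_range_le p m hN hxi hxi' hNk hm g v
      refine ⟨a⁻¹ • (v - w), ?_⟩
      have e : N v = a • v + N w := by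
        conv_lhs => rw [hag]
        simp [hw]
      rw [map_smul, map_sub, e, add_sub_cancel_right, smul_smul, inv_mul_cancel₀ ha, one_smul]
    refine eq_zero_of_range_le_sq ⟨_, hNk⟩ fun v => ?_
    have e : N v = traceMap (p ^ m) x xi g v := by
      conv_lhs => rw [hag, ha, zero_smul, zero_add]
    rw [e]
    exact traceMap_range_le_sq p m hN hxi hxi' hk hm g v
  right
  refine ⟨?_, hk⟩
  obtain ⟨k, hk'⟩ : ∃ k, p ^ m - 1 = k + 1 := ⟨p ^ m - 2, by omega⟩
  rw [show p ^ m - 2 = k by omega] at hk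
  rw [hk'] at hNk
  obtain ⟨e, he⟩ : ∃ e, (N ^ k) e ≠ 0 := by
    by_contra hall; push_neg at hall; exact hk (LinearMap.ext hall)
  obtain ⟨φ, hφ⟩ : ∃ φ : Module.Dual F V, φ ((N ^ k) e) = 1 := by
    obtain ⟨φ, hφ⟩ : ∃ φ : Module.Dual F V, φ ((N ^ k) e) ≠ 0 := by
      by_contra hall; push_neg at hall
      exact he ((Module.forall_dual_apply_eq_zero_iff F _).mp hall)
    exact ⟨(φ ((N ^ k) e))⁻¹ • φ, by simp [inv_mul_cancel₀ hφ]⟩
  set P : Module.End F V := ∑ i ∈ Finset.range (k + 1),
    (φ.comp (N ^ (k - i))).smulRight ((N ^ i) e) with hP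
  have hPa : ∀ v, P v = ∑ i ∈ Finset.range (k + 1), φ ((N ^ (k - i)) v) • (N ^ i) e := fun v => by
    simp [hP, LinearMap.sum_apply]
  have hz : ∀ v, (N ^ (k + 1)) v = 0 := fun v => by rw [hNk]; rfl
  have hcomm : N * P = P * N := by
    refine LinearMap.ext fun v => ?_
    rw [Module.End.mul_apply, Module.End.mul_apply, hPa, hPa, map_sum]
    rw [Finset.sum_range_succ, Finset.sum_range_succ' (fun i => φ ((N ^ (k - i)) (N v)) • (N ^ i) e)]
    have e1 : N (φ ((N ^ (k - k)) v) • (N ^ k) e) = 0 := by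
      rw [map_smul, ← Module.End.mul_apply, ← pow_succ', hz, smul_zero]
    have e2 : φ ((N ^ (k - 0)) (N v)) • (N ^ 0) e = 0 := by
      rw [← Module.End.mul_apply, ← pow_succ, Nat.sub_zero, hz, map_zero, zero_smul]
    rw [e1, e2, add_zero, add_zero]
    refine Finset.sum_congr rfl fun i hi => ?_
    rw [Finset.mem_range] at hi
    rw [map_smul, ← Module.End.mul_apply N, ← pow_succ', ← Module.End.mul_apply (N ^ (k - (i + 1))), ← pow_succ,
      show k - (i + 1) + 1 = k - i by omega]
  set S := Submodule.span F ((fun i => (N ^ i) e) '' (Finset.range (k + 1) : Set ℕ)) with hS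
  have hmemS : ∀ i, i < k + 1 → (N ^ i) e ∈ S := fun i hi =>
    Submodule.subset_span ⟨i, Finset.mem_range.mpr hi, rfl⟩
  have hPS : ∀ v, P v ∈ S := fun v => by
    rw [hPa]; exact Submodule.sum_mem _ fun i hi => Submodule.smul_mem _ _ (hmemS i (Finset.mem_range.mp hi))
  obtain ⟨a, g, hag⟩ := hfix P hcomm
  have hnk : ∀ v, (N ^ k) (N v) = 0 := fun v => by rw [← Module.End.mul_apply, ← pow_succ]; exact hz v
  have hT : ∀ v, ∃ w, P v = a • v + N w := fun v => by
    obtain ⟨w, hw⟩ := traceMap_range_le p m hN hxi hxi' (hk' ▸ hNk) hm g v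
    exact ⟨w, by rw [hag]; simp [hw]⟩
  have ha : a = 1 := by
    obtain ⟨w, hw⟩ := hT e
    have h1 : (N ^ k) (P e) = (N ^ k) e := by
      rw [hPa, map_sum, Finset.sum_range_succ', Finset.sum_eq_zero, zero_add, Nat.sub_zero, hφ, one_smul, pow_zero]
      · rfl
      · intro i _
        rw [map_smul, pow_succ', Module.End.mul_apply, hnk, smul_zero]
    rw [hw, map_add, map_smul, hnk, add_zero] at h1
    have h2 : (a - 1) • (N ^ k) e = 0 := by rw [sub_smul, one_smul, h1, sub_self]
    exact sub_eq_zero.mp ((smul_eq_zero.mp h2).resolve_right he)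
  have hdec : ∀ (j : ℕ) v, v ∈ S ⊔ LinearMap.range (N ^ j) := by
    have hSN : ∀ s ∈ S, N s ∈ S := by
      intro s hs
      have : S ≤ S.comap N := by
        rw [hS, Submodule.span_le]
        rintro _ ⟨i, hi, rfl⟩
        show N ((N ^ i) e) ∈ S
        rw [← Module.End.mul_apply, ← pow_succ']
        by_cases hi' : i + 1 < k + 1
        · exact hmemS _ hi'
        · rw [show i + 1 = k + 1 by have := Finset.mem_range.mp hi; omega, hz]; exact zero_mem _
      exact this hs
    have hSj : ∀ (j : ℕ), ∀ s ∈ S, (N ^ j) s ∈ S := by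
      intro j
      induction j with
      | zero => intro s hs; exact hs
      | succ j ih => intro s hs; rw [pow_succ, Module.End.mul_apply]; exact ih _ (hSN s hs)
    intro j
    induction j with
    | zero => intro v; exact Submodule.mem_sup_right ⟨v, rfl⟩
    | succ j ih =>
      intro v
      obtain ⟨s, hs, _, ⟨u, rfl⟩, rfl⟩ := Submodule.mem_sup.mp (ih v)
      obtain ⟨w, hw⟩ := hT u
      rw [ha, one_smul] at hw
      refine Submodule.add_mem _ (Submodule.mem_sup_left hs) ?_
      rw [show u = P u - N w by rw [hw, add_sub_cancel_right], map_sub, ← Module.End.mul_apply (N ^ j) N, ← pow_succ]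
      exact Submodule.sub_mem _ (Submodule.mem_sup_left (hSj j _ (hPS u))) (Submodule.mem_sup_right ⟨w, rfl⟩)
  have htop : S = ⊤ := by
    rw [eq_top_iff]
    intro v _
    have := hdec (k + 1) v
    rwa [hNk, LinearMap.range_zero, sup_bot_eq] at this
  apply le_antisymm
  · rw [← finrank_top F V, ← htop, hS, hk']
    classical
    refine (show Module.finrank F (Submodule.span F ((fun i => (N ^ i) e) '' (Finset.range (k + 1) : Set ℕ))) ≤ _ from ?_)
    rw [← Finset.coe_image]
    exact (finrank_span_finset_le_card _).trans (Finset.card_image_le.trans_eq (Finset.card_range _))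
  · rw [hk']
    have h1 : IsNilpotent N := ⟨k + 1, hNk⟩
    by_contra hlt
    apply hk
    have h2 : Module.finrank F V ≤ k := by omega
    have h3 : N ^ Module.finrank F V = 0 := by
      have := LinearMap.aeval_self_charpoly N
      rw [(IsNilpotent.charpoly_eq_X_pow_finrank h1), map_pow, aeval_X] at this
      exact this
    exact pow_eq_zero_of_le h2 h3

end Cfsg.Agent.HH
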