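/-
The Hall–Higman Theorem B, elementary form.

Setting `IsPair`: a finite group `G`, a subgroup `Q` of order prime to `p` with central commutators,
normalized by `x` with `x ^ p ^ n = 1`, and generated by the commutators with `τ = x ^ p ^ (n - 1)`.
If `ρ` is a representation of `G` in characteristic `p`, non-trivial on `Q`, with `(ρ x - 1) ^ k = 0`,
then `p ^ n ≤ k`, or for some `1 ≤ n₀ ≤ n` the square of `p ^ n₀ - 1` divides `|Q|`, `Q` is
non-abelian, `2 < p ^ n₀` and `p ^ (n - n₀) * (p ^ n₀ - 1) ≤ k`.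
-/
import Cfsg.Agent.Lib.HHLinear

set_option autoImplicit false

open scoped commutatorElement

namespace Cfsg.Agent.HH

universe u v w

variable {F : Type*} [Field F]

/-- The data of the critical situation. -/
structure IsPair {G : Type*} [Group G] (p : ℕ) (Q : Subgroup G) (x : G) (n : ℕ) : Prop where
  one_le : 1 ≤ n
  pow_eq : x ^ p ^ n = 1
  norm : x ∈ Subgroup.normalizer (Q : Set G)
  coprime : (Nat.card Q).Coprime p
  comm : ∀ a ∈ Q, ∀ b ∈ Q, ∀ c ∈ Q, Commute ⁅a, b⁆ c
  gen : Q ≤ Subgroup.closure {y | ∃ a ∈ Q, y = ⁅a, x ^ p ^ (n - 1)⁆}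

/-- The conclusion of Theorem B. -/
def Conclusion {G : Type*} [Group G] (p : ℕ) (Q : Subgroup G) (n k : ℕ) : Prop :=
  p ^ n ≤ k ∨ ∃ n₀, 1 ≤ n₀ ∧ n₀ ≤ n ∧ (p ^ n₀ - 1) ^ 2 ∣ Nat.card Q ∧
    p ^ (n - n₀) * (p ^ n₀ - 1) ≤ k ∧ (¬ IsMulCommutative Q ∧ 2 < p ^ n₀)

section basic

variable {G : Type*} [Group G] {V : Type*} [AddCommGroup V] [Module F V] (ρ : G →* Module.End F V)

theorem rho_mul_inv (g : G) : ρ g * ρ g⁻¹ = 1 := by rw [← map_mul, mul_inv_cancel, map_one]

theorem rho_inv_mul (g : G) : ρ g⁻¹ * ρ g = 1 := by rw [← map_mul, inv_mul_cancel, map_one]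

theorem rho_inv_apply (g : G) (v : V) : ρ g⁻¹ (ρ g v) = v := by
  rw [← Module.End.mul_apply, rho_inv_mul, Module.End.one_apply]

theorem rho_apply_inv (g : G) (v : V) : ρ g (ρ g⁻¹ v) = v := by
  rw [← Module.End.mul_apply, rho_mul_inv, Module.End.one_apply]

theorem rho_injective (g : G) : Function.Injective (ρ g) := fun a b h => by
  rw [← rho_inv_apply ρ g a, h, rho_inv_apply]

theorem nontrivial_of_rho_ne_one {g : G} (h : ρ g ≠ 1) : Nontrivial V := by
  by_contra hc
  rw [not_nontrivial_iff_subsingleton] at hc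
  exact h (LinearMap.ext fun v => Subsingleton.elim _ _)

/-- The stabilizer of a subspace. -/
def stab [Finite G] (U : Submodule F V) : Subgroup G where
  carrier := {g | ∀ u ∈ U, ρ g u ∈ U}
  one_mem' := fun u hu => by rwa [map_one]
  mul_mem' := fun {a b} ha hb u hu => by rw [map_mul, Module.End.mul_apply]; exact ha _ (hb u hu)
  inv_mem' := fun {a} ha => by
    have hpow : ∀ i : ℕ, ∀ u ∈ U, ρ (a ^ i) u ∈ U := by
      intro i
      induction i with
      | zero => intro u hu; rwa [pow_zero, map_one]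
      | succ i ih => intro u hu; rw [pow_succ', map_mul, Module.End.mul_apply]; exact ha _ (ih u hu)
    intro u hu
    have h := hpow (orderOf a - 1) u hu
    rwa [← (inv_eq_of_mul_eq_one_right (show a * a ^ (orderOf a - 1) = 1 by
      rw [← pow_succ', Nat.sub_add_cancel (orderOf_pos a), pow_orderOf_eq_one]))] at h

/-- The restriction to a stable subspace. -/
def restr [Finite G] (U : Submodule F V) : stab ρ U →* Module.End F U where
  toFun g := (ρ (g : G)).restrict g.2
  map_one' := LinearMap.ext fun u => Subtype.ext (by simp)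
  map_mul' a b := LinearMap.ext fun u => Subtype.ext (by
    show ρ ((a * b : stab ρ U) : G) u = ρ (a : G) (ρ (b : G) u)
    rw [Subgroup.coe_mul, map_mul]; rfl)

theorem sub_one_pow_eq_zero {p : ℕ} [Fact p.Prime] [CharP F p] {y : G} {n : ℕ} (hy : y ^ p ^ n = 1) :
    (ρ y - 1) ^ p ^ n = 0 := by
  rcases subsingleton_or_nontrivial V with hV | hV
  · exact LinearMap.ext fun v => Subsingleton.elim _ _
  have : CharP (Module.End F V) p := charP_of_injective_algebraMap (algebraMap F _).injective p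
  rw [sub_pow_char_pow_of_commute _ _ (Commute.one_right _), one_pow, ← map_pow, hy, map_one, sub_self]

end basic

theorem IsPair.subgroupOf {G : Type*} [Group G] [Finite G] {p : ℕ} {Q : Subgroup G} {x : G} {n : ℕ}
    (h : IsPair p Q x n) (S : Subgroup G) (hQS : Q ≤ S) {y : S} {n' : ℕ} (hn' : 1 ≤ n')
    (hy : (y : G) ^ p ^ n' = 1) (hyN : (y : G) ∈ Subgroup.normalizer (Q : Set G))
    (hτ : (y : G) ^ p ^ (n' - 1) = x ^ p ^ (n - 1)) : IsPair p (Q.subgroupOf S) y n' := by
  refine ⟨hn', Subtype.ext (by simpa using hy), ?_, ?_, ?_, ?_⟩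
  · rw [Subgroup.mem_normalizer_iff]
    intro z
    show (z : G) ∈ Q ↔ ((y * z * y⁻¹ : S) : G) ∈ Q
    exact Subgroup.mem_normalizer_iff.mp hyN z
  · rw [Nat.card_congr (Subgroup.subgroupOfEquivOfLe hQS).toEquiv]; exact h.coprime
  · intro a ha b hb c hc
    exact Subtype.ext (h.comm _ ha _ hb _ hc).eq
  · intro z hz
    have hle : Q ≤ (Subgroup.closure {w : S | ∃ a ∈ Q.subgroupOf S, w = ⁅a, y ^ p ^ (n' - 1)⁆}).map S.subtype := by
      refine h.gen.trans ?_
      rw [Subgroup.closure_le]
      rintro _ ⟨a, ha, rfl⟩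
      refine ⟨⁅(⟨a, hQS ha⟩ : S), y ^ p ^ (n' - 1)⁆, Subgroup.subset_closure ⟨⟨a, hQS ha⟩, ha, rfl⟩, ?_⟩
      rw [map_commutatorElement, Subgroup.subtype_apply, Subgroup.subtype_apply, Subgroup.coe_pow, hτ]
    obtain ⟨w, hw, hwz⟩ := hle hz
    exact (Subtype.ext hwz : w = z) ▸ hw

/-- A non-scalar element centralizing `ρ(Q)` and shifted by a scalar under `x`. -/
theorem exists_shift {G : Type*} [Group G] {p : ℕ} [Fact p.Prime] [CharP F p] {V : Type*} [AddCommGroup V]
    [Module F V] (ρ : G →* Module.End F V) {Q : Subgroup G} {x : G} {n : ℕ} (hxn : x ^ p ^ n = 1)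
    (hnorm : x ∈ Subgroup.normalizer (Q : Set G))
    (h : ∃ f : Module.End F V, (∀ q ∈ Q, ρ q * f = f * ρ q) ∧ ∀ c : F, f ≠ c • 1) :
    ∃ f : Module.End F V, (∀ q ∈ Q, ρ q * f = f * ρ q) ∧ (∀ c : F, f ≠ c • 1) ∧
      ∃ c : F, ρ x * f * ρ x⁻¹ = f + c • 1 := by
  classical
  obtain ⟨f, hf, hfs⟩ := h
  set D : Module.End F (Module.End F V) :=
    LinearMap.mulLeft F (ρ x) * LinearMap.mulRight F (ρ x⁻¹) - 1 with hD
  have hDa : ∀ g, D g = ρ x * g * ρ x⁻¹ - g := fun g => by
    simp [hD, LinearMap.mulLeft_apply, LinearMap.mulRight_apply, mul_assoc]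
  have hpres : ∀ g, (∀ q ∈ Q, ρ q * g = g * ρ q) → ∀ q ∈ Q, ρ q * D g = D g * ρ q := by
    intro g hg q hq
    have hq' : x⁻¹ * q * x ∈ Q := (Subgroup.mem_normalizer_iff'.mp hnorm (x⁻¹ * q)).mpr (by
      rw [mul_inv_cancel_left]; exact hq)
    have e1 : ρ q * ρ x = ρ x * ρ (x⁻¹ * q * x) := by rw [← map_mul, ← map_mul]; congr 1; group
    have e2 : ρ x⁻¹ * ρ q = ρ (x⁻¹ * q * x) * ρ x⁻¹ := by rw [← map_mul, ← map_mul]; congr 1; group
    have : ρ q * (ρ x * g * ρ x⁻¹) = ρ x * g * ρ x⁻¹ * ρ q := by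
      calc ρ q * (ρ x * g * ρ x⁻¹) = (ρ q * ρ x) * g * ρ x⁻¹ := by simp only [mul_assoc]
        _ = ρ x * (ρ (x⁻¹ * q * x) * g) * ρ x⁻¹ := by rw [e1]; simp only [mul_assoc]
        _ = ρ x * g * (ρ (x⁻¹ * q * x) * ρ x⁻¹) := by rw [hg _ hq']; simp only [mul_assoc]
        _ = _ := by rw [← e2]; simp only [mul_assoc]
    rw [hDa, mul_sub, sub_mul, this, hg q hq]
  have hnil : D ^ p ^ n = 0 := by
    rcases subsingleton_or_nontrivial V with hV | hV
    · exact LinearMap.ext fun g => LinearMap.ext fun v => Subsingleton.elim _ _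
    have : CharP (Module.End F (Module.End F V)) p := charP_of_injective_algebraMap (algebraMap F _).injective p
    rw [hD, sub_pow_char_pow_of_commute _ _ (Commute.one_right _), one_pow, Commute.mul_pow (LinearMap.commute_mulLeft_right _ _),
      LinearMap.pow_mulLeft, LinearMap.pow_mulRight, ← map_pow, ← map_pow, inv_pow, hxn, inv_one, map_one,
      LinearMap.mulLeft_one, LinearMap.mulRight_one]
    simp [← Module.End.one_eq_id]
  have hiter : ∀ i, ∀ q ∈ Q, ρ q * (D ^ i) f = (D ^ i) f * ρ q := by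
    intro i
    induction i with
    | zero => simpa using hf
    | succ i ih => rw [pow_succ', Module.End.mul_apply]; exact hpres _ ih
  have hex : ∃ i, ∃ c : F, (D ^ i) f = c • 1 := ⟨p ^ n, 0, by rw [hnil, zero_smul]; rfl⟩
  obtain ⟨j, hj⟩ : ∃ j, Nat.find hex = j + 1 := ⟨Nat.find hex - 1, by
    have : Nat.find hex ≠ 0 := fun h0 => by
      obtain ⟨c, hc⟩ := Nat.find_spec hex
      rw [h0, pow_zero, Module.End.one_apply] at hc
      exact hfs c hc
    omega⟩
  obtain ⟨c, hc⟩ := Nat.find_spec hex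
  rw [hj, pow_succ', Module.End.mul_apply, hDa] at hc
  refine ⟨(D ^ j) f, hiter j, fun c' hc' => Nat.find_min hex (by omega : j < Nat.find hex) ⟨c', hc'⟩, c, ?_⟩
  rw [← hc, add_sub_cancel]

/-- The translates of an eigenspace. -/
theorem shift_eigen {G : Type*} [Group G] {V : Type*} [AddCommGroup V] [Module F V] (ρ : G →* Module.End F V)
    {x : G} {f : Module.End F V} {c : F} (hfx : ρ x * f * ρ x⁻¹ = f + c • 1) :
    ∀ (i : ℕ) (t : F), ∀ v ∈ f.eigenspace t, ρ (x ^ i) v ∈ f.eigenspace (t - i * c) := by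
  intro i
  induction i with
  | zero => intro t v hv; simpa using hv
  | succ i ih =>
    intro t v hv
    have h := ih t v hv
    rw [Module.End.mem_eigenspace_iff] at h ⊢
    set w := ρ (x ^ i) v with hw
    have e : ρ x (f w) = f (ρ x w) + c • ρ x w := by
      calc ρ x (f w) = (ρ x * f * ρ x⁻¹) (ρ x w) := by simp [rho_inv_apply]
        _ = _ := by rw [hfx]; simp
    rw [h, map_smul] at e
    rw [pow_succ', map_mul, Module.End.mul_apply, ← hw, show (t - ((i + 1 : ℕ) : F) * c) = (t - i * c) - c by push_cast; ring,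
      sub_smul, eq_sub_iff_add_eq, ← e]

theorem aut_pow_apply {A : Type*} [Mul A] (f : MulAut A) (a : A) :
    ∀ i : ℕ, (f ^ i : MulAut A) a = (f : A → A)^[i] a := by
  intro i
  induction i with
  | zero => rfl
  | succ i ih => rw [pow_succ', MulAut.mul_apply, ih, Function.iterate_succ_apply']

section critical

variable {G : Type*} [Group G] [Finite G] {V : Type*} [AddCommGroup V] [Module F V] [FiniteDimensional F V]
  {p : ℕ} [Fact p.Prime] [CharP F p]

/-- The elements of `Q` that are central in `ρ(Q)`. -/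
def centralPart (ρ : G →* Module.End F V) (Q : Subgroup G) : Subgroup Q where
  carrier := {a | ∀ b : Q, ρ a * ρ b = ρ b * ρ a}
  one_mem' := fun b => by simp
  mul_mem' := fun {a a'} ha ha' b => by
    rw [Subgroup.coe_mul, map_mul, mul_assoc, ha' b, ← mul_assoc, ha b, mul_assoc]
  inv_mem' := fun {a} ha b => by
    rw [Subgroup.coe_inv]
    calc ρ (a : G)⁻¹ * ρ b = ρ (a : G)⁻¹ * (ρ b * ρ a) * ρ (a : G)⁻¹ := by rw [mul_assoc, mul_assoc, rho_mul_inv, mul_one]
      _ = ρ (a : G)⁻¹ * (ρ a * ρ b) * ρ (a : G)⁻¹ := by rw [ha b]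
      _ = ρ b * ρ (a : G)⁻¹ := by rw [← mul_assoc, rho_inv_mul, one_mul]

theorem commutator_mem_centralPart (ρ : G →* Module.End F V) {Q : Subgroup G} {x : G} {n : ℕ}
    (h : IsPair p Q x n) (a b : Q) : ⁅a, b⁆ ∈ centralPart ρ Q := fun c => by
  show ρ ⁅(a : G), (b : G)⁆ * ρ c = ρ c * ρ ⁅(a : G), (b : G)⁆
  exact ((h.comm a a.2 b b.2 c c.2).map ρ).eq

theorem centralPart_normal (ρ : G →* Module.End F V) {Q : Subgroup G} {x : G} {n : ℕ}
    (h : IsPair p Q x n) : (centralPart ρ Q).Normal := by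
  refine ⟨fun a ha g => ?_⟩
  rw [show g * a * g⁻¹ = ⁅g, a⁆ * a by group]
  exact mul_mem (commutator_mem_centralPart ρ h g a) ha

/-- The critical case: `ρ(Q)` has scalar centralizer. -/
theorem critical (ρ : G →* Module.End F V) {Q : Subgroup G} {x : G} {n : ℕ} (h : IsPair p Q x n)
    (hQ : ∃ q ∈ Q, ρ q ≠ 1)
    (hC : ∀ f : Module.End F V, (∀ q ∈ Q, ρ q * f = f * ρ q) → ∃ c : F, f = c • 1)
    {k : ℕ} (hk : (ρ x - 1) ^ k = 0) : Conclusion p Q n k := by
  classical
  have hp : p.Prime := Fact.out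
  obtain ⟨q₀, hq₀, hρq₀⟩ := hQ
  have : Nontrivial V := nontrivial_of_rho_ne_one ρ hρq₀
  set Z := centralPart ρ Q with hZ
  haveI : Z.Normal := centralPart_normal ρ h
  let A := Q ⧸ Z
  have : Fintype A := Fintype.ofFinite A
  have hAcomm : ∀ a b : A, a * b = b * a := by
    intro a b
    obtain ⟨a, rfl⟩ := QuotientGroup.mk'_surjective Z a
    obtain ⟨b, rfl⟩ := QuotientGroup.mk'_surjective Z b
    rw [← commutatorElement_eq_one_iff_mul_comm, ← map_commutatorElement]
    exact (QuotientGroup.eq_one_iff _).mpr (commutator_mem_centralPart ρ h a b)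
  have hsc : ∀ z ∈ Z, ∃ c : F, ρ (z : G) = c • 1 :=
    fun z hz => hC _ fun q hq => (hz ⟨q, hq⟩).symm
  -- conjugation by classes
  let cj : Q → Module.End F V → Module.End F V := fun a f => ρ (a : G) * f * ρ (a : G)⁻¹
  have hcj_mul : ∀ a b f, cj (a * b) f = cj a (cj b f) := fun a b f => by
    simp only [cj, Subgroup.coe_mul, mul_inv_rev, map_mul, mul_assoc]
  have hcj_Z : ∀ z ∈ Z, ∀ f, cj z f = f := by
    intro z hz f
    obtain ⟨c, hc⟩ := hsc z hz
    show ρ (z : G) * f * ρ (z : G)⁻¹ = f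
    have : ρ (z : G) * f = f * ρ (z : G) := by rw [hc, smul_mul_assoc, one_mul, mul_smul_comm, mul_one]
    rw [this, mul_assoc, rho_mul_inv, mul_one]
  have hcj_class : ∀ a b : Q, (a : A) = b → ∀ f, cj a f = cj b f := by
    intro a b hab f
    obtain ⟨z, hz, rfl⟩ : ∃ z ∈ Z, b = a * z := ⟨a⁻¹ * b, QuotientGroup.eq.mp hab, by group⟩
    rw [hcj_mul, hcj_Z z hz]
  let av : A → Module.End F V → Module.End F V := fun a => cj a.out
  have hav : ∀ (a : Q) f, av a f = cj a f := fun a f => hcj_class _ _ (QuotientGroup.out_eq' _) f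
  have hsum_scalar : ∀ f, ∃ μ : F, ∑ a : A, av a f = μ • 1 := by
    intro f
    refine hC _ fun q hq => ?_
    have h1 : cj ⟨q, hq⟩ (∑ a : A, av a f) = ∑ a : A, av a f := by
      have h2 : cj ⟨q, hq⟩ (∑ a : A, av a f) = ∑ a : A, cj ⟨q, hq⟩ (av a f) := by
        simp only [cj, Finset.mul_sum, Finset.sum_mul]
      rw [h2]
      refine Fintype.sum_equiv (Equiv.mulLeft ((⟨q, hq⟩ : Q) : A)) _ _ fun a => ?_
      rw [← hcj_mul, ← hav]
      congr 1
      rw [Equiv.coe_mulLeft, QuotientGroup.mk_mul, QuotientGroup.out_eq']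
    calc ρ q * ∑ a : A, av a f = cj ⟨q, hq⟩ (∑ a : A, av a f) * ρ q := by
          simp only [cj, mul_assoc, rho_inv_mul, mul_one]
      _ = _ := by rw [h1]
  -- the action of `x` on the classes
  let θ : Q ≃* Q :=
    { toFun := fun a => ⟨x * a * x⁻¹, (Subgroup.mem_normalizer_iff.mp h.norm a).mp a.2⟩
      invFun := fun a => ⟨x⁻¹ * a * x, (Subgroup.mem_normalizer_iff.mp h.norm _).mpr (by
        rw [← mul_assoc, ← mul_assoc, mul_inv_cancel, one_mul, mul_assoc, mul_inv_cancel, mul_one]; exact a.2)⟩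
      left_inv := fun a => Subtype.ext (by simp [mul_assoc])
      right_inv := fun a => Subtype.ext (by simp [mul_assoc])
      map_mul' := fun a b => Subtype.ext (by simp [mul_assoc]) }
  have hρθ : ∀ a : Q, ρ ((θ a : Q) : G) = ρ x * ρ a * ρ x⁻¹ := fun a => by
    show ρ (x * a * x⁻¹) = _; rw [map_mul, map_mul]
  have hθZ : Z.map θ.toMonoidHom = Z := by
    refine Subgroup.eq_of_le_of_card_ge ?_ (Subgroup.card_map_of_injective θ.injective).ge
    rintro _ ⟨a, ha, rfl⟩ b
    obtain ⟨b, rfl⟩ := θ.surjective b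
    show ρ ((θ a : Q) : G) * ρ ((θ b : Q) : G) = ρ ((θ b : Q) : G) * ρ ((θ a : Q) : G)
    rw [hρθ, hρθ]
    calc ρ x * ρ a * ρ x⁻¹ * (ρ x * ρ b * ρ x⁻¹) = ρ x * (ρ a * ρ b) * ρ x⁻¹ := by
          simp only [mul_assoc]; rw [← mul_assoc (ρ x⁻¹), rho_inv_mul, one_mul]
      _ = ρ x * (ρ b * ρ a) * ρ x⁻¹ := by rw [ha b]
      _ = _ := by simp only [mul_assoc]; rw [← mul_assoc (ρ x⁻¹), rho_inv_mul, one_mul]
  let α : A ≃* A := QuotientGroup.congr Z Z θ hθZ
  have hα : ∀ a : Q, α a = (θ a : A) := fun a => rfl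
  have hαi : ∀ (i : ℕ) (a : Q), (α ^ i : MulAut A) a = ((θ ^ i : MulAut Q) a : A) := by
    intro i
    induction i with
    | zero => intro a; rfl
    | succ i ih => intro a; rw [pow_succ', pow_succ', MulAut.mul_apply, MulAut.mul_apply, ih, hα]
  have hθi : ∀ (i : ℕ) (a : Q), ((θ ^ i : MulAut Q) a : G) = x ^ i * a * (x ^ i)⁻¹ := by
    intro i
    induction i with
    | zero => intro a; simp
    | succ i ih =>
      intro a; rw [pow_succ', MulAut.mul_apply]
      show x * _ * x⁻¹ = _
      rw [ih, pow_succ']; group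
  have hα_pow : ∀ a, (α ^ p ^ n : MulAut A) a = a := by
    intro a
    obtain ⟨a, rfl⟩ := QuotientGroup.mk'_surjective Z a
    rw [QuotientGroup.mk'_apply, hαi]
    exact congrArg _ (Subtype.ext (by rw [hθi, h.pow_eq, one_mul, inv_one, mul_one]))
  -- `τ` fixes only the trivial class
  set τ := p ^ (n - 1) with hτ
  have hfree : ∀ a : A, (α ^ τ : MulAut A) a = a → a = 1 := by
    let δ : A →* A :=
      { toFun := fun a => (α ^ τ : MulAut A) a * a⁻¹
        map_one' := by simp
        map_mul' := fun a b => by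
          rw [map_mul, mul_inv_rev, hAcomm b⁻¹ a⁻¹]
          simp only [mul_assoc]
          congr 1
          rw [← mul_assoc, hAcomm _ a⁻¹, mul_assoc] }
    have hsurj : Function.Surjective δ := by
      have hle : Q ≤ (δ.range.comap (QuotientGroup.mk' Z)).map Q.subtype := by
        refine h.gen.trans ?_
        rw [Subgroup.closure_le]
        rintro _ ⟨a, ha, rfl⟩
        have hmem : ⁅a, x ^ τ⁆ ∈ Q := by
          rw [commutatorElement_def, show a * x ^ τ * a⁻¹ * (x ^ τ)⁻¹ = a * (x ^ τ * a⁻¹ * (x ^ τ)⁻¹) by group]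
          exact mul_mem ha ((Subgroup.mem_normalizer_iff.mp (pow_mem h.norm τ) _).mp (Q.inv_mem ha))
        refine ⟨⟨_, hmem⟩, ⟨(((⟨a, ha⟩ : Q) : A))⁻¹, ?_⟩, rfl⟩
        show (α ^ τ : MulAut A) _ * _ = _
        rw [← QuotientGroup.mk_inv, hαi, ← QuotientGroup.mk_inv, hAcomm, ← QuotientGroup.mk_mul, QuotientGroup.mk'_apply]
        exact congrArg _ (Subtype.ext (by simp [hθi, commutatorElement_def, hτ, mul_assoc]))
      intro a
      obtain ⟨a, rfl⟩ := QuotientGroup.mk'_surjective Z a
      obtain ⟨b, hb, hba⟩ := hle a.2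
      obtain rfl : b = a := Subtype.ext hba
      exact hb
    intro a ha
    refine (Finite.injective_iff_surjective.mpr hsurj) (show δ a = δ 1 from ?_)
    rw [map_one]
    show (α ^ τ : MulAut A) a * a⁻¹ = 1
    rw [ha, mul_inv_cancel]
  -- every orbit of a non-trivial class has length `p ^ n`
  have hperiod : ∀ a : A, a ≠ 1 → ∀ i j, i < p ^ n → j < p ^ n →
      (α ^ i : MulAut A) a = (α ^ j : MulAut A) a → i = j := by
    intro a ha
    have key : ∀ d, 0 < d → d < p ^ n → (α ^ d : MulAut A) a ≠ a := by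
      intro d hd hdlt hfix
      have hper : Function.minimalPeriod α a ∣ τ := by
        have h1 : Function.minimalPeriod α a ∣ p ^ n := by
          refine Function.IsPeriodicPt.minimalPeriod_dvd ?_
          show (α : A → A)^[p ^ n] a = a
          rw [← aut_pow_apply]; exact hα_pow a
        have h2 : Function.minimalPeriod α a ∣ d := by
          refine Function.IsPeriodicPt.minimalPeriod_dvd ?_
          show (α : A → A)^[d] a = a
          rw [← aut_pow_apply]; exact hfix
        obtain ⟨e, he, hee⟩ := (Nat.dvd_prime_pow hp).mp h1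
        rw [hee, hτ]
        refine Nat.pow_dvd_pow p ?_
        by_contra hc
        rw [hee, show e = n by omega] at h2
        exact absurd (Nat.le_of_dvd hd h2) (by omega)
      refine ha (hfree a ?_)
      rw [aut_pow_apply]
      exact Function.isPeriodicPt_iff_minimalPeriod_dvd.mpr hper
    intro i j hi hj hij
    by_contra hne
    wlog hlt : i < j generalizing i j
    · exact this j i hj hi hij.symm (Ne.symm hne) (by omega)
    refine key (p ^ n - j + i) (by omega) (by omega) ?_
    have := congrArg (fun b => (α ^ (p ^ n - j) : MulAut A) b) hij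
    simp only [← MulAut.mul_apply, ← pow_add, Nat.sub_add_cancel hj.le, hα_pow] at this
    exact this
  -- one representative from each orbit
  obtain ⟨w, hw⟩ : ∃ w : A → F, ∀ a : A, (∑ i ∈ Finset.range (p ^ n), w ((α ^ i : MulAut A) a)) = if a = 1 then 0 else 1 := by
    let e := Fintype.equivFin A
    refine ⟨fun b => if b ≠ 1 ∧ ∀ i < p ^ n, e b ≤ e ((α ^ i : MulAut A) b) then 1 else 0, fun a => ?_⟩
    split_ifs with ha
    · subst ha
      refine Finset.sum_eq_zero fun i _ => if_neg ?_
      simp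
    obtain ⟨i₀, hi₀, hmin⟩ := Finset.exists_min_image (Finset.range (p ^ n)) (fun i => e ((α ^ i : MulAut A) a))
      ⟨0, Finset.mem_range.mpr (pow_pos hp.pos n)⟩
    rw [Finset.mem_range] at hi₀
    have hne : ∀ i, (α ^ i : MulAut A) a ≠ 1 := fun i hi => ha ((map_eq_one_iff _ (α ^ i : MulAut A).injective).mp hi)
    have hmod : ∀ i, (α ^ i : MulAut A) a = (α ^ (i % p ^ n) : MulAut A) a := fun i => by
      conv_lhs => rw [← Nat.mod_add_div i (p ^ n)]
      rw [pow_add, MulAut.mul_apply]
      congr 1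
      induction i / p ^ n with
      | zero => simp
      | succ m ihm => rw [Nat.mul_succ, pow_add, MulAut.mul_apply, hα_pow, ihm]
    rw [Finset.sum_eq_single i₀]
    · refine if_pos ⟨hne i₀, fun i _ => ?_⟩
      rw [← MulAut.mul_apply, ← pow_add, hmod (i + i₀)]
      exact hmin _ (Finset.mem_range.mpr (Nat.mod_lt _ (pow_pos hp.pos n)))
    · intro i hi hii
      refine if_neg fun hc => hii ?_
      rw [Finset.mem_range] at hi
      have h1 := hc.2 ((p ^ n - i + i₀) % p ^ n) (Nat.mod_lt _ (pow_pos hp.pos n))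
      rw [← MulAut.mul_apply, ← pow_add, hmod ((p ^ n - i + i₀) % p ^ n + i), Nat.mod_add_mod, show p ^ n - i + i₀ + i = i₀ + p ^ n by omega,
        Nat.add_mod_right, ← hmod] at h1
      exact hperiod a ha i i₀ hi hi₀ (e.injective (le_antisymm h1 (hmin i (Finset.mem_range.mpr hi))))
    · intro hni; exact absurd (Finset.mem_range.mpr hi₀) hni
  -- fixed points are scalar plus trace
  set X := ρ x with hX
  set Xi := ρ x⁻¹ with hXi
  set N := X - 1 with hNdef
  have hN : X = 1 + N := by rw [hNdef, add_sub_cancel]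
  have hcard0 : (Nat.card A : F) ≠ 0 := by
    rw [Ne, CharP.cast_eq_zero_iff F p]
    intro hd
    exact hp.coprime_iff_not_dvd.mp h.coprime.symm (hd.trans (Subgroup.card_quotient_dvd_card Z))
  have havx : ∀ (i : ℕ) (a : A) f, X ^ i * f = f * X ^ i →
      X ^ i * av a f * Xi ^ i = av ((α ^ i : MulAut A) a) f := by
    intro i a f hf
    obtain ⟨a, rfl⟩ := QuotientGroup.mk'_surjective Z a
    rw [QuotientGroup.mk'_apply, hαi, hav, hav]
    have h1 : X ^ i * Xi ^ i = 1 := by rw [hX, hXi, ← map_pow, ← map_pow, inv_pow, rho_mul_inv]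
    have h2 : Xi ^ i * X ^ i = 1 := by rw [hX, hXi, ← map_pow, ← map_pow, inv_pow, rho_inv_mul]
    show _ = ρ ((θ ^ i : MulAut Q) a : G) * f * ρ ((θ ^ i : MulAut Q) a : G)⁻¹
    rw [hθi, mul_inv_rev, mul_inv_rev, inv_inv, map_mul, map_mul, map_mul, map_mul, ← inv_pow, map_pow, map_pow,
      ← hX, ← hXi]
    have hf2 : Xi ^ i * f * X ^ i = f := by rw [mul_assoc, ← hf, ← mul_assoc, h2, one_mul]
    calc X ^ i * (ρ (a : G) * f * ρ (a : G)⁻¹) * Xi ^ i
        = X ^ i * ρ (a : G) * (Xi ^ i * f * X ^ i) * ρ (a : G)⁻¹ * Xi ^ i := by rw [hf2]; simp only [mul_assoc]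
      _ = _ := by simp only [mul_assoc]
  have hfix : ∀ f : Module.End F V, N * f = f * N →
      ∃ (a : F) (g : Module.End F V), f = a • (1 : Module.End F V) + traceMap (p ^ n) X Xi g := by
    intro f hf
    have hfX : Commute X f := by rw [hN]; exact (Commute.one_left f).add_left hf
    obtain ⟨μ, hμ⟩ := hsum_scalar f
    refine ⟨μ, -∑ a : A, w a • av a f, ?_⟩
    have hT : traceMap (p ^ n) X Xi (∑ a : A, w a • av a f) = (∑ a : A, av a f) - av 1 f := by
      rw [traceMap]
      simp only [Finset.mul_sum, Finset.sum_mul, mul_smul_comm, smul_mul_assoc]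
      have e1 : ∀ i ∈ Finset.range (p ^ n), ∀ a : A, w a • (X ^ i * av a f * Xi ^ i) = w a • av ((α ^ i : MulAut A) a) f :=
        fun i _ a => by rw [havx i a f (hfX.pow_left i).eq]
      rw [Finset.sum_congr rfl fun i hi => Finset.sum_congr rfl fun a _ => e1 i hi a]
      have e2 : ∀ i ∈ Finset.range (p ^ n), (∑ a : A, w a • av ((α ^ i : MulAut A) a) f) =
          ∑ b : A, w ((α ^ (p ^ n - i) : MulAut A) b) • av b f := by
        intro i hi
        rw [Finset.mem_range] at hi
        refine Fintype.sum_equiv (α ^ i : MulAut A).toEquiv _ _ fun a => ?_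
        show _ = w ((α ^ (p ^ n - i) : MulAut A) ((α ^ i : MulAut A) a)) • _
        rw [← MulAut.mul_apply, ← pow_add, Nat.sub_add_cancel hi.le, hα_pow]
        rfl
      rw [Finset.sum_congr rfl e2, Finset.sum_comm]
      simp only [← Finset.sum_smul]
      have e3 : ∀ b : A, (∑ i ∈ Finset.range (p ^ n), w ((α ^ (p ^ n - i) : MulAut A) b)) = if b = 1 then (0 : F) else 1 := by
        intro b
        rw [← hw b]
        refine Finset.sum_nbij' (fun i => (p ^ n - i) % p ^ n) (fun i => (p ^ n - i) % p ^ n) ?_ ?_ ?_ ?_ ?_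
        · intro i _; exact Finset.mem_coe.mpr (Finset.mem_range.mpr (Nat.mod_lt _ (pow_pos hp.pos n)))
        · intro i _; exact Finset.mem_coe.mpr (Finset.mem_range.mpr (Nat.mod_lt _ (pow_pos hp.pos n)))
        · intro i hi
          have := Finset.mem_range.mp hi
          rcases Nat.eq_zero_or_pos i with rfl | hpos
          · simp
          · rw [Nat.mod_eq_of_lt (show p ^ n - i < p ^ n by omega), show p ^ n - (p ^ n - i) = i by omega, Nat.mod_eq_of_lt this]
        · intro i hi
          have := Finset.mem_range.mp hi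
          rcases Nat.eq_zero_or_pos i with rfl | hpos
          · simp
          · rw [Nat.mod_eq_of_lt (show p ^ n - i < p ^ n by omega), show p ^ n - (p ^ n - i) = i by omega, Nat.mod_eq_of_lt this]
        · intro i hi
          congr 1
          rcases Nat.eq_zero_or_pos i with rfl | hpos
          · rw [Nat.sub_zero, Nat.mod_self, pow_zero, MulAut.one_apply, hα_pow]
          · have := Finset.mem_range.mp hi
            rw [Nat.mod_eq_of_lt (show p ^ n - i < p ^ n by omega)]
      simp only [e3, ite_smul, zero_smul, one_smul]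
      rw [← Finset.sum_erase_add _ _ (Finset.mem_univ (1 : A)), if_pos rfl, add_zero,
        ← Finset.sum_erase_add _ (fun b => av b f) (Finset.mem_univ (1 : A)), add_sub_cancel_right]
      exact Finset.sum_congr rfl fun b hb => if_neg (Finset.ne_of_mem_erase hb)
    have h1 : av 1 f = f := by rw [← QuotientGroup.mk_one, hav]; simp [cj]
    rw [show traceMap (p ^ n) X Xi (-∑ a : A, w a • av a f) = -traceMap (p ^ n) X Xi (∑ a : A, w a • av a f) by
      simp [traceMap], hT, h1, hμ]
    abel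
  -- the linear algebra
  have hXX : X * Xi = 1 := rho_mul_inv ρ x
  have hXX' : Xi * X = 1 := rho_inv_mul ρ x
  have hm2 : 2 ≤ p ^ n := hp.two_le.trans (Nat.le_self_pow (by have := h.one_le; omega) p)
  by_cases hNk : N ^ (p ^ n - 1) = 0
  swap
  · left
    by_contra hlt
    exact hNk (pow_eq_zero_of_le (by omega) hk)
  rcases finrank_eq_of_fixed p n hm2 hN hXX hXX' hNk hfix with hN0 | ⟨hdim, hN2⟩
  · exfalso
    have hX1 : X = 1 := by rw [hN, hN0, add_zero]
    have hXi1 : Xi = 1 := by have := hXX; rwa [hX1, one_mul] at this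
    have htriv : Q ≤ ρ.ker := by
      refine h.gen.trans ?_
      rw [Subgroup.closure_le]
      rintro _ ⟨a, _, rfl⟩
      show ρ _ = 1
      rw [commutatorElement_def, map_mul, map_mul, map_mul, ← inv_pow, map_pow, map_pow, ← hX, ← hXi, hX1, hXi1]
      simp [rho_mul_inv]
    exact hρq₀ (htriv hq₀)
  right
  refine ⟨n, h.one_le, le_rfl, ?_, ?_, ?_⟩
  · refine dvd_trans (dvd_of_eq ?_) (Subgroup.card_quotient_dvd_card Z)
    rw [← hdim, Nat.card_eq_fintype_card, pow_two, ← Module.finrank_linearMap (R := F) (S := F)]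
    have hli : LinearIndependent F fun a : A => ρ ((a.out : Q) : G) := by
      rw [linearIndependent_iff']
      intro s
      induction s using Finset.induction with
      | empty => simp
      | @insert a s has ih =>
        intro g hsum
        rw [Finset.sum_insert has] at hsum
        have hs : ∀ b ∈ s, g b = 0 := by
          intro b hb
          have hab : (a.out)⁻¹ * b.out ∉ Z := fun hz => has (by
            have := QuotientGroup.eq.mpr hz; rw [QuotientGroup.out_eq', QuotientGroup.out_eq'] at this; rwa [this])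
          obtain ⟨e, he⟩ : ∃ e : Q, ρ (((a.out)⁻¹ * b.out : Q) : G) * ρ e ≠ ρ e * ρ (((a.out)⁻¹ * b.out : Q) : G) := by
            by_contra hall; push_neg at hall; exact hab hall
          choose c hc using fun c : A => hsc _ (commutator_mem_centralPart ρ h e c.out)
          have hce : ∀ d : A, ρ (e : G) * ρ (d.out : G) * ρ (e : G)⁻¹ = c d • ρ (d.out : G) := fun d => by
            rw [← map_mul, ← map_mul, show (e : G) * (d.out : G) * (e : G)⁻¹ = ((⁅e, d.out⁆ : Q) : G) * (d.out : G) by
              simp [commutatorElement_def], map_mul, hc d, smul_mul_assoc, one_mul]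
          have hzero : ∀ d ∈ s, g d * (c d - c a) = 0 := by
            refine ih _ ?_
            have h1 : ρ (e : G) * (g a • ρ (a.out : G) + ∑ d ∈ s, g d • ρ (d.out : G)) * ρ (e : G)⁻¹ = 0 := by
              rw [hsum, mul_zero, zero_mul]
            rw [mul_add, add_mul, Finset.mul_sum, Finset.sum_mul] at h1
            simp only [mul_smul_comm, smul_mul_assoc, hce, smul_smul] at h1
            have h2 : c a • (g a • ρ (a.out : G) + ∑ d ∈ s, g d • ρ (d.out : G)) = 0 := by rw [hsum, smul_zero]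
            rw [smul_add, Finset.smul_sum] at h2
            simp only [smul_smul] at h2
            rw [mul_comm (c a) (g a)] at h2
            have h3 := congrArg₂ (· - ·) h1 h2
            simp only [add_sub_add_left_eq_sub, sub_zero, ← Finset.sum_sub_distrib, ← sub_smul] at h3
            convert h3 using 2 with d
            congr 1
            ring
          refine (mul_eq_zero.mp (hzero b hb)).resolve_right (sub_ne_zero.mpr fun hcb => he ?_)
          have hca := hce a
          have hcb' := hce b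
          rw [← hcb] at hca
          have k1 : ρ (e : G) * ρ (a.out : G) = c b • (ρ (a.out : G) * ρ (e : G)) := by
            rw [← smul_mul_assoc, ← hca, mul_assoc (ρ (e : G) * ρ (a.out : G)), rho_inv_mul, mul_one]
          have k2 : ρ (e : G) * ρ (b.out : G) = c b • (ρ (b.out : G) * ρ (e : G)) := by
            rw [← smul_mul_assoc, ← hcb', mul_assoc (ρ (e : G) * ρ (b.out : G)), rho_inv_mul, mul_one]
          rw [Subgroup.coe_mul, Subgroup.coe_inv, map_mul]
          symm
          calc ρ (e : G) * (ρ (a.out : G)⁻¹ * ρ (b.out : G))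
              = ρ (a.out : G)⁻¹ * (ρ (a.out : G) * ρ (e : G)) * ρ (a.out : G)⁻¹ * ρ (b.out : G) := by
                rw [← mul_assoc (ρ (a.out : G)⁻¹), rho_inv_mul, one_mul, mul_assoc]
            _ = ρ (a.out : G)⁻¹ * ρ (b.out : G) * ρ (e : G) := by
                by_cases hc0 : c b = 0
                · exfalso
                  rw [hc0, zero_smul] at k1
                  exact one_ne_zero (α := Module.End F V) (by
                    rw [← rho_mul_inv ρ ((e : G) * a.out), map_mul, k1, zero_mul])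
                have k3 : ρ (a.out : G) * ρ (e : G) = (c b)⁻¹ • (ρ (e : G) * ρ (a.out : G)) := by
                  rw [k1, smul_smul, inv_mul_cancel₀ hc0, one_smul]
                rw [k3, mul_smul_comm, smul_mul_assoc, smul_mul_assoc, ← mul_assoc (ρ (a.out : G)⁻¹) (ρ (e : G)),
                  mul_assoc (ρ (a.out : G)⁻¹ * ρ (e : G)) (ρ (a.out : G)), rho_mul_inv, mul_one, mul_assoc, k2,
                  mul_smul_comm, smul_smul, inv_mul_cancel₀ hc0, one_smul, mul_assoc]
        intro i hi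
        rcases Finset.mem_insert.mp hi with rfl | hi
        · rw [Finset.sum_eq_zero (fun b hb => by rw [hs b hb, zero_smul]), add_zero, smul_eq_zero] at hsum
          refine hsum.resolve_right fun h0 => one_ne_zero (α := Module.End F V) ?_
          rw [← rho_mul_inv ρ ((i.out : Q) : G), h0, zero_mul]
        · exact hs i hi
    refine le_antisymm ?_ hli.fintype_card_le_finrank
    set S := Submodule.span F (Set.range fun a : A => ρ ((a.out : Q) : G)) with hS
    have htop : S = ⊤ := by
      have hrank : ∀ (u : V) (φ : Module.Dual F V), φ.smulRight u ∈ S := by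
        intro u φ
        obtain ⟨v₀, φ₀, hv₀⟩ : ∃ (v₀ : V) (φ₀ : Module.Dual F V), φ₀ v₀ = 1 := by
          obtain ⟨v₀, hv₀⟩ := exists_ne (0 : V)
          obtain ⟨φ₁, hφ₁⟩ : ∃ φ₁ : Module.Dual F V, φ₁ v₀ ≠ 0 := by
            by_contra hall; push_neg at hall
            exact hv₀ ((Module.forall_dual_apply_eq_zero_iff F _).mp hall)
          exact ⟨v₀, (φ₁ v₀)⁻¹ • φ₁, by simp [inv_mul_cancel₀ hφ₁]⟩
        have key : ∀ (v : V) (ψ : Module.Dual F V), ∃ μ : F, ψ v * (Nat.card A : F) = (Module.finrank F V : F) * μ ∧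
            ∀ y, (∑ a : A, ψ (ρ ((a.out : Q) : G)⁻¹ y) • ρ ((a.out : Q) : G) v) = μ • y := by
          intro v ψ
          obtain ⟨μ, hμ⟩ := hsum_scalar (ψ.smulRight v)
          refine ⟨μ, ?_, fun y => ?_⟩
          · have := congrArg (LinearMap.trace F V) hμ
            rw [map_sum, map_smul, LinearMap.trace_one, smul_eq_mul] at this
            rw [Finset.sum_congr rfl (fun a _ => show LinearMap.trace F V (av a (ψ.smulRight v)) = ψ v by
              show LinearMap.trace F V (ρ _ * ψ.smulRight v * ρ _) = _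
              rw [LinearMap.trace_mul_comm, ← mul_assoc, rho_inv_mul, one_mul, LinearMap.trace_smulRight])] at this
            rw [Finset.sum_const, Finset.card_univ, nsmul_eq_mul, ← Nat.card_eq_fintype_card] at this
            rw [mul_comm, this, mul_comm]
          · have h2 := congrArg (fun g : Module.End F V => g y) hμ
            simp only [LinearMap.sum_apply, LinearMap.smul_apply, Module.End.one_apply] at h2
            rw [← h2]
            refine Finset.sum_congr rfl fun a _ => ?_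
            simp [av, cj]
        obtain ⟨μ₀, h1, -⟩ := key v₀ φ₀
        have hd0 : (Module.finrank F V : F) ≠ 0 := by
          intro hd
          rw [hd, zero_mul, hv₀, one_mul] at h1
          exact hcard0 h1
        set lam := (Nat.card A : F) / (Module.finrank F V : F) with hlam
        have hlam0 : lam ≠ 0 := div_ne_zero hcard0 hd0
        have hsum : ∀ (v y : V) (ψ : Module.Dual F V),
            (∑ a : A, ψ (ρ ((a.out : Q) : G)⁻¹ y) • ρ ((a.out : Q) : G) v) = (lam * ψ v) • y := by
          intro v y ψ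
          obtain ⟨μ, h1, h2⟩ := key v ψ
          rw [h2 y]
          congr 1
          rw [hlam, div_mul_eq_mul_div, eq_div_iff hd0, mul_comm μ, ← h1, mul_comm]
        have he : φ.smulRight u = lam⁻¹ • ∑ a : A, φ (ρ ((a.out : Q) : G)⁻¹ u) • ρ ((a.out : Q) : G) := by
          refine LinearMap.ext fun v => ?_
          rw [LinearMap.smulRight_apply, LinearMap.smul_apply, LinearMap.sum_apply]
          simp only [LinearMap.smul_apply]
          rw [hsum, smul_smul, ← mul_assoc, inv_mul_cancel₀ hlam0, one_mul]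
        rw [he]
        exact S.smul_mem _ (S.sum_mem fun a _ => S.smul_mem _ (Submodule.subset_span ⟨a, rfl⟩))
      rw [eq_top_iff]
      intro f _
      let b := Module.finBasis F V
      have he : f = ∑ i, (b.coord i).smulRight (f (b i)) := by
        refine LinearMap.ext fun v => ?_
        simp only [LinearMap.sum_apply, LinearMap.smulRight_apply, Module.Basis.coord_apply, ← map_smul, ← map_sum,
          Module.Basis.sum_repr]
      rw [he]
      exact S.sum_mem fun i _ => hrank _ _
    rw [← finrank_top F (Module.End F V), ← htop]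
    exact finrank_range_le_card _
  · rw [Nat.sub_self, pow_zero, one_mul]
    by_contra hlt
    exact hN2 (pow_eq_zero_of_le (by omega) hk)
  · have hnoscalar : ¬ ∀ a : Q, ∃ c : F, ρ (a : G) = c • (1 : Module.End F V) := by
      intro hall
      refine hρq₀ (?_ : q₀ ∈ ρ.ker)
      refine (h.gen.trans ?_) hq₀
      rw [Subgroup.closure_le]
      rintro _ ⟨a, ha, rfl⟩
      show ρ _ = 1
      rw [commutatorElement_def, map_mul, map_mul, map_mul]
      obtain ⟨c, hc⟩ := hall ⟨a, ha⟩
      calc ρ a * ρ (x ^ p ^ (n - 1)) * ρ a⁻¹ * ρ (x ^ p ^ (n - 1))⁻¹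
          = ρ (x ^ p ^ (n - 1)) * (ρ a * ρ a⁻¹) * ρ (x ^ p ^ (n - 1))⁻¹ := by
            rw [show ρ a = c • 1 from hc, smul_mul_assoc, one_mul]
            simp only [mul_smul_comm, smul_mul_assoc, mul_one, one_mul]
        _ = 1 := by rw [rho_mul_inv, mul_one, rho_mul_inv]
    refine ⟨fun hc => hnoscalar fun a => hsc a fun b => ?_, ?_⟩
    · rw [← map_mul, ← map_mul]; exact congrArg ρ (congrArg Subtype.val (hc.is_comm.comm a b))
    · by_contra hle
      have hd1 : Module.finrank F V = 1 := by omega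
      refine hnoscalar fun a => ?_
      have hd2 : Module.finrank F (Module.End F V) = 1 := by rw [Module.finrank_linearMap, hd1]
      obtain ⟨c, hc⟩ := (finrank_eq_one_iff_of_nonzero' (1 : Module.End F V) one_ne_zero).mp hd2 (ρ (a : G))
      exact ⟨c, hc.symm⟩

end critical

/-- Theorem B for an irreducible representation. -/
theorem irreducible_case [IsAlgClosed F] {p : ℕ} [Fact p.Prime] [CharP F p] :
    ∀ (d : ℕ) (G : Type u) [Group G] [Finite G] (V : Type v) [AddCommGroup V] [Module F V] [FiniteDimensional F V]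
      (ρ : G →* Module.End F V) (Q : Subgroup G) (x : G) (n k : ℕ),
      Module.finrank F V = d → IsPair p Q x n → (∃ q ∈ Q, ρ q ≠ 1) →
      (∀ W : Submodule F V, (∀ q ∈ Q, ∀ w ∈ W, ρ q w ∈ W) → (∀ w ∈ W, ρ x w ∈ W) → W = ⊥ ∨ W = ⊤) →
      (ρ x - 1) ^ k = 0 → Conclusion p Q n k := by
  intro d
  induction d using Nat.strong_induction_on with
  | _ d ih =>
  intro G _ _ V _ _ _ ρ Q x n k hd h hQ hirr hk
  classical
  have hp : p.Prime := Fact.out
  by_cases hC : ∀ f : Module.End F V, (∀ q ∈ Q, ρ q * f = f * ρ q) → ∃ c : F, f = c • 1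
  · exact critical ρ h hQ hC hk
  push_neg at hC
  obtain ⟨f, hf, hfs, c, hfx⟩ := exists_shift ρ h.pow_eq h.norm (by
    obtain ⟨f, hf, hfs⟩ := hC; exact ⟨f, hf, hfs⟩)
  obtain ⟨q₀, hq₀, hρq₀⟩ := hQ
  have : Nontrivial V := nontrivial_of_rho_ne_one ρ hρq₀
  obtain ⟨t, ht⟩ := Module.End.exists_eigenvalue f
  set U := f.eigenspace t with hU
  have hUne : U ≠ ⊥ := ht
  have hQU : ∀ q ∈ Q, ∀ (s : F), ∀ u ∈ f.eigenspace s, ρ q u ∈ f.eigenspace s := by
    intro q hq s u hu
    rw [Module.End.mem_eigenspace_iff] at hu ⊢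
    rw [← Module.End.mul_apply, ← hf q hq, Module.End.mul_apply, hu, map_smul]
  have hshift := shift_eigen ρ hfx
  have hUtop : U ≠ ⊤ := by
    intro htop
    refine hfs t (LinearMap.ext fun v => ?_)
    have hv : v ∈ U := htop ▸ Submodule.mem_top
    rw [hU, Module.End.mem_eigenspace_iff] at hv
    simpa using hv
  have hc0 : c ≠ 0 := by
    intro hc0
    refine hUtop ((hirr U (fun q hq w hw => hQU q hq t w hw) fun w hw => ?_).resolve_left hUne)
    have := hshift 1 t w hw
    rw [hU, Module.End.mem_eigenspace_iff]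
    simpa [hc0] using this
  have hp0 : ((p : ℕ) : F) = 0 := CharP.cast_eq_zero F p
  set y := x ^ p with hy
  have hyU : ∀ u ∈ U, ρ y u ∈ U := by
    intro u hu
    have := hshift p t u hu
    rwa [hp0, zero_mul, sub_zero] at this
  have hxQ : ∀ (i : ℕ), ∀ q ∈ Q, (x ^ i)⁻¹ * q * x ^ i ∈ Q := fun i q hq => by
    refine (Subgroup.mem_normalizer_iff'.mp (pow_mem h.norm i) ((x ^ i)⁻¹ * q)).mpr ?_
    rw [mul_inv_cancel_left]; exact hq
  -- independence of the translates
  have hindep : ∀ w : ℕ → V, (∀ i < p, w i ∈ U) → (∑ i ∈ Finset.range p, ρ (x ^ i) (w i)) = 0 →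
      ∀ i < p, w i = 0 := by
    intro w hw hsum i hi
    have hinj : ∀ a ∈ Finset.range p, ∀ b ∈ Finset.range p, t - (a : F) * c = t - (b : F) * c → a = b := by
      intro a ha b hb hab
      rw [sub_right_inj, mul_left_inj' hc0] at hab
      exact CharP.natCast_injOn_Iio F p (Finset.mem_range.mp ha) (Finset.mem_range.mp hb) hab
    let g : F → V := fun s => ∑ a ∈ Finset.range p, if t - (a : F) * c = s then ρ (x ^ a) (w a) else 0
    have hval : ∀ a ∈ Finset.range p, g (t - (a : F) * c) = ρ (x ^ a) (w a) := by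
      intro a ha
      show (∑ b ∈ Finset.range p, _) = _
      rw [Finset.sum_eq_single a, if_pos rfl]
      · intro b hb hba; exact if_neg fun hh => hba (hinj b hb a ha hh)
      · intro hna; exact absurd ha hna
    have h0 := (iSupIndep_iff_finsetSum_eq_zero_imp_eq_zero _).mp f.eigenspaces_iSupIndep
      ((Finset.range p).image fun a : ℕ => t - (a : F) * c) g ?_ ?_ (t - (i : F) * c)
      (Finset.mem_image_of_mem _ (Finset.mem_range.mpr hi))
    · rw [hval i (Finset.mem_range.mpr hi)] at h0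
      exact rho_injective ρ (x ^ i) (by rw [h0, map_zero])
    · intro s hs
      obtain ⟨a, ha, rfl⟩ := Finset.mem_image.mp hs
      rw [hval a ha]
      exact hshift a t _ (hw a (Finset.mem_range.mp ha))
    · rw [Finset.sum_image hinj, Finset.sum_congr rfl hval]
      exact hsum
  -- the representation on `U`
  set S := stab ρ U with hS
  have hQS : Q ≤ S := fun q hq u hu => hQU q hq t u hu
  have hyS : y ∈ S := hyU
  let σ := restr ρ U
  -- `U` is irreducible and `Q` is non-trivial on it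
  have hspan : ∀ W : Submodule F V, W ≤ U → (∀ q ∈ Q, ∀ w ∈ W, ρ q w ∈ W) → (∀ w ∈ W, ρ y w ∈ W) → W ≠ ⊥ →
      ∀ v : V, ∃ ws : ℕ → V, (∀ i, ws i ∈ W) ∧ v = ∑ i ∈ Finset.range p, ρ (x ^ i) (ws i) := by
    intro W hWU hWQ hWy hW v
    let M : Submodule F V :=
      { carrier := {v | ∃ ws : ℕ → V, (∀ i, ws i ∈ W) ∧ v = ∑ i ∈ Finset.range p, ρ (x ^ i) (ws i)}
        zero_mem' := ⟨fun _ => 0, fun _ => zero_mem _, by simp⟩
        add_mem' := by
          rintro a b ⟨wa, ha, rfl⟩ ⟨wb, hb, rfl⟩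
          exact ⟨fun i => wa i + wb i, fun i => add_mem (ha i) (hb i), by simp [Finset.sum_add_distrib]⟩
        smul_mem' := by
          rintro r a ⟨wa, ha, rfl⟩
          exact ⟨fun i => r • wa i, fun i => W.smul_mem r (ha i), by simp [Finset.smul_sum]⟩ }
    have hM : M = ⊤ := by
      refine (hirr M ?_ ?_).resolve_left ?_
      · rintro q hq _ ⟨ws, hws, rfl⟩
        refine ⟨fun i => ρ ((x ^ i)⁻¹ * q * x ^ i) (ws i), fun i => hWQ _ (hxQ i q hq) _ (hws i), ?_⟩
        rw [map_sum]
        refine Finset.sum_congr rfl fun i _ => ?_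
        rw [← Module.End.mul_apply, ← Module.End.mul_apply, ← map_mul, ← map_mul, ← mul_assoc, mul_inv_cancel_left]
      · rintro _ ⟨ws, hws, rfl⟩
        refine ⟨fun i => if i = 0 then ρ y (ws (p - 1)) else ws (i - 1),
          fun i => by by_cases hi : i = 0 <;> simp [hi, hws, hWy], ?_⟩
        obtain ⟨j, hj⟩ : ∃ j, p = j + 1 := ⟨p - 1, (Nat.sub_add_cancel hp.pos).symm⟩
        simp only [hj, Nat.add_sub_cancel]
        rw [map_sum, Finset.sum_range_succ, Finset.sum_range_succ' (fun i => ρ (x ^ i) (if i = 0 then ρ y (ws j) else ws (i - 1)))]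
        simp only [if_pos, pow_zero, map_one, Module.End.one_apply, Nat.succ_ne_zero, if_false, Nat.add_sub_cancel]
        rw [← Module.End.mul_apply, ← map_mul, ← pow_succ', show x ^ (j + 1) = y by rw [hy, hj]]
        congr 1
        refine Finset.sum_congr rfl fun i _ => ?_
        rw [← Module.End.mul_apply, ← map_mul, ← pow_succ']
      · intro hMbot
        apply hW
        rw [eq_bot_iff]
        intro u hu
        have : u ∈ M := ⟨fun i => if i = 0 then u else 0, fun i => by by_cases hi : i = 0 <;> simp [hi, hu],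
          by rw [Finset.sum_eq_single 0] <;> simp +contextual [hp.pos]⟩
        rwa [hMbot] at this
    obtain ⟨ws, h1, h2⟩ : v ∈ M := hM ▸ Submodule.mem_top
    exact ⟨ws, h1, h2⟩
  have hirrU : ∀ W : Submodule F U, (∀ q ∈ Q.subgroupOf S, ∀ w ∈ W, σ q w ∈ W) →
      (∀ w ∈ W, σ ⟨y, hyS⟩ w ∈ W) → W = ⊥ ∨ W = ⊤ := by
    intro W hWQ hWy
    by_cases hW : W = ⊥
    · exact Or.inl hW
    right
    rw [eq_top_iff]
    rintro ⟨v, hv⟩ -
    obtain ⟨ws, hws, hsum⟩ := hspan (W.map U.subtype) (Submodule.map_subtype_le U W)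
      (by rintro q hq _ ⟨w, hw, rfl⟩; exact ⟨σ ⟨q, hQS hq⟩ w, hWQ ⟨q, hQS hq⟩ hq w hw, rfl⟩)
      (by rintro _ ⟨w, hw, rfl⟩; exact ⟨σ ⟨y, hyS⟩ w, hWy w hw, rfl⟩)
      (fun hb => hW (Submodule.map_injective_of_injective U.injective_subtype (by rw [hb, Submodule.map_bot]))) v
    have h0 := hindep (fun i => if i = 0 then v - ws 0 else -ws i) (fun i _ => by
      by_cases hi : i = 0
      · simp only [hi, if_pos]; exact sub_mem hv (Submodule.map_subtype_le U W (hws 0))
      · simp only [hi, if_false]; exact neg_mem (Submodule.map_subtype_le U W (hws i))) ?_ 0 hp.pos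
    · simp only [if_pos, sub_eq_zero] at h0
      obtain ⟨w, hw, hwv⟩ := hws 0
      exact (Subtype.ext (hwv.trans h0.symm) : w = ⟨v, hv⟩) ▸ hw
    · obtain ⟨j, hj⟩ : ∃ j, p = j + 1 := ⟨p - 1, (Nat.sub_add_cancel hp.pos).symm⟩
      rw [hj, Finset.sum_range_succ'] at hsum ⊢
      simp only [Nat.succ_ne_zero, if_false, if_pos, map_neg, Finset.sum_neg_distrib, pow_zero, map_one,
        Module.End.one_apply] at hsum ⊢
      rw [hsum]
      abel
  have hQU' : ∃ q ∈ Q.subgroupOf S, σ q ≠ 1 := by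
    by_contra hall
    push_neg at hall
    apply hρq₀
    refine LinearMap.ext fun v => ?_
    obtain ⟨ws, hws, rfl⟩ := hspan U le_rfl (fun q hq w hw => hQU q hq t w hw) hyU hUne v
    rw [map_sum, Module.End.one_apply]
    refine Finset.sum_congr rfl fun i _ => ?_
    have h2 := congrArg (fun e : Module.End F U => ((e ⟨ws i, hws i⟩ : U) : V))
      (hall ⟨_, hQS (hxQ i q₀ hq₀)⟩ (hxQ i q₀ hq₀))
    have h3 : ρ ((x ^ i)⁻¹ * q₀ * x ^ i) (ws i) = ws i := h2
    conv_rhs => rw [← h3]
    rw [← Module.End.mul_apply, ← Module.End.mul_apply, ← map_mul, ← map_mul, ← mul_assoc, mul_inv_cancel_left]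
  -- the nilpotency degree
  obtain ⟨u₀, hu₀, hu₀0⟩ := Submodule.exists_mem_ne_zero_of_ne_bot hUne
  have hdeg : ∀ (j : ℕ) (u : V), u ∈ U → ((ρ y - 1) ^ j) u ≠ 0 → p * j + (p - 1) < k := by
    intro j u hu hne
    by_contra hle
    push_neg at hle
    have hmem : ∀ (i : ℕ) (u : V), u ∈ U → ((ρ y - 1) ^ i) u ∈ U := by
      intro i
      induction i with
      | zero => intro u hu; simpa using hu
      | succ i ihi => intro u hu; rw [pow_succ, Module.End.mul_apply]; exact ihi _ (sub_mem (hyU u hu) hu)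
    have h1 : (ρ x - 1) ^ (p * j + (p - 1)) = 0 := pow_eq_zero_of_le hle hk
    have : CharP (Module.End F V) p := charP_of_injective_algebraMap (algebraMap F _).injective p
    have hpoly : (ρ x - 1) ^ (p - 1) = ∑ i ∈ Finset.range p, ρ x ^ i := by
      have := congrArg (Polynomial.aeval (ρ x)) (sub_one_pow_pred (F := F) p 1)
      simpa using this
    rw [add_comm, pow_add, pow_mul, sub_pow_char_of_commute p (Commute.one_right (ρ x)), one_pow, hpoly, ← map_pow, ← hy] at h1
    have h2 : ∑ i ∈ Finset.range p, ρ (x ^ i) (((ρ y - 1) ^ j) u) = 0 := by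
      have := congrArg (fun e : Module.End F V => e u) h1
      simpa [Module.End.mul_apply, LinearMap.sum_apply] using this
    exact hne (hindep (fun _ => ((ρ y - 1) ^ j) u) (fun _ _ => hmem j u hu) h2 0 hp.pos)
  have hpk : p ≤ k := by
    have := hdeg 0 u₀ hu₀ (by simpa using hu₀0)
    omega
  by_cases hn1 : n = 1
  · left; rw [hn1, pow_one]; exact hpk
  have hn2 : 1 ≤ n - 1 := by have := h.one_le; omega
  have hpair : IsPair p (Q.subgroupOf S) (⟨y, hyS⟩ : S) (n - 1) := by
    refine h.subgroupOf S hQS hn2 ?_ (pow_mem h.norm p) ?_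
    · show y ^ p ^ (n - 1) = 1
      rw [hy, ← pow_mul, ← pow_succ', Nat.sub_add_cancel h.one_le, h.pow_eq]
    · show y ^ p ^ (n - 1 - 1) = _
      rw [hy, ← pow_mul, ← pow_succ', Nat.sub_add_cancel hn2]
  have hex : ∃ j, (σ ⟨y, hyS⟩ - 1) ^ j = 0 := ⟨p ^ (n - 1), sub_one_pow_eq_zero σ hpair.pow_eq⟩
  set k' := Nat.find hex with hk'
  have hk'pos : k' ≠ 0 := by
    intro h0
    have := Nat.find_spec hex
    rw [← hk', h0, pow_zero] at this
    exact hu₀0 (congrArg Subtype.val (congrArg (fun e : Module.End F U => e ⟨u₀, hu₀⟩) this) :)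
  have hkk : p * k' ≤ k := by
    obtain ⟨j, hj⟩ := Nat.exists_eq_succ_of_ne_zero hk'pos
    obtain ⟨w, hw⟩ : ∃ w, ((σ ⟨y, hyS⟩ - 1) ^ j) w ≠ 0 := by
      by_contra hall; push_neg at hall
      exact Nat.find_min hex (show j < Nat.find hex by omega) (LinearMap.ext hall)
    have hcoe : ∀ (i : ℕ) (w : U), (((σ ⟨y, hyS⟩ - 1) ^ i) w : V) = ((ρ y - 1) ^ i) (w : V) := by
      intro i
      induction i with
      | zero => intro w; simp
      | succ i ihi => intro w; rw [pow_succ, pow_succ, Module.End.mul_apply, Module.End.mul_apply, ihi]; rfl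
    have := hdeg j (w : V) w.2 (by rw [← hcoe]; exact fun h0 => hw (Subtype.ext h0))
    rw [hj, Nat.mul_succ]
    omega
  have hlt : Module.finrank F U < d := hd ▸ Submodule.finrank_lt hUtop
  have hcard : Nat.card (Q.subgroupOf S) = Nat.card Q := Nat.card_congr (Subgroup.subgroupOfEquivOfLe hQS).toEquiv
  rcases ih _ hlt S U σ (Q.subgroupOf S) ⟨y, hyS⟩ (n - 1) k' rfl hpair hQU' hirrU (Nat.find_spec hex) with
    hle | ⟨n₀, h1, h2, h3, h4, h5, h6⟩
  · left
    rw [show n = n - 1 + 1 by omega, pow_succ']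
    exact (Nat.mul_le_mul_left p hle).trans hkk
  · right
    refine ⟨n₀, h1, by omega, hcard ▸ h3, ?_, fun hc => h5 ?_, h6⟩
    · rw [show n - n₀ = n - 1 - n₀ + 1 by omega, pow_succ', mul_assoc]
      exact (Nat.mul_le_mul_left p h4).trans hkk
    · exact ⟨⟨fun a b => Subtype.ext (Subtype.ext (congrArg Subtype.val (hc.is_comm.comm ⟨_, a.2⟩ ⟨_, b.2⟩) :))⟩⟩

/-- Theorem B over an algebraically closed field. -/
theorem theoremB_closed [IsAlgClosed F] {p : ℕ} [Fact p.Prime] [CharP F p] :
    ∀ (d : ℕ) (G : Type u) [Group G] [Finite G] (V : Type v) [AddCommGroup V] [Module F V] [FiniteDimensional F V]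
      (ρ : G →* Module.End F V) (Q : Subgroup G) (x : G) (n k : ℕ),
      Module.finrank F V = d → IsPair p Q x n → (∃ q ∈ Q, ρ q ≠ 1) →
      (ρ x - 1) ^ k = 0 → Conclusion p Q n k := by
  intro d
  induction d using Nat.strong_induction_on with
  | _ d ih =>
  intro G _ _ V _ _ _ ρ Q x n k hd h hQ hk
  have hp : p.Prime := Fact.out
  by_cases hirr : ∀ W : Submodule F V, (∀ q ∈ Q, ∀ w ∈ W, ρ q w ∈ W) → (∀ w ∈ W, ρ x w ∈ W) → W = ⊥ ∨ W = ⊤
  · exact irreducible_case d G V ρ Q x n k hd h hQ hirr hk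
  push_neg at hirr
  obtain ⟨W, hWQ, hWx, hWbot, hWtop⟩ := hirr
  set S := stab ρ W with hS
  have hQS : Q ≤ S := fun q hq w hw => hWQ q hq w hw
  have hxS : x ∈ S := hWx
  have hcard : Nat.card (Q.subgroupOf S) = Nat.card Q := Nat.card_congr (Subgroup.subgroupOfEquivOfLe hQS).toEquiv
  have hpair : IsPair p (Q.subgroupOf S) (⟨x, hxS⟩ : S) n := h.subgroupOf S hQS h.one_le h.pow_eq h.norm rfl
  have hback : Conclusion p (Q.subgroupOf S) n k → Conclusion p Q n k := by
    rintro (hle | ⟨n₀, h1, h2, h3, h4, h5, h6⟩)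
    · exact Or.inl hle
    · exact Or.inr ⟨n₀, h1, h2, hcard ▸ h3, h4, fun hc =>
        h5 ⟨⟨fun a b => Subtype.ext (Subtype.ext (congrArg Subtype.val (hc.is_comm.comm ⟨_, a.2⟩ ⟨_, b.2⟩) :))⟩⟩, h6⟩
  by_cases hW1 : ∃ q ∈ Q.subgroupOf S, restr ρ W q ≠ 1
  · refine hback (ih _ (hd ▸ Submodule.finrank_lt hWtop) S W (restr ρ W) _ _ n k rfl hpair hW1 ?_)
    have hcoe : ∀ (i : ℕ) (w : W), (((restr ρ W ⟨x, hxS⟩ - 1) ^ i) w : V) = ((ρ x - 1) ^ i) (w : V) := by
      intro i
      induction i with
      | zero => intro w; simp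
      | succ i ihi => intro w; rw [pow_succ, pow_succ, Module.End.mul_apply, Module.End.mul_apply, ihi]; rfl
    exact LinearMap.ext fun w => Subtype.ext (by rw [hcoe, hk]; rfl)
  push_neg at hW1
  let π : S →* Module.End F (V ⧸ W) :=
    { toFun := fun g => Submodule.mapQ W W (ρ (g : G)) g.2
      map_one' := by ext v; simp
      map_mul' := fun a b => by
        ext v
        simp only [Subgroup.coe_mul, map_mul, LinearMap.coe_comp, Function.comp_apply, Submodule.mkQ_apply,
          Submodule.mapQ_apply, Module.End.mul_apply]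
        rfl }
  have hW2 : ∃ q ∈ Q.subgroupOf S, π q ≠ 1 := by
    by_contra hall
    push_neg at hall
    obtain ⟨q, hq, hρq⟩ := hQ
    apply hρq
    set e := ρ q - 1 with he
    have hv : ∀ v, e v ∈ W := fun v => by
      have h1 := congrArg (fun f : Module.End F (V ⧸ W) => f (Submodule.Quotient.mk v)) (hall ⟨q, hQS hq⟩ hq)
      exact (Submodule.Quotient.eq W).mp h1
    have hw : ∀ w ∈ W, e w = 0 := fun w hw => by
      have h1 : ρ q w = w :=
        congrArg (fun f : Module.End F W => ((f ⟨w, hw⟩ : W) : V)) (hW1 ⟨q, hQS hq⟩ hq)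
      simp [he, h1]
    have hee : e * e = 0 := LinearMap.ext fun v => hw _ (hv v)
    have hpow : ∀ i : ℕ, ρ q ^ i = 1 + (i : F) • e := by
      intro i
      induction i with
      | zero => simp
      | succ i ihi =>
        rw [pow_succ, ihi, show ρ q = 1 + e by rw [he, add_sub_cancel]]
        simp only [add_mul, mul_add, one_mul, mul_one, smul_mul_assoc, hee, add_zero, smul_zero, Nat.cast_succ, add_smul, one_smul]
        abel
    have h1 := hpow (Nat.card Q)
    have h2 : q ^ Nat.card Q = 1 := orderOf_dvd_iff_pow_eq_one.mp (Subgroup.orderOf_dvd_natCard Q hq)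
    rw [← map_pow, h2, map_one, left_eq_add] at h1
    have h3 : (Nat.card Q : F) ≠ 0 := by
      rw [Ne, CharP.cast_eq_zero_iff F p]; exact hp.coprime_iff_not_dvd.mp h.coprime.symm
    have : e = 0 := (smul_eq_zero.mp h1).resolve_left h3
    exact sub_eq_zero.mp this
  have hlt : Module.finrank F (V ⧸ W) < d := by
    have h1 := W.finrank_quotient_add_finrank
    have h2 : 0 < Module.finrank F W := Nat.pos_of_ne_zero fun h0 => hWbot (Submodule.finrank_eq_zero.mp h0)
    omega
  refine hback (ih _ hlt S (V ⧸ W) π _ _ n k rfl hpair hW2 ?_)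
  have hcoe : ∀ (i : ℕ) (v : V), ((π ⟨x, hxS⟩ - 1) ^ i) (Submodule.Quotient.mk v) = Submodule.Quotient.mk (((ρ x - 1) ^ i) v) := by
    intro i
    induction i with
    | zero => intro v; simp
    | succ i ihi => intro v; rw [pow_succ, pow_succ, Module.End.mul_apply, Module.End.mul_apply, ← ihi]; rfl
  refine LinearMap.ext fun v => ?_
  obtain ⟨v, rfl⟩ := Submodule.Quotient.mk_surjective W v
  rw [hcoe, hk]; simp

/-- **Theorem B of Hall and Higman**, for a pair and any field of characteristic `p`. -/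
theorem theoremB {F : Type w} [Field F] {p : ℕ} [Fact p.Prime] [CharP F p] {G : Type u} [Group G] [Finite G]
    {V : Type v} [AddCommGroup V] [Module F V] [FiniteDimensional F V]
    (ρ : G →* Module.End F V) {Q : Subgroup G} {x : G} {n k : ℕ}
    (h : IsPair p Q x n) (hQ : ∃ q ∈ Q, ρ q ≠ 1) (hk : (ρ x - 1) ^ k = 0) : Conclusion p Q n k := by
  let K := AlgebraicClosure F
  have : CharP K p := charP_of_injective_algebraMap (algebraMap F K).injective p
  let bc := Module.End.baseChangeHom F K V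
  have hinj : Function.Injective bc := by
    intro f g hfg
    refine LinearMap.ext fun v => ?_
    have h1 : (LinearMap.baseChange K f) ((1 : K) ⊗ₜ v) = (LinearMap.baseChange K g) ((1 : K) ⊗ₜ v) :=
      congrArg (fun e : Module.End K (TensorProduct F K V) => e ((1 : K) ⊗ₜ v)) hfg
    rw [LinearMap.baseChange_tmul, LinearMap.baseChange_tmul] at h1
    exact Module.FaithfullyFlat.tensorProduct_mk_injective (A := F) (B := K) V h1
  obtain ⟨q, hq, hρq⟩ := hQ
  refine theoremB_closed (F := K) _ G (TensorProduct F K V) (bc.toMonoidHom.comp ρ) Q x n k rfl h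
    ⟨q, hq, fun h1 => hρq (hinj (h1.trans (map_one bc).symm))⟩ ?_
  show (bc (ρ x) - 1) ^ k = 0
  have e : bc (ρ x - 1) = bc (ρ x) - 1 := by rw [map_sub, map_one]
  rw [← e, ← map_pow, hk, map_zero]

end Cfsg.Agent.HH
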