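/- Finding the pair to which the Hall–Higman theorem applies. -/
import Cfsg.Agent.Lib.HHTheoremB
import Cfsg.Agent.Coprime.Action
import Cfsg.Agent.PSolv.HallHigmanDual

set_option autoImplicit false

open scoped commutatorElement
open Cfsg

namespace Cfsg.Agent.HH

variable {G : Type*} [Group G] [Finite G] {p : ℕ} [Fact p.Prime]

/-- An invariant prime-power order subgroup on which `τ = x ^ p ^ (n - 1)` acts without fixed quotient. -/
theorem exists_isPair {K : Subgroup G} (hK : (Nat.card K).Coprime p) {x : G} {n : ℕ} (hn : 1 ≤ n)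
    (hxn : x ^ p ^ n = 1) (hxK : x ∈ Subgroup.normalizer (K : Set G))
    (hτ : x ^ p ^ (n - 1) ∉ Subgroup.centralizer (K : Set G)) :
    ∃ (q : ℕ) (Q : Subgroup G), q.Prime ∧ q ≠ p ∧ Q ≤ K ∧ IsPGroup q Q ∧ Q ≠ ⊥ ∧ IsPair p Q x n := by
  classical
  have hp : p.Prime := Fact.out
  set τ := x ^ p ^ (n - 1) with hτdef
  let P : ℕ → Prop := fun m => ∃ Q : Subgroup G, Nat.card Q = m ∧ Q ≤ K ∧
    x ∈ Subgroup.normalizer (Q : Set G) ∧ τ ∉ Subgroup.centralizer (Q : Set G)
  have hex : ∃ m, P m := ⟨_, K, rfl, le_rfl, hxK, hτ⟩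
  obtain ⟨Q, hcard, hQK, hxQ, hτQ⟩ := Nat.find_spec hex
  have hmin : ∀ R : Subgroup G, R ≤ Q → x ∈ Subgroup.normalizer (R : Set G) →
      τ ∉ Subgroup.centralizer (R : Set G) → R = Q := by
    intro R hRQ hxR hτR
    by_contra hne
    refine Nat.find_min hex (m := Nat.card R) ?_ ⟨R, rfl, hRQ.trans hQK, hxR, hτR⟩
    rw [← hcard]
    exact lt_of_le_of_ne (Subgroup.card_le_of_le hRQ) fun he => hne (Subgroup.eq_of_le_of_card_ge hRQ he.ge)
  have hcopQ : (Nat.card Q).Coprime p := Nat.Coprime.coprime_dvd_left (Subgroup.card_dvd_of_le hQK) hK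
  have hX : (Nat.card (Subgroup.zpowers x)).Coprime (Nat.card Q) := by
    obtain ⟨i, -, hi⟩ := (Nat.dvd_prime_pow hp).mp (orderOf_dvd_of_pow_eq_one hxn)
    rw [Nat.card_zpowers, hi]
    exact Nat.Coprime.pow_left i hcopQ.symm
  have hxQ' : Subgroup.zpowers x ≤ Subgroup.normalizer (Q : Set G) := Subgroup.zpowers_le.mpr hxQ
  -- `Q` is a group of prime power order
  obtain ⟨q, hq, hQq⟩ : ∃ q : ℕ, q.Prime ∧ IsPGroup q Q := by
    by_contra hc
    push_neg at hc
    apply hτQ
    set C := Q ⊓ Subgroup.centralizer ({τ} : Set G) with hC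
    have hall : ∀ q : ℕ, q.Prime → q ^ (Nat.card Q).factorization q ∣ Nat.card C := by
      intro q hq
      have := Fact.mk hq
      obtain ⟨S, hS⟩ := Coprime.exists_invariant_sylow q hxQ' hX (Or.inl inferInstance)
      set R := (S : Subgroup Q).map Q.subtype with hR
      have hRQ : R ≤ Q := Subgroup.map_subtype_le _
      have hRC : R ≤ C := by
        refine le_inf hRQ fun r hr => ?_
        by_contra hne
        refine hc q hq ?_
        rw [← hmin R hRQ (hS (Subgroup.mem_zpowers x)) fun h => hne (Subgroup.mem_centralizer_singleton_iff.mpr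
          (Subgroup.mem_centralizer_iff.mp h r hr))]
        exact S.isPGroup'.map _
      have h1 := Subgroup.card_dvd_of_le hRC
      rwa [Coprime.card_sylow_map] at h1
    have hCQ : C = Q := by
      refine Subgroup.eq_of_le_of_card_ge inf_le_left (Nat.le_of_dvd Nat.card_pos ?_)
      rw [← Nat.factorization_le_iff_dvd Nat.card_pos.ne' Nat.card_pos.ne']
      intro q
      by_cases hq : q.Prime
      · exact (hq.pow_dvd_iff_le_factorization Nat.card_pos.ne').mp (hall q hq)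
      · rw [Nat.factorization_eq_zero_of_not_prime _ hq]; exact Nat.zero_le _
    rw [Subgroup.mem_centralizer_iff]
    intro y hy
    have hy' : y ∈ C := by rw [hCQ]; exact hy
    exact Subgroup.mem_centralizer_singleton_iff.mp hy'.2
  have := Fact.mk hq
  have hQne : Q ≠ ⊥ := by
    intro h0
    apply hτQ
    rw [h0, Subgroup.mem_centralizer_iff]
    intro y hy
    rw [SetLike.mem_coe, Subgroup.mem_bot] at hy
    simp [hy]
  have hqp : q ≠ p := by
    rintro rfl
    obtain ⟨i, hi⟩ := IsPGroup.iff_card.mp hQq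
    rcases Nat.eq_zero_or_pos i with rfl | hi0
    · exact hQne (Subgroup.eq_bot_of_card_eq _ (by rw [hi, pow_zero]))
    · exact hq.coprime_iff_not_dvd.mp hcopQ.symm (hi ▸ dvd_pow_self q hi0.ne')
  -- `[Q, τ] = Q`
  set T := Subgroup.zpowers τ with hT
  have hTX : T ≤ Subgroup.zpowers x := Subgroup.zpowers_le.mpr (pow_mem (Subgroup.mem_zpowers x) _)
  have hTQ : T ≤ Subgroup.normalizer (Q : Set G) := hTX.trans hxQ'
  have hTcop : (Nat.card T).Coprime (Nat.card Q) := hX.coprime_dvd_left (Subgroup.card_dvd_of_le hTX)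
  have hxT : x ∈ Subgroup.normalizer (T : Set G) := by
    refine Subgroup.centralizer_le_normalizer _ (Subgroup.mem_centralizer_iff.mpr ?_)
    rintro _ ⟨i, rfl⟩
    exact (((Commute.refl x).pow_left _).zpow_left i).eq
  have hQT : ⁅Q, T⁆ = Q := by
    refine hmin _ (Coprime.commutator_le_of_le_normalizer hTQ)
      (Coprime.normalizer_inf_le_normalizer_commutator Q T ⟨hxQ, hxT⟩) fun hc => hτQ ?_
    refine Coprime.le_centralizer_of_commutator_commutator_eq_bot hTQ hTcop ?_ (Subgroup.mem_zpowers τ)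
    rw [Subgroup.commutator_eq_bot_iff_le_centralizer, Subgroup.le_centralizer_iff, hT, Subgroup.zpowers_le]
    exact hc
  -- the commutators of `Q` are central
  have hDT : ⁅⁅Q, Q⁆, T⁆ = ⊥ := by
    have hlt : ⁅Q, Q⁆ ≠ Q := by
      intro he
      have hnil : Group.IsNilpotent Q := hQq.isNilpotent
      have hsol : Group.IsSolvable Q := inferInstance
      apply hQne
      obtain ⟨m, hm⟩ := hsol.solvable
      have key : ∀ i, (derivedSeries Q i).map Q.subtype = Q := by
        intro i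
        induction i with
        | zero => simp [← MonoidHom.range_eq_map]
        | succ i ih => rw [derivedSeries_succ, Subgroup.map_commutator, ih, he]
      rw [← key m, hm, Subgroup.map_bot]
    by_contra hne
    refine hlt (hmin _ (Subgroup.commutator_le_self Q)
      (Coprime.normalizer_inf_le_normalizer_commutator Q Q ⟨hxQ, hxQ⟩) fun hc => hne ?_)
    rw [Subgroup.commutator_eq_bot_iff_le_centralizer, Subgroup.le_centralizer_iff, hT, Subgroup.zpowers_le]
    exact hc
  have hQQ : ⁅⁅Q, Q⁆, Q⁆ = ⊥ := by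
    have h1 : ⁅⁅T, ⁅Q, Q⁆⁆, Q⁆ = ⊥ := by rw [Subgroup.commutator_comm T, hDT, Subgroup.commutator_bot_left]
    have h2 : ⁅⁅⁅Q, Q⁆, Q⁆, T⁆ = ⊥ := by
      rw [← le_bot_iff, ← hDT]
      refine Subgroup.commutator_mono ?_ le_rfl
      rw [← Subgroup.le_normalizer_iff_commutator_le_left]
      exact fun y hy => Coprime.normalizer_inf_le_normalizer_commutator Q Q
        ⟨Subgroup.le_normalizer hy, Subgroup.le_normalizer hy⟩
    have h3 : ⁅⁅Q, T⁆, ⁅Q, Q⁆⁆ = ⊥ := Subgroup.commutator_commutator_eq_bot_of_rotate h1 h2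
    rwa [hQT, Subgroup.commutator_comm] at h3
  refine ⟨q, Q, hq, hqp, hQK, hQq, hQne, hn, hxn, hxQ, hcopQ, ?_, ?_⟩
  · intro a ha b hb c hc
    rw [← commutatorElement_eq_one_iff_commute, ← Subgroup.mem_bot, ← hQQ]
    exact Subgroup.commutator_mem_commutator (Subgroup.commutator_mem_commutator ha hb) hc
  · rw [← hτdef]
    conv_lhs => rw [← hQT]
    rw [Subgroup.commutator_le]
    intro a ha t ht
    obtain ⟨i, rfl⟩ := (mem_powers_iff_mem_zpowers).mpr ht
    show ⁅a, τ ^ i⁆ ∈ _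
    revert a
    induction i with
    | zero => intro a _; simp
    | succ i ih =>
      intro a ha
      have h1 : τ * a * τ⁻¹ ∈ Q := (Subgroup.mem_normalizer_iff.mp (hTQ (Subgroup.mem_zpowers τ)) a).mp ha
      rw [pow_succ', show ⁅a, τ * τ ^ i⁆ = ⁅a, τ⁆ * ⁅τ * a * τ⁻¹, τ ^ i⁆ by
        simp only [commutatorElement_def]; group]
      exact mul_mem (Subgroup.subset_closure ⟨a, ha, rfl⟩) (ih (Subgroup.mem_zpowers τ |> fun _ => ⟨i, by simp⟩) _ h1)

/-- Theorem B for a faithful representation of a `p`-soluble group with trivial `p`-core. -/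
theorem theoremB_of_pCore_eq_bot {F : Type*} [Field F] [CharP F p] (hsol : IsPSolvable p G)
    (hO : pCore p G = ⊥) {V : Type*} [AddCommGroup V] [Module F V] [FiniteDimensional F V]
    (ρ : G →* Module.End F V) (hρ : Function.Injective ρ) {x : G} {n k : ℕ} (hn : 1 ≤ n)
    (hx : orderOf x = p ^ n) (hk : (ρ x - 1) ^ k = 0) :
    p ^ n ≤ k ∨ ∃ n₀ q m : ℕ, 1 ≤ n₀ ∧ n₀ ≤ n ∧ q.Prime ∧ 1 ≤ m ∧ p ^ n₀ - 1 = q ^ m ∧
      (∀ S : Sylow q G, ¬ IsMulCommutative S) ∧ p ^ (n - n₀) * (p ^ n₀ - 1) ≤ k := by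
  have hp : p.Prime := Fact.out
  have hxn : x ^ p ^ n = 1 := by rw [← hx, pow_orderOf_eq_one]
  set K := pPrimeCore p G with hK
  haveI : K.Characteristic := PSolv.pPrimeCore_characteristic p G
  have hcopK : (Nat.card K).Coprime p := PSolv.coprime_card_pPrimeCore p G
  have hτ : x ^ p ^ (n - 1) ∉ Subgroup.centralizer (K : Set G) := by
    intro hc
    have h1 := Subgroup.orderOf_dvd_natCard K (PSolv.centralizer_pPrimeCore_le hsol hO hc)
    have h2 : orderOf (x ^ p ^ (n - 1)) = p := by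
      rw [orderOf_pow' x (pow_ne_zero _ hp.ne_zero), hx]
      have e : p ^ n = p ^ (n - 1) * p := by rw [← pow_succ, Nat.sub_add_cancel hn]
      rw [e, Nat.gcd_mul_right_left, Nat.mul_div_cancel_left _ (pow_pos hp.pos _)]
    rw [h2] at h1
    exact hp.coprime_iff_not_dvd.mp hcopK.symm h1
  obtain ⟨q, Q, hq, -, -, hQq, hQne, hpair⟩ := exists_isPair hcopK hn hxn
    (by rw [Subgroup.normalizer_eq_top]; trivial) hτ
  have hQρ : ∃ y ∈ Q, ρ y ≠ 1 := by
    obtain ⟨y, hy, hy1⟩ := (Subgroup.bot_or_exists_ne_one Q).resolve_left hQne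
    exact ⟨y, hy, fun h => hy1 (hρ (h.trans (map_one ρ).symm))⟩
  rcases theoremB ρ hpair hQρ hk with h | ⟨n₀, h1, h2, h3, h4, h5, h6⟩
  · exact Or.inl h
  right
  have := Fact.mk hq
  obtain ⟨i, hi⟩ := IsPGroup.iff_card.mp hQq
  rw [hi] at h3
  obtain ⟨m, -, hm⟩ := (Nat.dvd_prime_pow hq).mp ((dvd_pow_self (p ^ n₀ - 1) two_ne_zero).trans h3)
  refine ⟨n₀, q, m, h1, h2, hq, ?_, hm, fun S hS => h5 ?_, h4⟩
  · rcases Nat.eq_zero_or_pos m with rfl | h
    · simp at hm; omega
    · exact h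
  · obtain ⟨S', hS'⟩ := hQq.exists_le_sylow
    obtain ⟨g, hg⟩ := MulAction.exists_smul_eq G S S'
    refine ⟨⟨fun a b => ?_⟩⟩
    have hS'c : IsMulCommutative S' := by
      let e : S ≃* S' := (Sylow.equiv S S')
      exact ⟨⟨fun u v => e.symm.injective (by rw [map_mul, map_mul]; exact hS.is_comm.comm _ _)⟩⟩
    have h := congrArg Subtype.val (hS'c.is_comm.comm (⟨a, hS' a.2⟩ : S') ⟨b, hS' b.2⟩)
    exact Subtype.ext h

end Cfsg.Agent.HH
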