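/- Consequences of Theorem B of Hall and Higman: the conjugation module and the exponent drop. -/
import Cfsg.Agent.Lib.HHPair
import Cfsg.Agent.Lib.PLength
import Cfsg.Agent.Lib.Element
import Cfsg.Agent.PSolv.Cores
import Cfsg.Agent.S3788

set_option autoImplicit false

open scoped commutatorElement
open Cfsg

namespace Cfsg.Agent.HH

variable {p : ℕ} [Fact p.Prime]

/-- A normal elementary abelian `p`-subgroup. -/
structure IsModuleSubgroup {X : Type*} [Group X] (p : ℕ) (V : Subgroup X) : Prop where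
  comm : IsMulCommutative V
  exp : ∀ v ∈ V, v ^ p = 1

section module

variable {X : Type*} [Group X] {V : Subgroup X} [V.Normal]

/-- A normal elementary abelian subgroup as a vector space. -/
def Mod (_hV : IsModuleSubgroup p V) : Type _ := Additive V

noncomputable instance Mod.addCommGroup (hV : IsModuleSubgroup p V) : AddCommGroup (Mod hV) :=
  { (inferInstanceAs (AddGroup (Additive V)) : AddGroup (Mod hV)) with
    add_comm := fun a b => congrArg Additive.ofMul (hV.comm.is_comm.comm (Additive.toMul a) (Additive.toMul b)) }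

/-- The underlying element of `X`. -/
def Mod.val {hV : IsModuleSubgroup p V} (a : Mod hV) : X := ((Additive.toMul (α := V) a : V) : X)

/-- The vector of an element of `V`. -/
def Mod.mk (hV : IsModuleSubgroup p V) (x : X) (hx : x ∈ V) : Mod hV := Additive.ofMul (⟨x, hx⟩ : V)

theorem Mod.val_mem {hV : IsModuleSubgroup p V} (a : Mod hV) : a.val ∈ V := (Additive.toMul (α := V) a).2

theorem Mod.val_add {hV : IsModuleSubgroup p V} (a b : Mod hV) : (a + b).val = a.val * b.val := rfl

theorem Mod.val_zero {hV : IsModuleSubgroup p V} : (0 : Mod hV).val = 1 := rfl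

theorem Mod.val_mk (hV : IsModuleSubgroup p V) (x : X) (hx : x ∈ V) : (Mod.mk hV x hx).val = x := rfl

theorem Mod.ext {hV : IsModuleSubgroup p V} {a b : Mod hV} (h : a.val = b.val) : a = b :=
  congrArg Additive.ofMul (Subtype.ext h : Additive.toMul (α := V) a = Additive.toMul (α := V) b)

theorem Mod.val_nsmul {hV : IsModuleSubgroup p V} (a : Mod hV) : ∀ n : ℕ, (n • a).val = a.val ^ n := by
  intro n
  induction n with
  | zero => rw [zero_nsmul, pow_zero, Mod.val_zero]
  | succ n ih => rw [succ_nsmul, Mod.val_add, ih, pow_succ]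

noncomputable instance Mod.module (hV : IsModuleSubgroup p V) : Module (ZMod p) (Mod hV) :=
  AddCommGroup.zmodModule (n := p) fun a =>
    Mod.ext (by rw [Mod.val_nsmul, Mod.val_zero]; exact hV.exp _ a.val_mem)

instance Mod.finite [Finite X] (hV : IsModuleSubgroup p V) : Finite (Mod hV) :=
  inferInstanceAs (Finite (Additive V))

theorem Mod.val_sum {hV : IsModuleSubgroup p V} (f : ℕ → Mod hV) : ∀ n : ℕ,
    (∑ i ∈ Finset.range n, f i).val = ((List.range n).map fun i => (f i).val).prod := by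
  intro n
  induction n with
  | zero => simp [Mod.val_zero]
  | succ n ih =>
    rw [Finset.sum_range_succ, List.range_succ, List.map_append, List.prod_append, List.map_singleton,
      List.prod_singleton, Mod.val_add, ih]

/-- Conjugation on the module. -/
def conjAct (hV : IsModuleSubgroup p V) (x : X) : Mod hV →+ Mod hV where
  toFun a := Mod.mk hV (x * a.val * x⁻¹) ((inferInstance : V.Normal).conj_mem _ a.val_mem x)
  map_zero' := Mod.ext (by simp [Mod.val_zero, Mod.val_mk])
  map_add' a b := Mod.ext (by simp [Mod.val_add, Mod.val_mk, mul_assoc])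

theorem exists_conjRep (hV : IsModuleSubgroup p V) :
    ∃ ρ : (X ⧸ V) →* Module.End (ZMod p) (Mod hV),
      ∀ (x : X) (v : Mod hV), (ρ (x : X ⧸ V) v).val = x * v.val * x⁻¹ := by
  let ρ₀ : X →* Module.End (ZMod p) (Mod hV) :=
    { toFun := fun x => (conjAct hV x).toZModLinearMap p
      map_one' := LinearMap.ext fun v => Mod.ext (by
        show 1 * v.val * 1⁻¹ = v.val
        simp)
      map_mul' := fun a b => LinearMap.ext fun v => Mod.ext (by
        show a * b * v.val * (a * b)⁻¹ = a * (b * v.val * b⁻¹) * a⁻¹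
        group) }
  have hker : V ≤ ρ₀.ker := by
    intro a ha
    rw [MonoidHom.mem_ker]
    refine LinearMap.ext fun v => Mod.ext ?_
    show a * v.val * a⁻¹ = v.val
    have h := congrArg Subtype.val (hV.comm.is_comm.comm (⟨a, ha⟩ : V) ⟨v.val, v.val_mem⟩)
    rw [show a * v.val = v.val * a from h, mul_inv_cancel_right]
  exact ⟨QuotientGroup.lift V ρ₀ hker, fun x v => rfl⟩

omit [Fact p.Prime] in
theorem mul_pow_eq_norm (x : X) (v : X) : ∀ n : ℕ,
    (v * x) ^ n = ((List.range n).map fun i => x ^ i * v * (x ^ i)⁻¹).prod * x ^ n := by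
  intro n
  induction n with
  | zero => simp
  | succ n ih =>
    rw [pow_succ, ih, List.range_succ, List.map_append, List.prod_append, List.map_singleton, List.prod_singleton,
      pow_succ]
    group

end module

/-- A non-vanishing norm gives an element of large order. -/
theorem exists_pow_ne_one {X : Type*} [Group X] [Finite X] {V : Subgroup X} [V.Normal]
    (hV : IsModuleSubgroup p V) {x : X} {m : ℕ} (hxm : x ^ p ^ m ∈ V) {v : X} (hv : v ∈ V)
    (hne : ((List.range (p ^ m)).map fun i => x ^ i * v * (x ^ i)⁻¹).prod ≠ 1) :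
    ∃ y : X, (∃ j, orderOf y = p ^ j) ∧ y ^ p ^ m ≠ 1 ∧ (y : X ⧸ V) = x := by
  have hp : p.Prime := Fact.out
  have hord : ∀ y : X, y ^ p ^ m ∈ V → ∃ j, orderOf y = p ^ j := fun y hy => by
    have h1 : y ^ p ^ (m + 1) = 1 := by rw [pow_succ, pow_mul]; exact hV.exp _ hy
    obtain ⟨j, -, hj⟩ := (Nat.dvd_prime_pow hp).mp (orderOf_dvd_of_pow_eq_one h1)
    exact ⟨j, hj⟩
  by_cases hx1 : x ^ p ^ m = 1
  · refine ⟨v * x, hord _ ?_, ?_, ?_⟩
    · rw [← QuotientGroup.eq_one_iff, QuotientGroup.mk_pow, QuotientGroup.mk_mul,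
        (QuotientGroup.eq_one_iff v).mpr hv, one_mul, ← QuotientGroup.mk_pow, hx1, QuotientGroup.mk_one]
    · rw [mul_pow_eq_norm, hx1, mul_one]; exact hne
    · rw [QuotientGroup.mk_mul, (QuotientGroup.eq_one_iff v).mpr hv, one_mul]
  · exact ⟨x, hord x hxm, hx1, rfl⟩

/-- The module is faithful for the quotient by a self-centralizing subgroup. -/
theorem conjRep_injective {X : Type*} [Group X] {V : Subgroup X} [V.Normal] {hV : IsModuleSubgroup p V}
    (hC : Subgroup.centralizer (V : Set X) ≤ V) {ρ : (X ⧸ V) →* Module.End (ZMod p) (Mod hV)}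
    (hρ : ∀ (x : X) (v : Mod hV), (ρ (x : X ⧸ V) v).val = x * v.val * x⁻¹) :
    Function.Injective ρ := by
  rw [injective_iff_map_eq_one]
  intro h
  induction h using QuotientGroup.induction_on with
  | H x =>
    intro h1
    refine (QuotientGroup.eq_one_iff x).mpr (hC (Subgroup.mem_centralizer_iff.mpr fun v hv => ?_))
    have h2 := hρ x (Mod.mk hV v hv)
    rw [h1] at h2
    exact (mul_inv_eq_iff_eq_mul.mp h2.symm).symm

/-- No exceptional prime: the Hall–Higman exceptions cannot occur. -/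
def NoExceptional (p : ℕ) (G : Type*) [Group G] : Prop :=
  ∀ n₀ q m : ℕ, 1 ≤ n₀ → q.Prime → 1 ≤ m → p ^ n₀ - 1 = q ^ m → ∃ S : Sylow q G, IsMulCommutative S

theorem NoExceptional.quotient {G H : Type*} [Group G] [Group H] [Finite G] (h : NoExceptional p G)
    (f : G →* H) (hf : Function.Surjective f) : NoExceptional p H := by
  intro n₀ q m h1 hq h2 h3
  obtain ⟨S, hS⟩ := h n₀ q m h1 hq h2 h3
  have := Fact.mk hq
  refine ⟨S.mapSurjective hf, ⟨⟨?_⟩⟩⟩
  rintro ⟨_, a, ha, rfl⟩ ⟨_, b, hb, rfl⟩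
  apply Subtype.ext
  show f a * f b = f b * f a
  rw [← map_mul, ← map_mul, show a * b = b * a from congrArg Subtype.val (hS.is_comm.comm (⟨a, ha⟩ : S) ⟨b, hb⟩)]

/-- A prime `p` with `p ≠ 2 ^ k + 1` has no exceptions. -/
theorem noExceptional_of_not_fermat (hp : p ≠ 2) (hnf : ¬ ∃ k : ℕ, p = 2 ^ k + 1) (G : Type*) [Group G] :
    NoExceptional p G := by
  intro n₀ q m h1 hq h2 h3
  exfalso
  have hpp : p.Prime := Fact.out
  have hpodd : Odd p := hpp.odd_of_ne_two hp
  have hq2 : q = 2 := by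
    have he : Even (q ^ m) := h3 ▸ Nat.Odd.sub_odd hpodd.pow odd_one
    exact ((Nat.prime_dvd_prime_iff_eq Nat.prime_two hq).mp
      (Nat.prime_two.dvd_of_dvd_pow (even_iff_two_dvd.mp he))).symm
  subst hq2
  apply hnf
  rcases Nat.even_or_odd n₀ with ⟨j, hj⟩ | hodd
  · subst hj
    have hpos : 1 ≤ p ^ j := Nat.one_le_pow _ _ hpp.pos
    have hfac : (p ^ j - 1) * (p ^ j + 1) = 2 ^ m := by
      rw [← h3, pow_add]
      obtain ⟨t, ht⟩ : ∃ t, p ^ j = t + 1 := ⟨p ^ j - 1, by omega⟩
      rw [ht, show (t + 1) * (t + 1) = t * (t + 1 + 1) + 1 by ring]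
      simp
    obtain ⟨a, -, ha⟩ := (Nat.dvd_prime_pow Nat.prime_two).mp (Dvd.intro _ hfac)
    obtain ⟨b, -, hb⟩ := (Nat.dvd_prime_pow Nat.prime_two).mp (Dvd.intro_left _ hfac)
    have hp3 : 3 ≤ p ^ j := by
      have hj : j ≠ 0 := by omega
      have := Nat.le_self_pow hj p
      have := hpp.two_le
      omega
    have ha1 : a = 1 := by
      rcases Nat.lt_trichotomy a 1 with h | h | h
      · obtain rfl : a = 0 := by omega
        rw [pow_zero] at ha; omega
      · exact h
      · exfalso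
        have hb2 : 2 ≤ b := by
          by_contra hb2
          have : (2 : ℕ) ^ b ≤ 2 ^ 1 := Nat.pow_le_pow_right (by norm_num) (by omega)
          omega
        have h4a : 4 ∣ 2 ^ a := by rw [show (4 : ℕ) = 2 ^ 2 by norm_num]; exact Nat.pow_dvd_pow 2 h
        have h4b : 4 ∣ 2 ^ b := by rw [show (4 : ℕ) = 2 ^ 2 by norm_num]; exact Nat.pow_dvd_pow 2 hb2
        omega
    subst ha1
    refine ⟨1, ?_⟩
    have hp3' : p ^ j = 3 := by omega
    have : p ∣ 3 := hp3' ▸ dvd_pow_self p (by omega)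
    rw [(Nat.prime_dvd_prime_iff_eq hpp Nat.prime_three).mp this]; rfl
  · have hgeom : (∑ i ∈ Finset.range n₀, p ^ i) * (p - 1) = p ^ n₀ - 1 := geom_sum_mul_of_one_le hpp.one_le _
    have hs : Odd (∑ i ∈ Finset.range n₀, p ^ i) := by
      rw [Finset.odd_sum_iff_odd_card_odd, Finset.filter_true_of_mem (fun i _ => hpodd.pow), Finset.card_range]
      exact hodd
    obtain ⟨t, -, ht⟩ := (Nat.dvd_prime_pow Nat.prime_two).mp (h3 ▸ Dvd.intro_left _ hgeom)
    refine ⟨t, ?_⟩
    have := hpp.two_le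
    omega

/-- `p`-elements of the quotient by the module have smaller order. -/
theorem exponent_drop {X : Type*} [Group X] [Finite X] {V : Subgroup X} [V.Normal]
    (hX : IsPSolvable p X) (hV : IsModuleSubgroup p V) (hC : Subgroup.centralizer (V : Set X) ≤ V)
    (hO : pCore p (X ⧸ V) = ⊥) (hne : NoExceptional p (X ⧸ V)) {h : X ⧸ V} {m : ℕ} (hm : 1 ≤ m)
    (hh : orderOf h = p ^ m) : ∃ y : X, (∃ j, orderOf y = p ^ j) ∧ y ^ p ^ m ≠ 1 ∧ (y : X ⧸ V) = h := by
  obtain ⟨ρ, hρ⟩ := exists_conjRep hV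
  haveI : Module.Finite (ZMod p) (Mod hV) := Module.Finite.of_finite
  have hp : p.Prime := Fact.out
  have hnv : (ρ h - 1) ^ (p ^ m - 1) ≠ 0 := by
    intro h0
    rcases theoremB_of_pCore_eq_bot (PSolv.isPSolvable_quotient hX V) hO ρ (conjRep_injective hC hρ) hm hh h0 with
      hle | ⟨n₀, q, m', h1, -, hq, h2, h3, h4, -⟩
    · have := Nat.one_le_pow m p hp.pos; omega
    · obtain ⟨S, hS⟩ := hne n₀ q m' h1 hq h2 h3
      exact h4 S hS
  obtain ⟨x, rfl⟩ := QuotientGroup.mk'_surjective V h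
  rw [QuotientGroup.mk'_apply] at hnv hh
  have hxm : x ^ p ^ m ∈ V := by
    rw [← QuotientGroup.eq_one_iff, QuotientGroup.mk_pow, ← hh]; exact pow_orderOf_eq_one _
  obtain ⟨v, hv⟩ : ∃ v, ((ρ (x : X ⧸ V) - 1) ^ (p ^ m - 1)) v ≠ 0 := by
    by_contra hall; push_neg at hall; exact hnv (LinearMap.ext hall)
  refine exists_pow_ne_one hV hxm (v := v.val) v.val_mem fun h1 => hv ?_
  have hpoly := congrArg (Polynomial.aeval (ρ (x : X ⧸ V))) (sub_one_pow_pred (F := ZMod p) p m)
  simp only [map_pow, map_sub, Polynomial.aeval_X, map_one, map_sum] at hpoly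
  rw [hpoly, LinearMap.sum_apply]
  apply Mod.ext
  rw [Mod.val_sum, Mod.val_zero]
  refine Eq.trans ?_ h1
  congr 1
  refine List.map_congr_left fun i _ => ?_
  rw [← map_pow, ← QuotientGroup.mk_pow, hρ]

/-- Hall–Higman: without exceptional primes the `p`-length is at most the exponent. -/
theorem pLengthLE_of_exponent : ∀ (e : ℕ) (G : Type*) [Group G] [Finite G], IsPSolvable p G →
    NoExceptional p G → (∀ x : G, (∃ j, orderOf x = p ^ j) → x ^ p ^ e = 1) → PLengthLE p e G := by
  have hp : p.Prime := Fact.out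
  intro e
  induction e with
  | zero =>
    intro G _ _ _ _ hexp
    refine PLength.pLengthLE_zero_of_coprime ?_
    by_contra hc
    obtain ⟨x, hx⟩ := exists_prime_orderOf_dvd_card' p (by
      by_contra h; exact hc ((hp.coprime_iff_not_dvd.mpr h).symm) : p ∣ Nat.card G)
    have := hexp x ⟨1, by rw [hx, pow_one]⟩
    rw [pow_zero, pow_one] at this
    rw [this, orderOf_one] at hx
    exact hp.one_lt.ne hx
  | succ e ih =>
    intro G _ _ hG hne hexp
    set N := pPrimeCore p G with hN
    have hG' := PSolv.isPSolvable_quotient hG N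
    have hne' := hne.quotient (QuotientGroup.mk' N) (QuotientGroup.mk'_surjective N)
    have hexp' : ∀ x : G ⧸ N, (∃ j, orderOf x = p ^ j) → x ^ p ^ (e + 1) = 1 := by
      rintro x ⟨j, hj⟩
      obtain ⟨y, hy, hyj⟩ := Element.exists_pElement_preimage hp (QuotientGroup.mk' N) (QuotientGroup.mk'_surjective N) hj
      rw [← hy, ← map_pow, hexp y hyj, map_one]
    obtain ⟨F, hFn, hFP, hVexp, hVcomm, hC, hcore⟩ := S3788.exists_reduction hG' (PSolv.pPrimeCore_quotient_eq_bot p G)
    set P := pCore p (G ⧸ N) with hP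
    set π := QuotientGroup.mk' F with hπ
    have hπs : Function.Surjective π := QuotientGroup.mk'_surjective F
    set V := P.map π with hV
    haveI : V.Normal := by rw [hcore]; exact pCore_normal p _
    have hO : pCore p (((G ⧸ N) ⧸ F) ⧸ V) = ⊥ := by
      have key : ∀ W : Subgroup ((G ⧸ N) ⧸ F), W = pCore p ((G ⧸ N) ⧸ F) → ∀ [W.Normal],
          pCore p (((G ⧸ N) ⧸ F) ⧸ W) = ⊥ := by
        rintro W rfl _; exact PSolv.pCore_quotient_eq_bot p _
      exact key V hcore
    have hMod : IsModuleSubgroup p V :=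
      ⟨⟨⟨fun a b => Subtype.ext (hVcomm a a.2 b b.2)⟩⟩, hVexp⟩
    have hneX := (hne'.quotient π hπs).quotient (QuotientGroup.mk' V) (QuotientGroup.mk'_surjective V)
    have hexpX : ∀ y : (G ⧸ N) ⧸ F, (∃ j, orderOf y = p ^ j) → y ^ p ^ (e + 1) = 1 := by
      rintro y ⟨j, hj⟩
      obtain ⟨z, hz, hzj⟩ := Element.exists_pElement_preimage hp π hπs hj
      rw [← hz, ← map_pow, hexp' z hzj, map_one]
    -- the next layer has smaller exponent
    have hdrop : ∀ x : (G ⧸ N) ⧸ P, (∃ j, orderOf x = p ^ j) → x ^ p ^ e = 1 := by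
      rintro x ⟨j, hj⟩
      obtain ⟨z, rfl, hzj⟩ := Element.exists_pElement_preimage hp (QuotientGroup.mk' P) (QuotientGroup.mk'_surjective P) hj
      set h : ((G ⧸ N) ⧸ F) ⧸ V := QuotientGroup.mk' V (π z) with hh
      obtain ⟨i, hi⟩ := hzj
      obtain ⟨m, -, hm⟩ := (Nat.dvd_prime_pow hp).mp
        (hi ▸ orderOf_map_dvd ((QuotientGroup.mk' V).comp π) z : orderOf h ∣ p ^ i)
      have hle : h ^ p ^ e = 1 := by
        rw [← orderOf_dvd_iff_pow_eq_one, hm]
        refine Nat.pow_dvd_pow p ?_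
        by_contra hlt
        obtain ⟨y, hy, hy1, -⟩ := exponent_drop (PSolv.isPSolvable_quotient hG' F) hMod hC hO hneX (by omega) hm
        apply hy1
        obtain ⟨d, rfl⟩ : ∃ d, m = e + 1 + d := ⟨m - (e + 1), by omega⟩
        rw [pow_add, pow_mul, hexpX y hy, one_pow]
      rw [hh, ← map_pow, ← map_pow] at hle
      obtain ⟨w, hw, hwz⟩ := (QuotientGroup.eq_one_iff _).mp hle
      rw [← map_pow]
      refine (QuotientGroup.eq_one_iff _).mpr ?_
      rw [show z ^ p ^ e = w * (w⁻¹ * z ^ p ^ e) by group]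
      exact mul_mem hw (hFP (QuotientGroup.eq.mp hwz))
    have hrec := ih ((G ⧸ N) ⧸ P) (PSolv.isPSolvable_quotient hG' P)
      (hne'.quotient (QuotientGroup.mk' P) (QuotientGroup.mk'_surjective P)) hdrop
    have h1 : PLengthLE p (1 + e) (G ⧸ N) :=
      PLength.pLengthLE_add P (PLength.pLengthLE_of_isPGroup (PSolv.isPGroup_pCore p _)) hrec
    have h2 := PLength.pLengthLE_add N (a := 0) (PLength.pLengthLE_zero_of_coprime (PSolv.coprime_card_pPrimeCore p G)) h1
    rwa [zero_add, add_comm] at h2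

end Cfsg.Agent.HH
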