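import Cfsg.Agent.TwoAut.Heisenberg
import Cfsg.Agent.Lib.Gaschutz

/-!
Perfect central extensions of `PSL(3, 4)` with kernel of exponent two have kernel of order at most
four.
-/

set_option autoImplicit false

namespace Cfsg.Agent.PSL34Cover

open Cfsg.Agent.TwoAut
open scoped commutatorElement

variable {F : Type} [Field F] [Fintype F]

local notation "SL3" => Matrix.SpecialLinearGroup (Fin 3) F
local notation "P3" => Matrix.ProjectiveSpecialLinearGroup (Fin 3) F

/-! ### The field with four elements -/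

theorem pow_three {a : F} (hF : Fintype.card F = 4) (ha : a ≠ 0) : a * (a * a) = 1 := by
  have h := FiniteField.pow_card_sub_one_eq_one a ha
  rw [hF] at h
  calc a * (a * a) = a ^ (4 - 1) := by ring
    _ = 1 := h

theorem two_eq_zero (hF : Fintype.card F = 4) : (2 : F) = 0 := by
  have h := pow_three hF (neg_ne_zero.2 (one_ne_zero (α := F)))
  linear_combination -h

theorem exists_omega (hF : Fintype.card F = 4) :
    ∃ w : F, w * w + w + 1 = 0 ∧ ∀ x : F, x = 0 ∨ x = 1 ∨ x = w ∨ x = w + 1 := by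
  classical
  obtain ⟨w, -, hw⟩ : ∃ w ∈ (Finset.univ : Finset F), w ∉ ({0, 1} : Finset F) := by
    refine Finset.exists_mem_notMem_of_card_lt_card ?_
    rw [Finset.card_univ, hF]
    exact lt_of_le_of_lt Finset.card_le_two (by norm_num)
  simp only [Finset.mem_insert, Finset.mem_singleton, not_or] at hw
  have h3 := pow_three hF hw.1
  have hq : w * w + w + 1 = 0 := by
    refine (mul_eq_zero.1 (?_ : (w - 1) * (w * w + w + 1) = 0)).resolve_left (sub_ne_zero.2 hw.2)
    linear_combination h3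
  refine ⟨w, hq, fun x => ?_⟩
  have h2 := two_eq_zero hF
  have hw1 : w + 1 ≠ 0 := fun h => hw.2 (by linear_combination h - h2)
  have hu : ({0, 1, w, w + 1} : Finset F) = Finset.univ := by
    apply Finset.eq_univ_of_card
    rw [hF, Finset.card_insert_of_notMem, Finset.card_insert_of_notMem, Finset.card_pair]
    · exact fun h => one_ne_zero (α := F) (by linear_combination -h)
    · simp only [Finset.mem_insert, Finset.mem_singleton, not_or]
      exact ⟨fun h => hw.2 h.symm, fun h => hw.1 (by linear_combination -h)⟩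
    · simp only [Finset.mem_insert, Finset.mem_singleton, not_or]
      exact ⟨zero_ne_one, fun h => hw.1 h.symm, fun h => hw1 h.symm⟩
  simpa using hu.symm.subset (Finset.mem_univ x)

/-! ### Matrices -/

/-- the image of a unitriangular matrix in `PSL` -/
def xP (p : F × F × F) : P3 := QuotientGroup.mk' _ (utMat F p)

theorem xP_mul (p q : F × F × F) :
    (xP p : P3) * xP q = xP (p.1 + q.1, p.2.1 + q.2.1, p.2.2 + q.2.2 + p.1 * q.2.1) := by
  rw [xP, xP, xP, ← map_mul, utMat_mul]

theorem xP_zero : (xP (0, 0, 0) : P3) = 1 := by rw [xP, utMat_zero, map_one]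

theorem xP_injective : Function.Injective (xP (F := F)) := by
  intro p q h
  have h' : (utMat F p)⁻¹ * utMat F q ∈ Subgroup.center SL3 := (QuotientGroup.eq (s := Subgroup.center SL3)).1 h
  have h2 : (utMat F p)⁻¹ * utMat F q ∈ utGroup F ⊓ Subgroup.center SL3 :=
    ⟨(utGroup F).mul_mem ((utGroup F).inv_mem ⟨p, rfl⟩) ⟨q, rfl⟩, h'⟩
  rw [utGroup_inf_center, Subgroup.mem_bot, inv_mul_eq_one] at h2
  exact utMat_injective F h2

/-- the two abelian subgroups of the unitriangular group -/
def InV (p : F × F × F) (side : Bool) : Prop := bif side then p.2.1 = 0 else p.1 = 0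

theorem inV_t (a b : F) : InV (a, 0, b) true := rfl

theorem inV_f (c b : F) : InV (0, c, b) false := rfl

theorem conj_of_mat {p q : F × F × F} (g : SL3) (h : g * utMat F p = utMat F q * g) :
    QuotientGroup.mk' _ g * xP p * (QuotientGroup.mk' _ g)⁻¹ = (xP q : P3) := by
  rw [xP, xP, ← map_mul, h, map_mul, mul_inv_cancel_right]

theorem exists_conj (hF : Fintype.card F = 4) {p : F × F × F} {side : Bool} (hp : InV p side)
    (hp0 : p ≠ (0, 0, 0)) : ∃ g : P3, g * xP (0, 0, 1) * g⁻¹ = xP p := by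
  have h2 := two_eq_zero hF
  obtain ⟨a, c, b⟩ := p
  cases side with
  | true =>
    obtain rfl : c = 0 := hp
    by_cases hb : b = 0
    · subst hb
      have ha : a ≠ 0 := fun h => hp0 (by rw [h])
      have h3 := pow_three hF ha
      refine ⟨_, conj_of_mat ⟨!![1, 0, 0; 0, 0, a * a; 0, a, 0], ?_⟩ ?_⟩
      · simp [Matrix.det_fin_three]
        linear_combination -h3 - h2
      · apply Subtype.ext
        show !![1, 0, 0; 0, 0, a * a; 0, a, 0] * !![1, 0, 1; 0, 1, 0; 0, 0, 1] =
          (!![1, a, 0; 0, 1, 0; 0, 0, 1] * !![1, 0, 0; 0, 0, a * a; 0, a, 0] : Matrix (Fin 3) (Fin 3) F)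
        ext i j
        fin_cases i <;> fin_cases j <;> simp [Matrix.mul_apply, Fin.sum_univ_three, h3]
    · have h3 := pow_three hF hb
      refine ⟨_, conj_of_mat ⟨!![b * b, 0, 0; 0, 1, 0; 0, a * (b * b), b], ?_⟩ ?_⟩
      · simp [Matrix.det_fin_three]
        linear_combination h3
      · apply Subtype.ext
        show !![b * b, 0, 0; 0, 1, 0; 0, a * (b * b), b] * !![1, 0, 1; 0, 1, 0; 0, 0, 1] =
          (!![1, a, b; 0, 1, 0; 0, 0, 1] * !![b * b, 0, 0; 0, 1, 0; 0, a * (b * b), b] :
            Matrix (Fin 3) (Fin 3) F)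
        ext i j
        fin_cases i <;> fin_cases j <;> simp [Matrix.mul_apply, Fin.sum_univ_three] <;>
          linear_combination (-a) * h3 - a * h2
  | false =>
    obtain rfl : a = 0 := hp
    by_cases hb : b = 0
    · subst hb
      have hc : c ≠ 0 := fun h => hp0 (by rw [h])
      have h3 := pow_three hF hc
      refine ⟨_, conj_of_mat ⟨!![0, c * c, 0; c, 0, 0; 0, 0, 1], ?_⟩ ?_⟩
      · simp [Matrix.det_fin_three]
        linear_combination -h3 - h2
      · apply Subtype.ext
        show !![0, c * c, 0; c, 0, 0; 0, 0, 1] * !![1, 0, 1; 0, 1, 0; 0, 0, 1] =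
          (!![1, 0, 0; 0, 1, c; 0, 0, 1] * !![0, c * c, 0; c, 0, 0; 0, 0, 1] : Matrix (Fin 3) (Fin 3) F)
        ext i j
        fin_cases i <;> fin_cases j <;> simp [Matrix.mul_apply, Fin.sum_univ_three]
    · have h3 := pow_three hF hb
      refine ⟨_, conj_of_mat ⟨!![b, 0, 0; c, b * b, 0; 0, 0, 1], ?_⟩ ?_⟩
      · simp [Matrix.det_fin_three]
        linear_combination h3
      · apply Subtype.ext
        show !![b, 0, 0; c, b * b, 0; 0, 0, 1] * !![1, 0, 1; 0, 1, 0; 0, 0, 1] =
          (!![1, 0, b; 0, 1, c; 0, 0, 1] * !![b, 0, 0; c, b * b, 0; 0, 0, 1] : Matrix (Fin 3) (Fin 3) F)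
        ext i j
        fin_cases i <;> fin_cases j <;> simp [Matrix.mul_apply, Fin.sum_univ_three]

theorem exists_torus (hF : Fintype.card F = 4) {w : F} (hw : w * w + w + 1 = 0) :
    ∃ h : P3, ∀ a c b : F, h * xP (a, c, b) * h⁻¹ = xP ((w + 1) * a, (w + 1) * c, w * b) := by
  have h2 := two_eq_zero hF
  refine ⟨QuotientGroup.mk' _ ⟨!![1, 0, 0; 0, w, 0; 0, 0, w + 1], ?_⟩, fun a c b => conj_of_mat _ ?_⟩
  · simp [Matrix.det_fin_three]
    linear_combination hw - h2
  · apply Subtype.ext
    show !![1, 0, 0; 0, w, 0; 0, 0, w + 1] * !![1, a, b; 0, 1, c; 0, 0, 1] =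
      (!![1, (w + 1) * a, w * b; 0, 1, (w + 1) * c; 0, 0, 1] * !![1, 0, 0; 0, w, 0; 0, 0, w + 1] :
        Matrix (Fin 3) (Fin 3) F)
    ext i j
    fin_cases i <;> fin_cases j <;> simp [Matrix.mul_apply, Fin.sum_univ_three]
    · linear_combination -a * hw + a * h2
    · linear_combination -b * hw + b * h2
    · linear_combination -c * (w + 1) * 0 - c * hw + (0 : F) * h2

theorem card_P3 (hF : Fintype.card F = 4) : Nat.card P3 = 20160 := by
  have h1 := Cfsg.Agent.Linear.card_SL_mul (F := F) 3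
  have h2 := Cfsg.Agent.Linear.card_PSL_mul (F := F) (ι := Fin 3)
  rw [Fin.prod_univ_three] at h1
  simp [hF] at h1 h2
  omega

/-! ### The extension -/

variable {E : Type*} [Group E] (π : E →* Matrix.ProjectiveSpecialLinearGroup (Fin 3) F)

theorem ker_mem_center (hc : π.ker ≤ Subgroup.center E) {z : E} (hz : π z = 1) (x : E) :
    x * z = z * x :=
  Subgroup.mem_center_iff.1 (hc hz) x

theorem sq_congr (hc : π.ker ≤ Subgroup.center E) (he : ∀ z : E, π z = 1 → z * z = 1) {u v : E}
    (h : π u = π v) : u * u = v * v := by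
  obtain ⟨z, hz, rfl⟩ : ∃ z : E, π z = 1 ∧ v = u * z :=
    ⟨u⁻¹ * v, by rw [map_mul, map_inv, h, inv_mul_cancel], (mul_inv_cancel_left u v).symm⟩
  calc u * u = u * u * (z * z) := by rw [he z hz, mul_one]
    _ = u * (u * z) * z := by simp only [mul_assoc]
    _ = u * (z * u) * z := by rw [ker_mem_center π hc hz u]
    _ = u * z * (u * z) := by simp only [mul_assoc]

theorem lifts_sq (hF : Fintype.card F = 4) (hsurj : Function.Surjective π)
    (hc : π.ker ≤ Subgroup.center E) (he : ∀ z : E, π z = 1 → z * z = 1) {p : F × F × F} {side : Bool}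
    (hp : InV p side) {u : E} (hu : π u = xP p) : u * u = 1 := by
  obtain ⟨u₀, hu₀⟩ := hsurj (xP (0, 0, 1))
  have hmulV : ∀ {p q : F × F × F} {side : Bool}, InV p side → InV q side →
      (xP p : P3) * xP q = xP (p.1 + q.1, p.2.1 + q.2.1, p.2.2 + q.2.2) := by
    intro p q side hp hq
    rw [xP_mul]
    cases side with
    | true => rw [show q.2.1 = 0 from hq]; simp
    | false => rw [show p.1 = 0 from hp]; simp
  have hz0 : π (u₀ * u₀) = 1 := by
    rw [map_mul, hu₀, hmulV (inV_t _ _) (inV_t _ _)]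
    have h2 := two_eq_zero hF
    rw [show ((0 : F) + 0, (0 : F) + 0, (1 : F) + 1) = (0, 0, 0) by
      rw [show (1 : F) + 1 = 0 by linear_combination h2, add_zero], xP_zero]
  have hcl : ∀ {p : F × F × F} {side : Bool}, InV p side → p ≠ (0, 0, 0) → ∀ u, π u = xP p →
      u * u = u₀ * u₀ := by
    intro p side hp hp0 u hu
    obtain ⟨g, hg⟩ := exists_conj hF hp hp0
    obtain ⟨g', rfl⟩ := hsurj g
    rw [sq_congr π hc he (v := g' * u₀ * g'⁻¹) (by rw [map_mul, map_mul, map_inv, hu₀, hg, hu])]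
    calc g' * u₀ * g'⁻¹ * (g' * u₀ * g'⁻¹) = g' * (u₀ * u₀) * g'⁻¹ := by group
      _ = u₀ * u₀ := by rw [ker_mem_center π hc hz0 g', mul_inv_cancel_right]
  have hone : u₀ * u₀ = 1 := by
    obtain ⟨w, hw, -⟩ := exists_omega hF
    have h2 := two_eq_zero hF
    have hw0 : w ≠ 0 := fun h => by rw [h] at hw; simp at hw
    have hw1 : w + 1 ≠ 0 := fun h => one_ne_zero (α := F) (by linear_combination hw - w * h)
    obtain ⟨v, hv⟩ := hsurj (xP (1, 0, 0))
    obtain ⟨x, hx⟩ := hsurj (xP (w, 0, 0))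
    set κ := u₀ * u₀ with hκ
    have sv : v * v = κ := hcl (inV_t _ _) (by simp) v hv
    have sx : x * x = κ := hcl (inV_t _ _) (by simp [hw0]) x hx
    have key : ∀ t : E, ∀ a : F, a ≠ 0 → π t = xP (a, 0, 0) → u₀ * t * u₀ * t = κ := by
      intro t a ha ht
      have := hcl (side := true) (p := (0 + a, (0 : F) + 0, 1 + (0 : F))) (add_zero 0) (by simp [ha]) (u₀ * t)
        (by rw [map_mul, hu₀, ht, hmulV (inV_t _ _) (inV_t _ _)])
      rw [← mul_assoc] at this
      exact this
    -- conjugation by `u₀` multiplies each of the three lifts by `κ`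
    have hconj : ∀ t : E, ∀ a : F, a ≠ 0 → π t = xP (a, 0, 0) → u₀ * t * u₀⁻¹ = t * κ := by
      intro t a ha ht
      have h1 := key t a ha ht
      have h2' : t * t = κ := hcl (inV_t _ _) (by simp [ha]) t ht
      have hκc : ∀ y, y * κ = κ * y := fun y => ker_mem_center π hc hz0 y
      have hκ2 : κ * κ = 1 := he κ hz0
      calc u₀ * t * u₀⁻¹ = (u₀ * t * u₀ * t) * (t⁻¹ * (u₀⁻¹ * u₀⁻¹)) := by group
        _ = κ * (t⁻¹ * κ⁻¹) := by rw [h1, hκ, mul_inv_rev]
        _ = t⁻¹ := by rw [← mul_assoc, ← hκc t⁻¹, mul_inv_cancel_right]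
        _ = t * κ⁻¹ := by rw [← h2', mul_inv_rev, ← mul_assoc, mul_inv_cancel, one_mul]
        _ = t * κ := by rw [inv_eq_of_mul_eq_one_right hκ2]
    have e1 := hconj v 1 one_ne_zero hv
    have e2 := hconj x w hw0 hx
    have e3 := hconj (v * x) (1 + w) (by rwa [add_comm]) (by
      rw [map_mul, hv, hx, hmulV (inV_t _ _) (inV_t _ _)]; simp)
    have e4 : u₀ * (v * x) * u₀⁻¹ = v * x * (κ * κ) := by
      calc u₀ * (v * x) * u₀⁻¹ = (u₀ * v * u₀⁻¹) * (u₀ * x * u₀⁻¹) := by group
        _ = v * κ * (x * κ) := by rw [e1, e2]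
        _ = v * (κ * x) * κ := by simp only [mul_assoc]
        _ = v * x * (κ * κ) := by rw [← ker_mem_center π hc hz0 x]; simp only [mul_assoc]
    rw [e3, he κ hz0] at e4
    exact mul_left_cancel e4
  by_cases hp0 : p = (0, 0, 0)
  · subst hp0
    rw [xP_zero] at hu
    exact he u hu
  · rw [hcl hp hp0 u hu, hone]

theorem lifts_commute (hF : Fintype.card F = 4) (hsurj : Function.Surjective π)
    (hc : π.ker ≤ Subgroup.center E) (he : ∀ z : E, π z = 1 → z * z = 1) {p q : F × F × F} {side : Bool}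
    (hp : InV p side) (hq : InV q side) {u v : E} (hu : π u = xP p) (hv : π v = xP q) :
    u * v = v * u := by
  have hu2 := lifts_sq π hF hsurj hc he hp hu
  have hv2 := lifts_sq π hF hsurj hc he hq hv
  have huv : u * v * (u * v) = 1 := by
    refine lifts_sq π hF hsurj hc he (side := side) ?_ (u := u * v)
      (by rw [map_mul, hu, hv, xP_mul])
    cases side with
    | true => show p.2.1 + q.2.1 = 0; rw [show p.2.1 = 0 from hp, show q.2.1 = 0 from hq, add_zero]
    | false => show p.1 + q.1 = 0; rw [show p.1 = 0 from hp, show q.1 = 0 from hq, add_zero]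
  calc u * v = (u * v)⁻¹ := eq_inv_of_mul_eq_one_right huv
    _ = v⁻¹ * u⁻¹ := mul_inv_rev _ _
    _ = v * u := by rw [inv_eq_of_mul_eq_one_right hu2, inv_eq_of_mul_eq_one_right hv2]

theorem card_ker_le_four [Finite E] (hF : Fintype.card F = 4) (hsurj : Function.Surjective π)
    (hc : π.ker ≤ Subgroup.center E) (he : ∀ z : E, π z = 1 → z * z = 1)
    (hperf : commutator E = ⊤) : Nat.card π.ker ≤ 4 := by
  classical
  have h2 := two_eq_zero hF
  obtain ⟨w, hw, hall⟩ := exists_omega hF
  obtain ⟨hh, hT⟩ := exists_torus hF hw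
  obtain ⟨th, rfl⟩ := hsurj hh
  set σ := Function.surjInv hsurj with hσ
  have hσπ : ∀ y, π (σ y) = y := Function.surjInv_eq hsurj
  -- canonical lifts
  let C : F × F × F → E := fun p => th * σ (xP p) * th⁻¹ * (σ (xP p))⁻¹
  have hCdef : ∀ p (u : E), π u = xP p → C p = th * u * th⁻¹ * u⁻¹ := by
    intro p u hu
    obtain ⟨z, hz, hz'⟩ : ∃ z : E, π z = 1 ∧ σ (xP p) = u * z :=
      ⟨u⁻¹ * σ (xP p), by rw [map_mul, map_inv, hσπ, hu, inv_mul_cancel], (mul_inv_cancel_left _ _).symm⟩
    show th * σ (xP p) * th⁻¹ * (σ (xP p))⁻¹ = _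
    rw [hz', mul_inv_rev]
    calc th * (u * z) * th⁻¹ * (z⁻¹ * u⁻¹) = th * u * (z * th⁻¹) * (z⁻¹ * u⁻¹) := by
          simp only [mul_assoc]
      _ = th * u * (th⁻¹ * z) * (z⁻¹ * u⁻¹) := by rw [← ker_mem_center π hc hz th⁻¹]
      _ = th * u * th⁻¹ * u⁻¹ := by simp only [mul_assoc, mul_inv_cancel_left]
  -- the three one-parameter lifts
  let x12 : F → E := fun a => C ((w + 1) * a, 0, 0)
  let x23 : F → E := fun c => C (0, (w + 1) * c, 0)
  let x13 : F → E := fun b => C (0, 0, w * b)
  have hπC : ∀ a c b : F, a * c = 0 → π (C (a, c, b)) = xP (w * a, w * c, (w + 1) * b) := by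
    intro a c b hac
    have hinv : (xP (a, c, b) : P3)⁻¹ = xP (a, c, b) := by
      refine inv_eq_of_mul_eq_one_right ?_
      rw [xP_mul, hac, ← xP_zero]
      congr 1
      simp only [Prod.mk.injEq]
      exact ⟨by linear_combination a * h2, by linear_combination c * h2, by linear_combination b * h2⟩
    rw [hCdef _ _ (hσπ _), map_mul, map_mul, map_mul, map_inv, map_inv, hσπ, hT, hinv, xP_mul]
    congr 1
    simp only [Prod.mk.injEq]
    exact ⟨by linear_combination a * h2, by linear_combination c * h2,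
      by linear_combination (w + 1) * hac⟩
  have hww : w * (w + 1) = 1 := by linear_combination hw - h2
  have p12 : ∀ a, π (x12 a) = xP (a, 0, 0) := fun a => by
    show π (C _) = _
    rw [hπC _ _ _ (mul_zero _), ← mul_assoc, hww, one_mul, mul_zero, mul_zero]
  have p23 : ∀ c, π (x23 c) = xP (0, c, 0) := fun c => by
    show π (C _) = _
    rw [hπC _ _ _ (zero_mul _), ← mul_assoc, hww, one_mul, mul_zero, mul_zero]
  have p13 : ∀ b, π (x13 b) = xP (0, 0, b) := fun b => by
    show π (C _) = _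
    rw [hπC _ _ _ (zero_mul _), ← mul_assoc, mul_comm (w + 1), hww, one_mul, mul_zero]
  have hadd : ∀ (side : Bool) (p q : F × F × F), InV p side → InV q side → p.1 * q.2.1 = 0 →
      C (p.1 + q.1, p.2.1 + q.2.1, p.2.2 + q.2.2) = C p * C q := by
    intro side p q hp hq hpq
    have hu := hσπ (xP p)
    have hv := hσπ (xP q)
    rw [hCdef _ (σ (xP p) * σ (xP q)) (by rw [map_mul, hu, hv, xP_mul, hpq, add_zero]),
      hCdef p _ hu, hCdef q _ hv]
    set u := σ (xP p)
    set v := σ (xP q)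
    have hVh : ∀ r : F × F × F, InV r side → InV ((w + 1) * r.1, (w + 1) * r.2.1, w * r.2.2) side := by
      intro r hr
      cases side with
      | true => show (w + 1) * r.2.1 = 0; rw [show r.2.1 = 0 from hr, mul_zero]
      | false => show (w + 1) * r.1 = 0; rw [show r.1 = 0 from hr, mul_zero]
    have c1 : u⁻¹ * (th * v * th⁻¹) = (th * v * th⁻¹) * u⁻¹ :=
      (Commute.inv_left (lifts_commute π hF hsurj hc he hp (hVh q hq) hu
        (by rw [map_mul, map_mul, map_inv, hv, hT]))).eq
    have c2 : v⁻¹ * u⁻¹ = u⁻¹ * v⁻¹ :=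
      (Commute.inv_inv (lifts_commute π hF hsurj hc he hq hp hv hu)).eq
    calc th * (u * v) * th⁻¹ * (u * v)⁻¹ = (th * u * th⁻¹) * ((th * v * th⁻¹) * (v⁻¹ * u⁻¹)) := by group
      _ = (th * u * th⁻¹) * (((th * v * th⁻¹) * u⁻¹) * v⁻¹) := by rw [c2]; simp only [mul_assoc]
      _ = th * u * th⁻¹ * u⁻¹ * (th * v * th⁻¹ * v⁻¹) := by rw [← c1]; simp only [mul_assoc]
  have a12 : ∀ a a', x12 (a + a') = x12 a * x12 a' := fun a a' => by
    have := hadd true ((w + 1) * a, 0, 0) ((w + 1) * a', 0, 0) rfl rfl (mul_zero _)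
    rwa [← mul_add, add_zero] at this
  have a23 : ∀ a a', x23 (a + a') = x23 a * x23 a' := fun a a' => by
    have := hadd false (0, (w + 1) * a, 0) (0, (w + 1) * a', 0) rfl rfl (zero_mul _)
    rwa [← mul_add, add_zero] at this
  have a13 : ∀ a a', x13 (a + a') = x13 a * x13 a' := fun a a' => by
    have := hadd true (0, 0, w * a) (0, 0, w * a') rfl rfl (mul_zero _)
    rwa [← mul_add, add_zero] at this
  have hequiv : ∀ a c b : F, th * C (a, c, b) * th⁻¹ = C ((w + 1) * a, (w + 1) * c, w * b) := by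
    intro a c b
    rw [hCdef _ (σ (xP (a, c, b))) (hσπ _),
      hCdef ((w + 1) * a, (w + 1) * c, w * b) (th * σ (xP (a, c, b)) * th⁻¹)
        (by rw [map_mul, map_mul, map_inv, hσπ, hT])]
    group
  -- the defect
  let f : F → F → E := fun a c => x12 a * x23 c * (x12 a)⁻¹ * (x23 c)⁻¹ * (x13 (a * c))⁻¹
  have hxinv : ∀ p : F × F × F, ∀ side, InV p side → ∀ u, π u = xP p → u⁻¹ = u := fun p side hp u hu =>
    inv_eq_of_mul_eq_one_right (lifts_sq π hF hsurj hc he hp hu)
  have hcomm : ∀ a c : F, π (x12 a * x23 c * (x12 a)⁻¹ * (x23 c)⁻¹) = xP (0, 0, a * c) := by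
    intro a c
    rw [hxinv _ true (inV_t a 0) _ (p12 a), hxinv _ false (inV_f c 0) _ (p23 c), map_mul, map_mul, map_mul, p12, p23,
      xP_mul, xP_mul, xP_mul]
    congr 1
    simp only [Prod.mk.injEq]
    exact ⟨by linear_combination a * h2, by linear_combination c * h2,
      by linear_combination (a * c) * h2⟩
  have hfker : ∀ a c, π (f a c) = 1 := fun a c => by
    show π (_ * (x13 (a * c))⁻¹) = 1
    rw [map_mul, hcomm, map_inv, p13, mul_inv_cancel]
  have hfc : ∀ a c y, y * f a c = f a c * y := fun a c y => ker_mem_center π hc (hfker a c) y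
  have hfdef : ∀ a c, x12 a * x23 c * (x12 a)⁻¹ * (x23 c)⁻¹ = f a c * x13 (a * c) := fun a c => by
    show _ = _ * (x13 (a * c))⁻¹ * x13 (a * c)
    rw [inv_mul_cancel_right]
  have haddl : ∀ a a' c, f (a + a') c = f a c * f a' c := by
    intro a a' c
    have hcm : x12 a * x13 (a' * c) = x13 (a' * c) * x12 a :=
      lifts_commute π hF hsurj hc he (side := true) (p := (a, 0, 0)) (q := (0, 0, a' * c)) rfl rfl
        (p12 a) (p13 _)
    have e := hfdef (a + a') c
    rw [a12, add_mul, a13] at e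
    have e' : x12 a * x12 a' * x23 c * (x12 a * x12 a')⁻¹ * (x23 c)⁻¹ =
        f a c * f a' c * (x13 (a * c) * x13 (a' * c)) := by
      calc x12 a * x12 a' * x23 c * (x12 a * x12 a')⁻¹ * (x23 c)⁻¹
          = x12 a * (x12 a' * x23 c * (x12 a')⁻¹ * (x23 c)⁻¹) * (x12 a)⁻¹ *
            (x12 a * x23 c * (x12 a)⁻¹ * (x23 c)⁻¹) := by group
        _ = f a' c * (x12 a * x13 (a' * c) * (x12 a)⁻¹) * (f a c * x13 (a * c)) := by
            rw [hfdef, hfdef, ← mul_assoc (x12 a), hfc a' c (x12 a)]; simp only [mul_assoc]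
        _ = f a' c * x13 (a' * c) * (f a c * x13 (a * c)) := by rw [hcm, mul_inv_cancel_right]
        _ = (f a' c * f a c) * (x13 (a' * c) * x13 (a * c)) := by
            rw [mul_assoc, ← mul_assoc (x13 _) (f a c), hfc a c (x13 (a' * c))]
            simp only [mul_assoc]
        _ = f a c * f a' c * (x13 (a * c) * x13 (a' * c)) := by
            rw [hfc a c (f a' c), ← a13, ← a13, add_comm (a' * c)]
    exact mul_right_cancel (e.symm.trans e')
  have haddr : ∀ a c c', f a (c + c') = f a c * f a c' := by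
    intro a c c'
    have hcm : x23 c * x13 (a * c') = x13 (a * c') * x23 c :=
      lifts_commute π hF hsurj hc he (side := false) (p := (0, c, 0)) (q := (0, 0, a * c')) rfl rfl
        (p23 c) (p13 _)
    have e := hfdef a (c + c')
    rw [a23, mul_add, a13] at e
    have e' : x12 a * (x23 c * x23 c') * (x12 a)⁻¹ * (x23 c * x23 c')⁻¹ =
        f a c * f a c' * (x13 (a * c) * x13 (a * c')) := by
      calc x12 a * (x23 c * x23 c') * (x12 a)⁻¹ * (x23 c * x23 c')⁻¹
          = (x12 a * x23 c * (x12 a)⁻¹ * (x23 c)⁻¹) *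
            (x23 c * (x12 a * x23 c' * (x12 a)⁻¹ * (x23 c')⁻¹) * (x23 c)⁻¹) := by group
        _ = f a c * x13 (a * c) * (f a c' * (x23 c * x13 (a * c') * (x23 c)⁻¹)) := by
            rw [hfdef, hfdef, ← mul_assoc (x23 c), hfc a c' (x23 c)]; simp only [mul_assoc]
        _ = f a c * x13 (a * c) * (f a c' * x13 (a * c')) := by rw [hcm, mul_inv_cancel_right]
        _ = f a c * f a c' * (x13 (a * c) * x13 (a * c')) := by
            rw [mul_assoc, ← mul_assoc (x13 _) (f a c'), hfc a c' (x13 (a * c))]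
            simp only [mul_assoc]
    exact mul_right_cancel (e.symm.trans e')
  have hfinv : ∀ a c, f ((w + 1) * a) ((w + 1) * c) = f a c := by
    intro a c
    have e1 : th * x12 a * th⁻¹ = x12 ((w + 1) * a) := by
      show th * C _ * th⁻¹ = C _
      rw [hequiv, mul_zero, mul_zero]
    have e2 : th * x23 c * th⁻¹ = x23 ((w + 1) * c) := by
      show th * C _ * th⁻¹ = C _
      rw [hequiv, mul_zero, mul_zero]
    have e3 : th * x13 (a * c) * th⁻¹ = x13 (w * (a * c)) := by
      show th * C _ * th⁻¹ = C _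
      rw [hequiv, mul_zero]
    have e := hfdef ((w + 1) * a) ((w + 1) * c)
    rw [show (w + 1) * a * ((w + 1) * c) = w * (a * c) by linear_combination (a * c) * hw,
      ← e1, ← e2, ← e3] at e
    have e' : th * x12 a * th⁻¹ * (th * x23 c * th⁻¹) * (th * x12 a * th⁻¹)⁻¹ * (th * x23 c * th⁻¹)⁻¹ =
        f a c * (th * x13 (a * c) * th⁻¹) := by
      calc th * x12 a * th⁻¹ * (th * x23 c * th⁻¹) * (th * x12 a * th⁻¹)⁻¹ * (th * x23 c * th⁻¹)⁻¹
          = th * (x12 a * x23 c * (x12 a)⁻¹ * (x23 c)⁻¹) * th⁻¹ := by group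
        _ = f a c * (th * x13 (a * c) * th⁻¹) := by
            rw [hfdef, ← mul_assoc th, hfc a c th]; simp only [mul_assoc]
    exact mul_right_cancel (e.symm.trans e')
  -- four values
  set W : Subgroup E := Subgroup.closure {f 1 1, f 1 w} with hW
  have hW11 : f 1 1 ∈ W := Subgroup.subset_closure (by simp)
  have hW1w : f 1 w ∈ W := Subgroup.subset_closure (by simp)
  have hWall : ∀ a c, f a c ∈ W := by
    have h0l : ∀ c, f 0 c = 1 := fun c => by
      have h := haddl 0 0 c
      rw [add_zero] at h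
      exact left_eq_mul.1 h
    have h0r : ∀ a, f a 0 = 1 := fun a => by
      have h := haddr a 0 0
      rw [add_zero] at h
      exact left_eq_mul.1 h
    have hww1 : (w + 1) * w = 1 := by rw [mul_comm]; exact hww
    have hw1w1 : (w + 1) * 1 = w + 1 := mul_one _
    have hr : ∀ c, f 1 c ∈ W := fun c => by
      rcases hall c with rfl | rfl | rfl | rfl
      · rw [h0r]; exact one_mem W
      · exact hW11
      · exact hW1w
      · rw [haddr]; exact mul_mem hW1w hW11
    have hwl : ∀ c, f w c ∈ W := fun c => by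
      rw [← hfinv w c, hww1]
      exact hr _
    intro a c
    rcases hall a with rfl | rfl | rfl | rfl
    · rw [h0l]; exact one_mem W
    · exact hr c
    · exact hwl c
    · rw [haddl]; exact mul_mem (hwl c) (hr c)
  have hWker : W ≤ π.ker := (Subgroup.closure_le _).2 (by
    rintro _ (rfl | rfl) <;> exact hfker _ _)
  have hWcard : Nat.card W ≤ 4 := by
    let g : Bool × Bool → E := fun q => (if q.1 then f 1 1 else 1) * (if q.2 then f 1 w else 1)
    have hsub : (W : Set E) ⊆ Set.range g := by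
      intro y hy
      induction hy using Subgroup.closure_induction with
      | mem y hy =>
        rcases hy with rfl | rfl
        · exact ⟨(true, false), by simp [g]⟩
        · exact ⟨(false, true), by simp [g]⟩
      | one => exact ⟨(false, false), by simp [g]⟩
      | mul y z _ _ hy hz =>
        obtain ⟨q, rfl⟩ := hy
        obtain ⟨r, rfl⟩ := hz
        refine ⟨(xor q.1 r.1, xor q.2 r.2), ?_⟩
        have s1 : f 1 1 * f 1 1 = 1 := he _ (hfker _ _)
        have s2 : f 1 w * f 1 w = 1 := he _ (hfker _ _)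
        have cm : f 1 w * f 1 1 = f 1 1 * f 1 w := hfc _ _ _
        obtain ⟨q1, q2⟩ := q
        obtain ⟨r1, r2⟩ := r
        have cm' : ∀ y, f 1 w * (f 1 1 * y) = f 1 1 * (f 1 w * y) := fun y => by
          rw [← mul_assoc, cm, mul_assoc]
        cases q1 <;> cases q2 <;> cases r1 <;> cases r2 <;>
          simp [g, mul_assoc, s1, s2, cm, cm', ← mul_assoc (f 1 1) (f 1 1)]
      | inv y hy' hy =>
        have : y⁻¹ = y := inv_eq_of_mul_eq_one_right (he y (hWker hy'))
        rw [this]; exact hy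
    calc Nat.card W = (W : Set E).ncard := (Nat.card_coe_set_eq _)
      _ ≤ (Set.range g).ncard := Set.ncard_le_ncard hsub (Set.finite_range g)
      _ ≤ Nat.card (Bool × Bool) := by
          rw [← Nat.card_coe_set_eq]; exact Finite.card_range_le g
      _ = 4 := by simp
  -- splitting modulo `W`
  suffices π.ker ≤ W from (Subgroup.card_le_of_le this).trans hWcard
  haveI hWn : W.Normal := ⟨fun n hn g => by
    rw [Subgroup.mem_center_iff.1 (hc (hWker hn)) g, mul_inv_cancel_right]; exact hn⟩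
  let q := QuotientGroup.mk' W
  let π' : E ⧸ W →* P3 := QuotientGroup.lift W π hWker
  have hπ' : ∀ y, π' (q y) = π y := fun y => rfl
  let ψ : F × F × F → E ⧸ W := fun p => q (x12 p.1 * x13 (p.2.2 + p.1 * p.2.1) * x23 p.2.1)
  have hψπ : ∀ p, π' (ψ p) = xP p := by
    rintro ⟨a, c, b⟩
    show π _ = _
    rw [map_mul, map_mul, p12, p13, p23, xP_mul, xP_mul]
    congr 1
    simp only [Prod.mk.injEq]
    exact ⟨by ring, by ring, by linear_combination (a * c) * h2⟩
  have hswap : ∀ a c, q (x23 c) * q (x12 a) = q (x12 a) * q (x13 (a * c)) * q (x23 c) := by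
    intro a c
    have e : x12 a * x23 c = f a c * x13 (a * c) * (x23 c * x12 a) := by
      rw [← hfdef]; group
    have h1 : q (x12 a) * q (x23 c) = q (x13 (a * c)) * (q (x23 c) * q (x12 a)) := by
      have h0 : q (f a c) = 1 := (QuotientGroup.eq_one_iff _).2 (hWall a c)
      rw [← map_mul, e, map_mul q (f a c * x13 (a * c)) _, map_mul q (f a c) _, h0, one_mul,
        map_mul q (x23 c) _]
    have h13 : q (x13 (a * c)) * q (x13 (a * c)) = 1 := by
      rw [← map_mul, lifts_sq π hF hsurj hc he (side := true) (p := (0, 0, a * c)) rfl (p13 _), map_one]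
    have hcm : x12 a * x13 (a * c) = x13 (a * c) * x12 a :=
      lifts_commute π hF hsurj hc he (side := true) (p := (a, 0, 0)) (q := (0, 0, a * c)) rfl rfl
        (p12 a) (p13 _)
    calc q (x23 c) * q (x12 a) = q (x13 (a * c)) * (q (x13 (a * c)) * (q (x23 c) * q (x12 a))) := by
          rw [← mul_assoc, h13, one_mul]
      _ = q (x12 a) * q (x13 (a * c)) * q (x23 c) := by
          rw [← h1, ← mul_assoc, ← map_mul, ← hcm, map_mul]
  have hψmul : ∀ p p' : F × F × F, ψ p * ψ p' =
      ψ (p.1 + p'.1, p.2.1 + p'.2.1, p.2.2 + p'.2.2 + p.1 * p'.2.1) := by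
    rintro ⟨a, c, b⟩ ⟨a', c', b'⟩
    have A12 : ∀ s t, q (x12 s) * q (x12 t) = q (x12 (s + t)) := fun s t => by rw [← map_mul, a12]
    have A13 : ∀ s t, q (x13 s) * q (x13 t) = q (x13 (s + t)) := fun s t => by rw [← map_mul, a13]
    have A23 : ∀ s t, q (x23 s) * q (x23 t) = q (x23 (s + t)) := fun s t => by rw [← map_mul, a23]
    have K12 : ∀ s t, q (x13 s) * q (x12 t) = q (x12 t) * q (x13 s) := fun s t => by
      rw [← map_mul, ← map_mul, lifts_commute π hF hsurj hc he (side := true) (p := (0, 0, s))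
        (q := (t, 0, 0)) rfl rfl (p13 s) (p12 t)]
    have K23 : ∀ s t, q (x23 s) * q (x13 t) = q (x13 t) * q (x23 s) := fun s t => by
      rw [← map_mul, ← map_mul, lifts_commute π hF hsurj hc he (side := false) (p := (0, s, 0))
        (q := (0, 0, t)) rfl rfl (p23 s) (p13 t)]
    simp only [ψ, map_mul]
    calc q (x12 a) * q (x13 (b + a * c)) * q (x23 c) *
          (q (x12 a') * q (x13 (b' + a' * c')) * q (x23 c'))
        = q (x12 a) * q (x13 (b + a * c)) * (q (x23 c) * q (x12 a')) *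
          (q (x13 (b' + a' * c')) * q (x23 c')) := by simp only [mul_assoc]
      _ = q (x12 a) * (q (x13 (b + a * c)) * q (x12 a')) * q (x13 (a' * c)) *
          (q (x23 c) * q (x13 (b' + a' * c'))) * q (x23 c') := by
          rw [hswap]; simp only [mul_assoc]
      _ = (q (x12 a) * q (x12 a')) *
          (q (x13 (b + a * c)) * q (x13 (a' * c)) * q (x13 (b' + a' * c'))) *
          (q (x23 c) * q (x23 c')) := by
          rw [K12, K23]; simp only [mul_assoc]
      _ = _ := by
          rw [A12, A13, A13, A23]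
          have e : b + a * c + a' * c + (b' + a' * c') = b + b' + a * c' + (a + a') * (c + c') := by
            linear_combination (-(a * c')) * h2
          rw [e]
  have hψ0 : ψ (0, 0, 0) = 1 := by
    have h := hψmul (0, 0, 0) (0, 0, 0)
    simp only [add_zero, mul_zero] at h
    exact mul_eq_left.1 h
  let A : Subgroup (E ⧸ W) :=
    { carrier := Set.range ψ
      one_mem' := ⟨_, hψ0⟩
      mul_mem' := by rintro _ _ ⟨p, rfl⟩ ⟨r, rfl⟩; exact ⟨_, (hψmul p r).symm⟩
      inv_mem' := by
        rintro _ ⟨p, rfl⟩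
        refine ⟨(p.1, p.2.1, p.2.2 + p.1 * p.2.1), eq_inv_of_mul_eq_one_right ?_⟩
        rw [hψmul, ← hψ0]
        congr 1
        simp only [Prod.mk.injEq]
        exact ⟨by linear_combination p.1 * h2, by linear_combination p.2.1 * h2,
          by linear_combination (p.2.2 + p.1 * p.2.1) * h2⟩ }
  set K := π'.ker with hK
  have hKc : K ≤ Subgroup.center (E ⧸ W) := by
    intro y hy
    obtain ⟨y, rfl⟩ := QuotientGroup.mk'_surjective W y
    rw [Subgroup.mem_center_iff]
    intro g
    obtain ⟨g, rfl⟩ := QuotientGroup.mk'_surjective W g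
    rw [← map_mul, ← map_mul, ker_mem_center π hc (show π y = 1 from hy) g]
  haveI : IsMulCommutative K :=
    ⟨⟨fun a b => Subtype.ext (Subgroup.mem_center_iff.1 (hKc b.2) a)⟩⟩
  set US : Subgroup P3 :=
    (utGroup F).map (QuotientGroup.mk' (Subgroup.center SL3)) with hUS
  set U := US.comap π' with hU
  have hπ's : Function.Surjective π' := fun y => let ⟨x, hx⟩ := hsurj y; ⟨q x, hx⟩
  have hKU : K ≤ U := fun y hy => by
    show π' y ∈ US
    rw [show π' y = 1 from hy]; exact one_mem _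
  have hAK : A ⊓ K = ⊥ := by
    rw [eq_bot_iff]
    rintro _ ⟨⟨p, rfl⟩, hy⟩
    have hp : xP p = xP ((0 : F), (0 : F), (0 : F)) := by rw [xP_zero, ← hψπ]; exact hy
    rw [Subgroup.mem_bot, xP_injective hp, hψ0]
  have hKA : K ⊔ A = U := by
    refine le_antisymm (sup_le hKU ?_) ?_
    · rintro _ ⟨p, rfl⟩
      exact ⟨utMat F p, ⟨p, rfl⟩, (hψπ p).symm⟩
    · intro y hy
      obtain ⟨_, ⟨p, rfl⟩, hp⟩ := hy
      have : y * (ψ p)⁻¹ ∈ K := by
        rw [hK, MonoidHom.mem_ker, map_mul, map_inv, hψπ, xP, hp, mul_inv_cancel]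
      have h := mul_mem (Subgroup.mem_sup_left (T := A) this) (Subgroup.mem_sup_right (S := K) ⟨p, rfl⟩)
      rwa [inv_mul_cancel_right] at h
  have hcop : (Nat.card K).Coprime U.index := by
    have hidx : U.index = 315 := by
      rw [hU, Subgroup.index_comap_of_surjective _ hπ's]
      have hcardUS : Nat.card US = 64 := by
        have hinj : Function.Injective ((QuotientGroup.mk' (Subgroup.center SL3)).comp (utGroup F).subtype) := by
          rintro ⟨_, p, rfl⟩ ⟨_, r, rfl⟩ h
          exact Subtype.ext (congrArg (utMat F) (xP_injective h))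
        rw [hUS, ← Subgroup.range_subtype (utGroup F), ← MonoidHom.range_comp,
          ← Nat.card_congr (MonoidHom.ofInjective hinj).toEquiv, card_utGroup, hF]
        norm_num
      have hG : Nat.card P3 = 20160 := card_P3 hF
      have := Subgroup.card_mul_index US
      rw [hcardUS, hG] at this
      omega
    obtain ⟨k, hk⟩ : ∃ k, Nat.card K = 2 ^ k := by
      haveI : Fact (Nat.Prime 2) := ⟨Nat.prime_two⟩
      refine IsPGroup.iff_card.1 ?_
      rintro ⟨y, hy⟩
      obtain ⟨y, rfl⟩ := QuotientGroup.mk'_surjective W y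
      refine ⟨1, Subtype.ext ?_⟩
      show (QuotientGroup.mk' W y) ^ 2 ^ 1 = 1
      rw [pow_one, pow_two, ← map_mul, he y hy, map_one]
    rw [hk, hidx]
    exact Nat.Coprime.pow_left _ (by norm_num)
  obtain ⟨H, hH⟩ := Gaschutz.exists_complement K U hKU hcop A hAK hKA
  have hHtop : H = ⊤ := by
    rw [eq_top_iff]
    have htop : commutator (E ⧸ W) = ⊤ := by
      rw [commutator_def, ← Subgroup.map_top_of_surjective _ (QuotientGroup.mk'_surjective W),
        ← Subgroup.map_commutator, ← commutator_def, hperf]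
    rw [← htop, commutator_def, Subgroup.commutator_le]
    intro g _ g' _
    obtain ⟨⟨k, h⟩, rfl⟩ := hH.2 g
    obtain ⟨⟨k', h'⟩, rfl⟩ := hH.2 g'
    show ⁅(k : E ⧸ W) * h, (k' : E ⧸ W) * h'⁆ ∈ H
    have hz : ∀ y, y * (k : E ⧸ W) = k * y := Subgroup.mem_center_iff.1 (hKc k.2)
    have hz' : ∀ y, y * (k' : E ⧸ W) = k' * y := Subgroup.mem_center_iff.1 (hKc k'.2)
    have : ⁅(k : E ⧸ W) * h, (k' : E ⧸ W) * h'⁆ = ⁅(h : E ⧸ W), (h' : E ⧸ W)⁆ := by
      simp only [commutatorElement_def, mul_inv_rev]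
      calc (k : E ⧸ W) * h * (k' * h') * ((h : E ⧸ W)⁻¹ * (k : E ⧸ W)⁻¹) * ((h' : E ⧸ W)⁻¹ * (k' : E ⧸ W)⁻¹)
          = k * (h * k') * h' * (h : E ⧸ W)⁻¹ * ((k : E ⧸ W)⁻¹ * (h' : E ⧸ W)⁻¹) * (k' : E ⧸ W)⁻¹ := by
            simp only [mul_assoc]
        _ = k * k' * (h * h' * (h : E ⧸ W)⁻¹ * (h' : E ⧸ W)⁻¹) * ((k : E ⧸ W)⁻¹ * (k' : E ⧸ W)⁻¹) := by
            rw [hz' h, ← Commute.inv_right (show Commute (h' : E ⧸ W)⁻¹ k from hz _)]
            simp only [mul_assoc]
        _ = h * h' * (h : E ⧸ W)⁻¹ * (h' : E ⧸ W)⁻¹ := by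
            have hkk : ∀ y, (k : E ⧸ W) * k' * y = y * (k * k') := fun y => by
              rw [← mul_assoc, hz y, mul_assoc, mul_assoc, hz' y]
            rw [hkk, mul_assoc _ ((k : E ⧸ W) * k'), ← mul_inv_rev, ← hz' k, mul_inv_cancel, mul_one]
    rw [this, commutatorElement_def]
    exact mul_mem (mul_mem (mul_mem h.2 h'.2) (inv_mem h.2)) (inv_mem h'.2)
  intro y hy
  have hKbot : K = ⊥ := by
    have h1 := hH.disjoint
    rw [hHtop, disjoint_top] at h1
    exact h1
  have : q y ∈ K := hy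
  rw [hKbot, Subgroup.mem_bot] at this
  exact (QuotientGroup.eq_one_iff y).1 this

end Cfsg.Agent.PSL34Cover
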