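import Cfsg.Agent.Lib.PSL34Cover
import Cfsg.Agent.Invol.BrauerFowler

/-!
Central extensions of `PSL(3, 4)` by an elementary abelian 2-group: the preimages of the two
elementary abelian subgroups of order 16 of a Sylow 2-subgroup, and complements in their
normalisers.
-/

set_option autoImplicit false

namespace Cfsg.Agent.PSL34Cover

open Cfsg.Agent.TwoAut

variable {F : Type} [Field F] [Fintype F]

local notation "SL3" => Matrix.SpecialLinearGroup (Fin 3) F
local notation "P3" => Matrix.ProjectiveSpecialLinearGroup (Fin 3) F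
local notation "SL2" => Matrix.SpecialLinearGroup (Fin 2) F

/-- The image of the unitriangular group. -/
def uSyl (F : Type) [Field F] [Fintype F] :
    Subgroup (Matrix.ProjectiveSpecialLinearGroup (Fin 3) F) :=
  (utGroup F).map (QuotientGroup.mk' _)

theorem mem_uSyl {y : P3} : y ∈ uSyl F ↔ ∃ p, xP p = y := by
  constructor
  · rintro ⟨_, ⟨p, rfl⟩, rfl⟩
    exact ⟨p, rfl⟩
  · rintro ⟨p, rfl⟩
    exact ⟨_, ⟨p, rfl⟩, rfl⟩

theorem card_uSyl (hF : Fintype.card F = 4) : Nat.card (uSyl F) = 64 := by
  have e : (uSyl F : Set P3) = Set.range (xP (F := F)) := by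
    ext y
    exact mem_uSyl
  rw [← SetLike.coe_sort_coe, e, ← Nat.card_congr (Equiv.ofInjective _ xP_injective)]
  simp [hF]

theorem inV_mul {p q : F × F × F} {side : Bool} (hp : InV p side) (hq : InV q side) :
    InV (p.1 + q.1, p.2.1 + q.2.1, p.2.2 + q.2.2 + p.1 * q.2.1) side := by
  cases side with
  | true => show p.2.1 + q.2.1 = 0; rw [show p.2.1 = 0 from hp, show q.2.1 = 0 from hq, add_zero]
  | false => show p.1 + q.1 = 0; rw [show p.1 = 0 from hp, show q.1 = 0 from hq, add_zero]

/-- One of the two abelian subgroups of order 16. -/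
def vSub (F : Type) [Field F] [Fintype F] (side : Bool) :
    Subgroup (Matrix.ProjectiveSpecialLinearGroup (Fin 3) F) where
  carrier := {y | ∃ p, InV p side ∧ xP p = y}
  one_mem' := ⟨(0, 0, 0), by cases side <;> rfl, xP_zero⟩
  mul_mem' := by
    rintro _ _ ⟨p, hp, rfl⟩ ⟨q, hq, rfl⟩
    exact ⟨_, inV_mul hp hq, (xP_mul p q).symm⟩
  inv_mem' := by
    rintro _ ⟨p, hp, rfl⟩
    refine ⟨(-p.1, -p.2.1, -p.2.2 + p.1 * p.2.1), ?_, eq_inv_of_mul_eq_one_right ?_⟩
    · cases side with
      | true => show -p.2.1 = 0; rw [show p.2.1 = 0 from hp, neg_zero]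
      | false => show -p.1 = 0; rw [show p.1 = 0 from hp, neg_zero]
    · rw [xP_mul, ← xP_zero]
      congr 1
      simp

theorem xP_mem_vSub {p : F × F × F} {side : Bool} : xP p ∈ vSub F side ↔ InV p side :=
  ⟨fun ⟨_, hq, he⟩ => xP_injective he ▸ hq, fun h => ⟨p, h, rfl⟩⟩

theorem vSub_le (side : Bool) : vSub F side ≤ uSyl F := fun _ ⟨p, _, hp⟩ => mem_uSyl.2 ⟨p, hp⟩

theorem card_vSub (hF : Fintype.card F = 4) (side : Bool) : Nat.card (vSub F side) = 16 := by
  let f : F × F → vSub F side := fun q =>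
    ⟨xP (cond side q.1 0, cond side 0 q.1, q.2), _, by cases side <;> rfl, rfl⟩
  have hf : Function.Bijective f := by
    refine ⟨fun a b h => ?_, ?_⟩
    · have := xP_injective (congrArg Subtype.val h)
      cases side <;> simp_all [Prod.ext_iff]
    · rintro ⟨_, ⟨a, c, b⟩, hp, rfl⟩
      cases side with
      | true => exact ⟨(a, b), Subtype.ext (by obtain rfl : c = 0 := hp; rfl)⟩
      | false => exact ⟨(c, b), Subtype.ext (by obtain rfl : a = 0 := hp; rfl)⟩
  rw [← Nat.card_eq_of_bijective f hf]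
  simp [hF]

theorem eq_vSub (hF : Fintype.card F = 4) {A : Subgroup P3} (hA : A ≤ uSyl F)
    (hsq : ∀ y ∈ A, y ^ 2 = 1) (hc : Nat.card A = 16) : ∃ side, A = vSub F side := by
  have hz : ∀ p : F × F × F, xP p ∈ A → p.1 * p.2.1 = 0 := by
    intro p hp
    have h2 := two_eq_zero hF
    have h := hsq _ hp
    rw [pow_two, xP_mul, ← xP_zero] at h
    have := congrArg (fun q => q.2.2) (xP_injective h)
    simp only at this
    linear_combination this - p.2.2 * h2
  have hside : ∃ side, ∀ p : F × F × F, xP p ∈ A → InV p side := by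
    by_contra hh
    push Not at hh
    obtain ⟨p, hp, hp'⟩ := hh true
    obtain ⟨q, hq, hq'⟩ := hh false
    replace hp' : p.2.1 ≠ 0 := hp'
    replace hq' : q.1 ≠ 0 := hq'
    have hp1 : p.1 = 0 := (mul_eq_zero.1 (hz p hp)).resolve_right hp'
    have hq2 : q.2.1 = 0 := (mul_eq_zero.1 (hz q hq)).resolve_left hq'
    have := hz _ (xP_mul q p ▸ mul_mem hq hp)
    simp only [hp1, hq2, add_zero, zero_add] at this
    exact mul_ne_zero hq' hp' this
  obtain ⟨side, hside⟩ := hside
  refine ⟨side, Subgroup.eq_of_le_of_card_ge (fun y hy => ?_) (by rw [hc, card_vSub hF])⟩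
  obtain ⟨p, rfl⟩ := mem_uSyl.1 (hA hy)
  exact xP_mem_vSub.2 (hside p hy)

/-! ### The Levi complements -/

/-- The block matrix of a `2 × 2` matrix. -/
def levMat (side : Bool) (A : SL2) : Matrix (Fin 3) (Fin 3) F :=
  cond side !![1, 0, 0; 0, A.1 0 0, A.1 0 1; 0, A.1 1 0, A.1 1 1]
    !![A.1 0 0, A.1 0 1, 0; A.1 1 0, A.1 1 1, 0; 0, 0, 1]

theorem levMat_det (side : Bool) (A : SL2) : (levMat side A).det = 1 := by
  have h := A.2
  rw [Matrix.det_fin_two] at h
  cases side <;> simp [levMat, Matrix.det_fin_three] <;> linear_combination h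

/-- The block embedding. -/
def levEmb (side : Bool) : SL2 →* SL3 where
  toFun A := ⟨levMat side A, levMat_det side A⟩
  map_one' := by
    apply Subtype.ext
    cases side <;> ext i j <;> fin_cases i <;> fin_cases j <;> simp [levMat]
  map_mul' A B := by
    apply Subtype.ext
    show levMat side (A * B) = levMat side A * levMat side B
    cases side <;> ext i j <;> fin_cases i <;> fin_cases j <;>
      simp [levMat, Matrix.mul_apply, Fin.sum_univ_three, Fin.sum_univ_two]

theorem levEmb_center {side : Bool} {A : SL2} {p : F × F × F} (hp : InV p side)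
    (h : (utMat F p)⁻¹ * levEmb side A ∈ Subgroup.center SL3) : A = 1 := by
  rw [Matrix.SpecialLinearGroup.mem_center_iff] at h
  obtain ⟨r, -, hr⟩ := h
  have h' : levMat side A = (utMat F p).1 * Matrix.scalar (Fin 3) r := by
    rw [hr, ← Matrix.SpecialLinearGroup.coe_mul, mul_inv_cancel_left]
    rfl
  obtain ⟨a, c, b⟩ := p
  apply Subtype.ext
  have e00 := congrFun (congrFun h' 0) 0
  have e01 := congrFun (congrFun h' 0) 1
  have e10 := congrFun (congrFun h' 1) 0
  have e11 := congrFun (congrFun h' 1) 1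
  have e12 := congrFun (congrFun h' 1) 2
  have e21 := congrFun (congrFun h' 2) 1
  have e22 := congrFun (congrFun h' 2) 2
  cases side with
  | true =>
    obtain rfl : c = 0 := hp
    simp [levMat, utMat, Matrix.mul_apply, Fin.sum_univ_three, Matrix.scalar_apply] at e00 e11 e12 e21 e22
    ext i j
    fin_cases i <;> fin_cases j <;> simp [*]
  | false =>
    obtain rfl : a = 0 := hp
    simp [levMat, utMat, Matrix.mul_apply, Fin.sum_univ_three, Matrix.scalar_apply] at e00 e01 e10 e11 e22
    ext i j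
    fin_cases i <;> fin_cases j <;> simp [*]

/-- The Levi complement in `PSL(3, 4)`. -/
def levHom (side : Bool) : SL2 →* P3 := (QuotientGroup.mk' _).comp (levEmb side)

theorem levHom_eq_xP {side : Bool} {A : SL2} {p : F × F × F} (hp : InV p side)
    (h : levHom side A = xP p) : A = 1 :=
  levEmb_center hp ((QuotientGroup.eq (s := Subgroup.center SL3)).1 h.symm)

theorem levHom_injective (side : Bool) : Function.Injective (levHom (F := F) side) := by
  rw [injective_iff_map_eq_one]
  intro A hA
  exact levHom_eq_xP (side := side) (p := (0, 0, 0)) (by cases side <;> rfl) (by rw [hA, xP_zero])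

theorem levHom_conj (side : Bool) (A : SL2) {p : F × F × F} (hp : InV p side) :
    levHom side A * xP p * (levHom side A)⁻¹ ∈ vSub F side := by
  have hd := A.2
  rw [Matrix.det_fin_two] at hd
  obtain ⟨a, c, b⟩ := p
  cases side with
  | true =>
    obtain rfl : c = 0 := hp
    refine ⟨(A.1 1 1 * a - A.1 1 0 * b, 0, A.1 0 0 * b - A.1 0 1 * a), rfl,
      (conj_of_mat _ ?_).symm⟩
    apply Subtype.ext
    show levMat true A * (utMat F _).1 = (utMat F _).1 * levMat true A
    ext i j
    fin_cases i <;> fin_cases j <;>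
      simp [levMat, utMat, Matrix.mul_apply, Fin.sum_univ_three] <;>
      first | linear_combination (-a) * hd | linear_combination (-b) * hd
  | false =>
    obtain rfl : a = 0 := hp
    refine ⟨(0, A.1 1 0 * b + A.1 1 1 * c, A.1 0 0 * b + A.1 0 1 * c), rfl,
      (conj_of_mat _ ?_).symm⟩
    apply Subtype.ext
    show levMat false A * (utMat F _).1 = (utMat F _).1 * levMat false A
    ext i j
    fin_cases i <;> fin_cases j <;>
      simp [levMat, utMat, Matrix.mul_apply, Fin.sum_univ_three] <;> ring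

theorem card_SL2 (hF : Fintype.card F = 4) : Nat.card SL2 = 60 := by
  have h1 := Cfsg.Agent.Linear.card_SL_mul (F := F) 2
  rw [Fin.prod_univ_two] at h1
  simp [hF] at h1
  omega

/-- The Levi complement as a subgroup. -/
def levi (F : Type) [Field F] [Fintype F] (side : Bool) :
    Subgroup (Matrix.ProjectiveSpecialLinearGroup (Fin 3) F) :=
  (levHom (F := F) side).range

theorem levi_le_normalizer (side : Bool) :
    levi F side ≤ Subgroup.normalizer (vSub F side : Set P3) := by
  rintro _ ⟨A, rfl⟩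
  rw [Subgroup.mem_normalizer_iff]
  intro y
  constructor
  · rintro ⟨p, hp, rfl⟩
    exact levHom_conj side A hp
  · intro hy
    obtain ⟨p, hp, hy⟩ := hy
    have h := levHom_conj side A⁻¹ hp
    rw [hy, map_inv, inv_inv] at h
    simpa [mul_assoc] using h

theorem inf_levi (side : Bool) : vSub F side ⊓ levi F side = ⊥ := by
  rw [eq_bot_iff]
  rintro _ ⟨⟨p, hp, hpy⟩, ⟨A, rfl⟩⟩
  rw [levHom_eq_xP hp hpy.symm, map_one]
  exact one_mem _

theorem normalizer_vSub (hF : Fintype.card F = 4) [IsSimpleGroup P3] (side : Bool) :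
    vSub F side ⊔ levi F side = Subgroup.normalizer (vSub F side : Set P3) := by
  set V := vSub F side
  set L := levi F side
  set N := Subgroup.normalizer (V : Set P3)
  have hle : V ⊔ L ≤ N := sup_le Subgroup.le_normalizer (levi_le_normalizer side)
  have hL : Nat.card L = 60 := by
    show Nat.card (levHom (F := F) side).range = 60
    rw [← Nat.card_congr (MonoidHom.ofInjective (levHom_injective side)).toEquiv, card_SL2 hF]
  have hsup : 960 ∣ Nat.card (V ⊔ L : Subgroup P3) := by
    have hdvd : ∀ {A : Subgroup P3}, A ≤ V ⊔ L → Nat.card A ∣ Nat.card (V ⊔ L : Subgroup P3) :=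
      fun h => Subgroup.card_dvd_of_le h
    have hinj : Function.Injective (fun q : V × L => (q.1 : P3) * q.2) := by
      rintro ⟨v, l⟩ ⟨v', l'⟩ h
      have h' : ((v' : P3))⁻¹ * v = l' * (l : P3)⁻¹ := by
        rw [eq_mul_inv_iff_mul_eq, mul_assoc, inv_mul_eq_iff_eq_mul]; exact h
      have hm : ((v' : P3))⁻¹ * v ∈ V ⊓ L := Subgroup.mem_inf.2
        ⟨mul_mem (inv_mem v'.2) v.2, h' ▸ mul_mem l'.2 (inv_mem l.2)⟩
      rw [inf_levi, Subgroup.mem_bot, inv_mul_eq_one] at hm
      obtain rfl : v' = v := Subtype.ext hm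
      simpa using h
    have hge : 16 * 60 ≤ Nat.card (V ⊔ L : Subgroup P3) := by
      rw [← card_vSub hF side, ← hL, ← Nat.card_prod]
      refine Nat.card_le_card_of_injective (fun q => ⟨(q.1 : P3) * q.2,
        mul_mem (Subgroup.mem_sup_left q.1.2) (Subgroup.mem_sup_right q.2.2)⟩) ?_
      exact fun a b h => hinj (congrArg Subtype.val h)
    have hhom : ∀ x ∈ V ⊔ L, ∃ v ∈ V, ∃ l ∈ L, v * l = x := by
      intro x hx
      rw [← SetLike.mem_coe, Subgroup.coe_mul_of_right_le_normalizer_left V L (levi_le_normalizer side)] at hx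
      exact hx
    have hle' : Nat.card (V ⊔ L : Subgroup P3) ≤ 16 * 60 := by
      rw [← card_vSub hF side, ← hL, ← Nat.card_prod]
      refine Nat.card_le_card_of_surjective (fun q : V × L => (⟨(q.1 : P3) * q.2,
        mul_mem (Subgroup.mem_sup_left q.1.2) (Subgroup.mem_sup_right q.2.2)⟩ : ↥(V ⊔ L))) ?_
      rintro ⟨x, hx⟩
      obtain ⟨v, hv, l, hl, rfl⟩ := hhom x hx
      exact ⟨(⟨v, hv⟩, ⟨l, hl⟩), rfl⟩
    rw [le_antisymm hle' hge]
  have hNtop : N ≠ ⊤ := fun h => by
    rcases (Subgroup.normalizer_eq_top_iff.1 h).eq_bot_or_eq_top with e | e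
    · have := card_vSub hF side
      rw [show vSub F side = ⊥ from e, Subgroup.card_bot] at this
      omega
    · have := card_vSub hF side
      rw [show vSub F side = ⊤ from e, Subgroup.card_top, card_P3 hF] at this
      omega
  have hdvd := Invol.card_dvd_factorial_index hNtop
  have hmul := Subgroup.card_mul_index N
  rw [card_P3 hF] at hdvd hmul
  obtain ⟨k, hk⟩ := hsup.trans (Subgroup.card_dvd_of_le hle)
  rw [hk, mul_assoc] at hmul
  have h21 : k * N.index = 21 := Nat.eq_of_mul_eq_mul_left (by norm_num : 0 < 960) hmul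
  have hi : N.index ∈ ([1, 3, 7, 21] : List ℕ) := by
    have hle21 := Nat.le_of_dvd (by norm_num) (⟨k, by rw [← h21, mul_comm]⟩ : N.index ∣ 21)
    have hd : N.index ∈ (List.range 22).filter fun i => decide (i ∣ 21) := by
      simpa using ⟨by omega, ⟨k, by rw [← h21, mul_comm]⟩⟩
    rwa [show ((List.range 22).filter fun i => decide (i ∣ 21)) = [1, 3, 7, 21] by decide] at hd
  have hk1 : k = 1 := by
    simp only [List.mem_cons, List.not_mem_nil, or_false] at hi
    rcases hi with hi | hi | hi | hi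
    · rw [hi] at hdvd; exact absurd hdvd (by decide)
    · rw [hi] at hdvd; exact absurd hdvd (by decide)
    · rw [hi] at hdvd; exact absurd hdvd (by decide)
    · rw [hi] at h21; omega
  refine Subgroup.eq_of_le_of_card_ge hle ?_
  rw [hk, hk1, mul_one]
  exact Nat.le_of_dvd Nat.card_pos hsup

/-! ### Lifting -/

variable {E : Type*} [Group E] (π : E →* Matrix.ProjectiveSpecialLinearGroup (Fin 3) F)

theorem comap_vSub_elementary (hF : Fintype.card F = 4) (hsurj : Function.Surjective π)
    (hc : π.ker ≤ Subgroup.center E) (he : ∀ z : E, π z = 1 → z * z = 1) (side : Bool) :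
    (∀ x ∈ (vSub F side).comap π, x ^ 2 = 1) ∧
      ∀ x ∈ (vSub F side).comap π, ∀ y ∈ (vSub F side).comap π, x * y = y * x := by
  constructor
  · rintro x ⟨p, hp, hx⟩
    rw [pow_two]
    exact lifts_sq π hF hsurj hc he hp hx.symm
  · rintro x ⟨p, hp, hx⟩ y ⟨q, hq, hy⟩
    exact lifts_commute π hF hsurj hc he hp hq hx.symm hy.symm

/-- The two preimages meet in the centre of their join. -/
theorem center_join (hF : Fintype.card F = 4) (hsurj : Function.Surjective π)
    (hc : π.ker ≤ Subgroup.center E) (he : ∀ z : E, π z = 1 → z * z = 1) (side : Bool) :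
    (vSub F side).comap π ⊓ (vSub F (!side)).comap π =
      (Subgroup.center ↥((vSub F side).comap π ⊔ (vSub F (!side)).comap π)).map
        ((vSub F side).comap π ⊔ (vSub F (!side)).comap π).subtype := by
  set H := (vSub F side).comap π with hH
  set K := (vSub F (!side)).comap π with hK
  refine le_antisymm ?_ ?_
  · rintro x ⟨hxH, hxK⟩
    refine ⟨⟨x, Subgroup.mem_sup_left hxH⟩, ?_, rfl⟩
    rw [SetLike.mem_coe, Subgroup.mem_center_iff]
    rintro ⟨g, hg⟩
    have hle : H ⊔ K ≤ Subgroup.centralizer {x} := by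
      refine sup_le (fun y hy => ?_) (fun y hy => ?_) <;>
        rw [Subgroup.mem_centralizer_singleton_iff]
      · exact (comap_vSub_elementary π hF hsurj hc he side).2 y hy x hxH
      · exact (comap_vSub_elementary π hF hsurj hc he _).2 y hy x hxK
    exact Subtype.ext (Subgroup.mem_centralizer_singleton_iff.1 (hle hg))
  · rintro _ ⟨⟨x, hx⟩, hxc, rfl⟩
    have hU : H ⊔ K ≤ (uSyl F).comap π :=
      sup_le (Subgroup.comap_mono (vSub_le _)) (Subgroup.comap_mono (vSub_le _))
    obtain ⟨⟨a, c, b⟩, hp⟩ := mem_uSyl.1 (hU hx)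
    have hcomm : ∀ (s : Bool) (q : F × F × F), InV q s →
        (xP q : P3) * xP (a, c, b) = xP (a, c, b) * xP q := by
      intro s q hq
      obtain ⟨y, hy⟩ := hsurj (xP q)
      have hyq : y ∈ (vSub F s).comap π := ⟨q, hq, hy.symm⟩
      have hy' : y ∈ H ⊔ K := by
        cases s <;> cases side <;>
          first | exact Subgroup.mem_sup_left hyq | exact Subgroup.mem_sup_right hyq
      have := congrArg (fun z : ↥(H ⊔ K) => π z) (Subgroup.mem_center_iff.1 hxc ⟨y, hy'⟩)
      simpa [hy, ← hp] using this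
    have e1 := hcomm true (1, 0, 0) rfl
    have e2 := hcomm false (0, 1, 0) rfl
    rw [xP_mul, xP_mul] at e1 e2
    replace e1 := congrArg (fun z => z.2.2) (xP_injective e1)
    replace e2 := congrArg (fun z => z.2.2) (xP_injective e2)
    simp only [add_zero, zero_add, mul_zero, zero_mul, one_mul, mul_one] at e1 e2
    have hc0 : c = 0 := by linear_combination e1
    have ha0 : a = 0 := by linear_combination -e2
    subst hc0 ha0
    exact ⟨⟨_, by cases side <;> rfl, hp⟩, ⟨_, by cases side <;> rfl, hp⟩⟩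

/-- A complement in the normaliser. -/
theorem exists_levi_lift [Finite E] (hF : Fintype.card F = 4) [IsSimpleGroup P3]
    (hsurj : Function.Surjective π) (hc : π.ker ≤ Subgroup.center E)
    (he : ∀ z : E, π z = 1 → z * z = 1) (side : Bool) :
    ∃ C : Subgroup E, C ≤ Subgroup.normalizer ((vSub F side).comap π : Set E) ∧
      C ⊓ (vSub F side).comap π = ⊥ ∧
      (vSub F side).comap π ⊔ C = Subgroup.normalizer ((vSub F side).comap π : Set E) ∧
      Nonempty (↥C ≃* Matrix.ProjectiveSpecialLinearGroup (Fin 2) F) := by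
  classical
  have h2 := two_eq_zero hF
  set L := levi F side with hLdef
  set P := L.comap π with hPdef
  have hker : π.ker ≤ P := fun z hz => by
    show π z ∈ L
    rw [MonoidHom.mem_ker.1 hz]; exact one_mem _
  let ρ : P →* P3 := π.comp P.subtype
  set Z := ρ.ker with hZdef
  haveI : IsMulCommutative Z :=
    ⟨⟨fun a b => Subtype.ext (Subtype.ext (ker_mem_center π hc (z := ((b : P) : E)) b.2 _))⟩⟩
  -- the root group of the Levi complement
  let rA : F → SL2 := fun s => ⟨!![1, s; 0, 1], by simp [Matrix.det_fin_two]⟩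
  let rP : F → F × F × F := fun s => cond side (0, s, 0) (s, 0, 0)
  have hrP : ∀ s, levHom side (rA s) = xP (rP s) := by
    intro s
    show QuotientGroup.mk' _ (levEmb side (rA s)) = QuotientGroup.mk' _ (utMat F (rP s))
    congr 1
    apply Subtype.ext
    show levMat side (rA s) = (utMat F (rP s)).1
    cases side <;> ext i j <;> fin_cases i <;> fin_cases j <;>
      simp [levMat, rA, rP, utMat]
  have hrV : ∀ s, InV (rP s) (!side) := fun s => by cases side <;> rfl
  have hradd : ∀ s t, (xP (rP s) : P3) * xP (rP t) = xP (rP (s + t)) := by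
    intro s t
    rw [xP_mul]
    cases side <;> simp [rP]
  have hrL : ∀ s, (xP (rP s) : P3) ∈ L := fun s => ⟨rA s, hrP s⟩
  obtain ⟨w, hw, hall⟩ := exists_omega hF
  obtain ⟨v, hv⟩ := hsurj (xP (rP 1))
  obtain ⟨x, hx⟩ := hsurj (xP (rP w))
  let g : Bool × Bool → E := fun q => (if q.1 then v else 1) * (if q.2 then x else 1)
  have sv : v * v = 1 := lifts_sq π hF hsurj hc he (hrV 1) hv
  have sx : x * x = 1 := lifts_sq π hF hsurj hc he (hrV w) hx
  have cm : x * v = v * x := lifts_commute π hF hsurj hc he (hrV w) (hrV 1) hx hv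
  have hgmul : ∀ q r, g q * g r = g (xor q.1 r.1, xor q.2 r.2) := by
    rintro ⟨q1, q2⟩ ⟨r1, r2⟩
    have cm' : ∀ y, x * (v * y) = v * (x * y) := fun y => by rw [← mul_assoc, cm, mul_assoc]
    cases q1 <;> cases q2 <;> cases r1 <;> cases r2 <;>
      simp [g, mul_assoc, sv, sx, cm, cm', ← mul_assoc v v]
  let gF : Bool × Bool → F := fun q => (if q.1 then 1 else 0) + (if q.2 then w else 0)
  have hgπ : ∀ q, π (g q) = xP (rP (gF q)) := by
    have h0 : (xP (rP (0 : F)) : P3) = 1 := by rw [← xP_zero]; cases side <;> rfl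
    rintro ⟨q1, q2⟩
    cases q1 <;> cases q2 <;> simp [g, gF, hv, hx, h0, hradd]
  have hgL : ∀ q, g q ∈ P := fun q => by
    show π (g q) ∈ L
    rw [hgπ]; exact hrL _
  let A : Subgroup P :=
    { carrier := Set.range fun q => (⟨g q, hgL q⟩ : P)
      one_mem' := ⟨(false, false), Subtype.ext (by simp [g])⟩
      mul_mem' := by rintro _ _ ⟨q, rfl⟩ ⟨r, rfl⟩; exact ⟨_, Subtype.ext (hgmul q r).symm⟩
      inv_mem' := by
        rintro _ ⟨q, rfl⟩
        refine ⟨q, (inv_eq_of_mul_eq_one_right (Subtype.ext ?_)).symm⟩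
        show g q * g q = 1
        rw [hgmul, Bool.xor_self, Bool.xor_self]
        simp [g] }
  have hrPinj : Function.Injective rP := fun s t h => by
    cases side <;> simpa [rP, Prod.ext_iff] using h
  have hAZ : A ⊓ Z = ⊥ := by
    rw [eq_bot_iff]
    rintro _ ⟨⟨q, rfl⟩, hq⟩
    replace hq : π (g q) = 1 := hq
    have hw0 : w ≠ 0 := fun h => by rw [h] at hw; simp at hw
    have hw1 : (1 : F) + w ≠ 0 := fun h => one_ne_zero (α := F) (by linear_combination hw - w * h)
    have h0 : gF q = 0 := by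
      apply hrPinj
      apply xP_injective
      rw [← hgπ, hq, ← xP_zero]
      cases side <;> rfl
    obtain ⟨q1, q2⟩ := q
    rw [Subgroup.mem_bot]
    cases q1 <;> cases q2 <;> simp [gF, hw0, hw1] at h0
    exact Subtype.ext (by simp [g])
  -- the Sylow subgroup of the preimage
  let R : Subgroup P3 :=
    { carrier := Set.range fun s => xP (rP s)
      one_mem' := ⟨0, by show xP (rP (0 : F)) = 1; rw [← xP_zero]; cases side <;> rfl⟩
      mul_mem' := by rintro _ _ ⟨s, rfl⟩ ⟨t, rfl⟩; exact ⟨_, (hradd s t).symm⟩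
      inv_mem' := by
        rintro _ ⟨s, rfl⟩
        refine ⟨-s, eq_inv_of_mul_eq_one_right ?_⟩
        rw [hradd, add_neg_cancel, ← xP_zero]
        cases side <;> rfl }
  set U := R.comap ρ with hUdef
  have hZU : Z ≤ U := fun z hz => by
    show ρ z ∈ R
    rw [MonoidHom.mem_ker.1 hz]; exact one_mem _
  have hsurjF : Function.Surjective gF := by
    intro s
    rcases hall s with rfl | rfl | rfl | rfl
    · exact ⟨(false, false), by simp [gF]⟩
    · exact ⟨(true, false), by simp [gF]⟩
    · exact ⟨(false, true), by simp [gF]⟩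
    · exact ⟨(true, true), by simp [gF, add_comm]⟩
  have hZA : Z ⊔ A = U := by
    refine le_antisymm (sup_le hZU ?_) ?_
    · rintro _ ⟨q, rfl⟩
      exact ⟨gF q, (hgπ q).symm⟩
    · intro y hy
      obtain ⟨s, hs⟩ := hy
      obtain ⟨q, rfl⟩ := hsurjF s
      have hz : y * (⟨g q, hgL q⟩ : P)⁻¹ ∈ Z := by
        rw [hZdef, MonoidHom.mem_ker, map_mul, map_inv, ← hs]
        show xP (rP (gF q)) * (π (g q))⁻¹ = 1
        rw [hgπ, mul_inv_cancel]
      have := mul_mem (Subgroup.mem_sup_left (T := A) hz)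
        (Subgroup.mem_sup_right (S := Z) (⟨q, rfl⟩ : (⟨g q, hgL q⟩ : P) ∈ A))
      rwa [inv_mul_cancel_right] at this
  have hLcard : Nat.card L = 60 := by
    show Nat.card (levHom (F := F) side).range = 60
    rw [← Nat.card_congr (MonoidHom.ofInjective (levHom_injective side)).toEquiv, card_SL2 hF]
  have hρrange : ρ.range = L := by
    ext y
    constructor
    · rintro ⟨p, rfl⟩; exact p.2
    · intro hy
      obtain ⟨e, he⟩ := hsurj y
      exact ⟨⟨e, by show π e ∈ L; rw [he]; exact hy⟩, he⟩
  have hRL : R ≤ L := by rintro _ ⟨s, rfl⟩; exact hrL s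
  have hidx : U.index = 15 := by
    rw [hUdef, Subgroup.index_comap, hρrange]
    have h := Subgroup.card_mul_index (R.subgroupOf L)
    rw [Nat.card_congr (Subgroup.subgroupOfEquivOfLe hRL).toEquiv, hLcard] at h
    have hR : Nat.card R = 4 := by
      have e : (R : Set P3) = Set.range fun s => xP (rP s) := rfl
      rw [← SetLike.coe_sort_coe, e,
        ← Nat.card_congr (Equiv.ofInjective (fun s => (xP (rP s) : P3)) (xP_injective.comp hrPinj))]
      simp [hF]
    rw [hR] at h
    show (R.subgroupOf L).index = 15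
    omega
  have hcop : (Nat.card Z).Coprime U.index := by
    obtain ⟨k, hk⟩ : ∃ k, Nat.card Z = 2 ^ k := by
      haveI : Fact (Nat.Prime 2) := ⟨Nat.prime_two⟩
      refine IsPGroup.iff_card.1 ?_
      rintro ⟨y, hy⟩
      refine ⟨1, Subtype.ext (Subtype.ext ?_)⟩
      show (y : E) ^ 2 ^ 1 = 1
      rw [pow_one, pow_two]
      exact he _ hy
    rw [hk, hidx]
    exact Nat.Coprime.pow_left _ (by norm_num)
  obtain ⟨H0, hH0⟩ := Gaschutz.exists_complement Z U hZU hcop A hAZ hZA
  -- the complement
  let ρ0 : H0 →* L := (ρ.comp H0.subtype).codRestrict L fun y => (y : P).2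
  have hinj : Function.Injective ρ0 := by
    rw [injective_iff_map_eq_one]
    intro y hy
    have hyZ : (y : P) ∈ Z ⊓ H0 := ⟨congrArg Subtype.val hy, y.2⟩
    rw [hH0.disjoint.eq_bot, Subgroup.mem_bot] at hyZ
    exact Subtype.ext hyZ
  have hsur : Function.Surjective ρ0 := by
    rintro ⟨l, hl⟩
    obtain ⟨p, hp⟩ := (hρrange.symm ▸ hl : l ∈ ρ.range)
    obtain ⟨⟨z, h⟩, hzh⟩ := hH0.2 p
    refine ⟨h, Subtype.ext ?_⟩
    show ρ (h : P) = l
    rw [← hp, ← hzh, map_mul, MonoidHom.mem_ker.1 z.2, one_mul]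
  set C := H0.map P.subtype with hCdef
  have hVn : ∀ y : E, π y ∈ vSub F side ↔ y ∈ (vSub F side).comap π := fun _ => Iff.rfl
  have hnorm : Subgroup.normalizer ((vSub F side).comap π : Set E) =
      (Subgroup.normalizer (vSub F side : Set P3)).comap π :=
    (Subgroup.comap_normalizer_eq_of_surjective _ hsurj).symm
  have hCπ : ∀ y ∈ C, π y ∈ L := by
    rintro _ ⟨p, -, rfl⟩; exact p.2
  refine ⟨C, ?_, ?_, ?_, ?_⟩
  · rw [hnorm]
    exact fun y hy => levi_le_normalizer side (hCπ y hy)
  · rw [eq_bot_iff]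
    rintro _ ⟨⟨p, hp, rfl⟩, hpV⟩
    have h1 : π (p : E) ∈ vSub F side ⊓ L := ⟨hpV, p.2⟩
    rw [hLdef, inf_levi, Subgroup.mem_bot] at h1
    have h3 : (⟨p, hp⟩ : H0) = 1 := hinj (by rw [map_one]; exact Subtype.ext h1)
    rw [show p = 1 from congrArg Subtype.val h3]
    exact one_mem _
  · rw [hnorm, ← normalizer_vSub hF side]
    refine le_antisymm (sup_le (Subgroup.comap_mono le_sup_left) ?_) ?_
    · exact fun y hy => Subgroup.mem_sup_right (hCπ y hy)
    · intro y hy
      have hnV : levi F side ≤ Subgroup.normalizer (vSub F side : Set P3) := levi_le_normalizer side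
      rw [Subgroup.mem_comap, ← SetLike.mem_coe,
        Subgroup.coe_mul_of_right_le_normalizer_left _ _ hnV] at hy
      obtain ⟨a, ha, l, hl, hal⟩ := hy
      obtain ⟨⟨h, hh⟩, he'⟩ := hsur ⟨l, hl⟩
      have hl' : π (h : E) = l := congrArg Subtype.val he'
      have hmem : y * (h : E)⁻¹ ∈ (vSub F side).comap π := by
        show π (y * (h : E)⁻¹) ∈ vSub F side
        rw [map_mul, map_inv, hl', ← hal, mul_inv_cancel_right]
        exact ha
      have := mul_mem (Subgroup.mem_sup_left (T := C) hmem)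
        (Subgroup.mem_sup_right (S := (vSub F side).comap π) (⟨h, hh, rfl⟩ : (h : E) ∈ C))
      rwa [inv_mul_cancel_right] at this
  · have e1 : ↥C ≃* ↥H0 := (H0.equivMapOfInjective _ Subtype.val_injective).symm
    have hcb : Function.Bijective
        (QuotientGroup.mk' (Subgroup.center SL2) :
          SL2 →* Matrix.ProjectiveSpecialLinearGroup (Fin 2) F) := by
      refine ⟨?_, QuotientGroup.mk'_surjective _⟩
      rw [← MonoidHom.ker_eq_bot_iff, QuotientGroup.ker_mk', eq_bot_iff]
      intro A hA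
      rw [Matrix.SpecialLinearGroup.mem_center_iff] at hA
      obtain ⟨r, hr, hA⟩ := hA
      have hr1 : r = 1 := by
        have h22 : r ^ 2 = 1 := by simpa using hr
        exact sub_eq_zero.1 (pow_eq_zero_iff (n := 2) two_ne_zero |>.1
          (by linear_combination h22 + (1 - r) * h2))
      rw [Subgroup.mem_bot]
      apply Subtype.ext
      rw [← hA, hr1, map_one]
      rfl
    exact ⟨((e1.trans (MulEquiv.ofBijective ρ0 ⟨hinj, hsur⟩)).trans
      (MonoidHom.ofInjective (levHom_injective side)).symm).trans (MulEquiv.ofBijective _ hcb)⟩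

end Cfsg.Agent.PSL34Cover
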