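import Cfsg.Agent.Lib.SchurZassenhaus

/-!
Sylow subgroups with trivial intersection.
-/

set_option autoImplicit false

namespace Cfsg.Agent.TISylow

open Subgroup
open scoped Pointwise

variable {G : Type*} [Group G] [Finite G] {p : ℕ} [Fact p.Prime]

/-- If one Sylow subgroup is TI then two Sylow subgroups meeting nontrivially are equal. -/
theorem eq_of_inf_ne_bot (P : Sylow p G)
    (hTI : ∀ g : G, g ∉ Subgroup.normalizer ((P : Subgroup G) : Set G) →
      (P : Subgroup G) ⊓ (MulAut.conj g • (P : Subgroup G)) = ⊥)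
    (R S : Sylow p G) (h : (R : Subgroup G) ⊓ S ≠ ⊥) : R = S := by
  obtain ⟨a, ha⟩ := MulAction.exists_smul_eq G P R
  obtain ⟨b, hb⟩ := MulAction.exists_smul_eq G P S
  have hR : (R : Subgroup G) = MulAut.conj a • (P : Subgroup G) := by rw [← ha]; rfl
  have hS : (S : Subgroup G) = MulAut.conj b • (P : Subgroup G) := by rw [← hb]; rfl
  by_contra hne
  apply h
  have hnot : a⁻¹ * b ∉ Subgroup.normalizer ((P : Subgroup G) : Set G) := by
    intro hm
    apply hne
    apply Sylow.ext
    rw [hR, hS, show b = a * (a⁻¹ * b) by group, ← SZ.conj_smul_smul]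
    congr 1
    exact (mem_normalizer_iff_map_conj_eq.mp hm).symm
  rw [hR, hS, show b = a * (a⁻¹ * b) by group, ← SZ.conj_smul_smul, ← Subgroup.smul_inf,
    hTI _ hnot]
  exact Subgroup.Normal.conj_smul_eq_self a ⊥

end Cfsg.Agent.TISylow
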