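import Cfsg.Agent.Alt.ThreeCycle
import Mathlib.GroupTheory.Perm.Support
import Mathlib.GroupTheory.Perm.Finite

/-!
The partition of the points cut out by the three-cycles of a permutation group.

Two points are linked when they are equal or moved by a common three-cycle of `K`.  This is an
equivalence relation and `K` contains the alternating group of every class.
-/

set_option autoImplicit false

namespace Cfsg.Agent.ThreeClass

open Equiv Equiv.Perm

variable {α : Type*} [Fintype α] [DecidableEq α] {K : Subgroup (Perm α)}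

/-- `K` contains a three-cycle moving exactly `a`, `b`, `c`. -/
def Tri (K : Subgroup (Perm α)) (a b c : α) : Prop :=
  ∃ g ∈ K, IsThreeCycle g ∧ g.support = {a, b, c}

/-- `x` and `y` are equal or moved by a common three-cycle of `K`. -/
def Link (K : Subgroup (Perm α)) (x y : α) : Prop :=
  x = y ∨ ∃ g ∈ K, IsThreeCycle g ∧ g x ≠ x ∧ g y ≠ y

theorem isThreeCycle_conj (p : Perm α) {g : Perm α} (h : IsThreeCycle g) : IsThreeCycle (p * g * p⁻¹) := by
  rw [IsThreeCycle, cycleType_conj]
  exact h

theorem link_symm {x y : α} (h : Link K x y) : Link K y x := by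
  rcases h with rfl | ⟨g, hg, h3, hx, hy⟩
  · exact Or.inl rfl
  · exact Or.inr ⟨g, hg, h3, hy, hx⟩

theorem link_mono {K' : Subgroup (Perm α)} (hle : K ≤ K') {x y : α} (h : Link K x y) : Link K' x y := by
  rcases h with rfl | ⟨g, hg, h⟩
  · exact Or.inl rfl
  · exact Or.inr ⟨g, hle hg, h⟩

theorem link_map {x y : α} (h : Link K x y) {p : Perm α} (hp : p ∈ K) : Link K (p x) (p y) := by
  rcases h with rfl | ⟨g, hg, h3, hx, hy⟩
  · exact Or.inl rfl
  · exact Or.inr ⟨p * g * p⁻¹, K.mul_mem (K.mul_mem hp hg) (K.inv_mem hp), isThreeCycle_conj p h3,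
      by simpa using hx, by simpa using hy⟩

theorem support_of_mem_three {g : Perm α} (h3 : IsThreeCycle g) {x : α} (hx : g x ≠ x) :
    g.support = {x, g x, g (g x)} :=
  (h3.support_eq_iff_mem_support).2 (mem_support.2 hx)

theorem pow_maps {g : Perm α} (h3 : IsThreeCycle g) {x y : α} (hx : g x ≠ x) (hy : g y ≠ y) :
    y = x ∨ y = g x ∨ y = g (g x) := by
  have : y ∈ g.support := mem_support.2 hy
  rw [support_of_mem_three h3 hx] at this
  simpa using this

theorem link_trans {x y z : α} (hxy : Link K x y) (hyz : Link K y z) : Link K x z := by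
  rcases hxy with rfl | ⟨g, hg, g3, gx, gy⟩
  · exact hyz
  rcases hyz with rfl | ⟨h, hh, h3, hy, hz⟩
  · exact Or.inr ⟨g, hg, g3, gx, gy⟩
  by_cases gz : g z = z
  swap
  · exact Or.inr ⟨g, hg, g3, gx, gz⟩
  obtain ⟨p, hp, hpy, hpz⟩ : ∃ p ∈ K, p y = x ∧ p z = z := by
    rcases pow_maps g3 gy gx with e | e | e
    · exact ⟨1, K.one_mem, by simp [e], by simp⟩
    · exact ⟨g, hg, e.symm, gz⟩
    · exact ⟨g * g, K.mul_mem hg hg, by simp [e], by simp [gz]⟩
  refine Or.inr ⟨p * h * p⁻¹, K.mul_mem (K.mul_mem hp hh) (K.inv_mem hp), isThreeCycle_conj p h3, ?_, ?_⟩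
  · rw [← hpy]; simpa using hy
  · rw [← hpz]; simpa using hz

theorem tri_perm {a b c a' b' c' : α} (h : Tri K a b c) (e : ({a, b, c} : Finset α) = {a', b', c'}) :
    Tri K a' b' c' := by
  obtain ⟨g, hg, h3, hs⟩ := h
  exact ⟨g, hg, h3, hs.trans e⟩

theorem tri_conj {a b c : α} (h : Tri K a b c) {p : Perm α} (hp : p ∈ K) : Tri K (p a) (p b) (p c) := by
  obtain ⟨g, hg, h3, hs⟩ := h
  refine ⟨p * g * p⁻¹, K.mul_mem (K.mul_mem hp hg) (K.inv_mem hp), isThreeCycle_conj p h3, ?_⟩
  rw [support_conj, hs]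
  simp

theorem exists_shift {b d c : α} (h : Tri K b d c) (hbd : b ≠ d) (hdc : d ≠ c) (hbc : b ≠ c) :
    ∃ p ∈ K, p d = b ∧ p b = c ∧ ∀ x, x ≠ b → x ≠ d → x ≠ c → p x = x := by
  obtain ⟨g, hg, h3, hs⟩ := h
  have hmov : ∀ x, g x ≠ x ↔ x = b ∨ x = d ∨ x = c := fun x => by
    rw [← mem_support, hs]; simp
  have hfix : ∀ x, x ≠ b → x ≠ d → x ≠ c → g x = x := fun x h1 h2 h4 => by
    by_contra h5
    rcases (hmov x).1 h5 with e | e | e <;> contradiction
  have gd : g d ≠ d := (hmov d).2 (Or.inr (Or.inl rfl))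
  have gb : g b ≠ b := (hmov b).2 (Or.inl rfl)
  have gc : g c ≠ c := (hmov c).2 (Or.inr (Or.inr rfl))
  rcases pow_maps h3 gd gb with e | e | e
  · exact absurd e hbd
  · refine ⟨g, hg, e.symm, ?_, hfix⟩
    rcases pow_maps h3 gd gc with e' | e' | e'
    · exact absurd e'.symm hdc
    · exact absurd (e.trans e'.symm) hbc
    · rw [e, ← e']
  · refine ⟨g * g, K.mul_mem hg hg, e.symm, ?_, fun x h1 h2 h4 => by simp [hfix x h1 h2 h4]⟩
    have e' : g b = d := by rw [e, Alt.threeCycle_apply_three h3]
    show g (g b) = c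
    rcases pow_maps h3 gd gc with e'' | e'' | e''
    · exact absurd e''.symm hdc
    · rw [e', ← e'']
    · exact absurd (e.trans e''.symm) hbc

theorem tri_share {a b c d : α} (hab : a ≠ b) (had : a ≠ d) (hac : a ≠ c) (hbd : b ≠ d) (hdc : d ≠ c)
    (hbc : b ≠ c) (h1 : Tri K a b d) (h2 : Tri K b d c) : Tri K a b c := by
  obtain ⟨p, hp, hpd, hpb, hfix⟩ := exists_shift h2 hbd hdc hbc
  have h := tri_conj h1 hp
  rw [hfix a hab had hac, hpb, hpd] at h
  exact tri_perm h (by ext; simp; tauto)

theorem tri_of_link {x y : α} (h : Link K x y) (hxy : x ≠ y) : ∃ z, z ≠ x ∧ z ≠ y ∧ Tri K x y z := by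
  obtain ⟨g, hg, h3, hx, hy⟩ := h.resolve_left hxy
  obtain ⟨h1, h2, h4⟩ := Alt.threeCycle_distinct h3 hx
  rcases pow_maps h3 hx hy with e | e | e
  · exact absurd e.symm hxy
  · exact ⟨g (g x), h2.symm, e ▸ h4.symm, g, hg, h3, by rw [support_of_mem_three h3 hx, e]⟩
  · exact ⟨g x, h1.symm, e ▸ h4, g, hg, h3, by rw [support_of_mem_three h3 hx, e]; ext; simp; tauto⟩

/-- `K` contains a three-cycle on any three linked points. -/
theorem tri_of_links {a b c : α} (hab : a ≠ b) (hac : a ≠ c) (hbc : b ≠ c) (h1 : Link K a b)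
    (h2 : Link K a c) : Tri K a b c := by
  obtain ⟨d, hda, hdb, hd⟩ := tri_of_link h1 hab
  obtain ⟨e, hea, hec, he⟩ := tri_of_link h2 hac
  by_cases hdc : d = c
  · exact hdc ▸ hd
  by_cases heb : e = b
  · exact tri_perm (heb ▸ he) (by ext; simp; tauto)
  refine tri_share hab hda.symm hac hdb.symm hdc hbc hd ?_
  by_cases hde : d = e
  · subst hde
    have h := tri_share (a := c) (b := d) (c := b) (d := a) (Ne.symm hdc) hac.symm hbc.symm hda hab hdb
      (tri_perm he (by ext; simp; tauto)) (tri_perm hd (by ext; simp; tauto))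
    exact tri_perm h (by ext; simp; tauto)
  · obtain ⟨p, hp, hpa, hpc, hfix⟩ := exists_shift (b := c) (d := a) (c := e)
      (tri_perm he (by ext; simp; tauto)) hac.symm hea.symm hec.symm
    have h := tri_conj hd hp
    rw [hpa, hfix b hbc hab.symm (Ne.symm heb), hfix d hdc hda hde] at h
    exact tri_perm h (by ext; simp; tauto)

/-- A three-cycle on linked points lies in `K`. -/
theorem threeCycle_mem {g : Perm α} (h3 : IsThreeCycle g) {x : α} (hx : g x ≠ x)
    (h : ∀ y, g y ≠ y → Link K x y) : g ∈ K := by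
  obtain ⟨h1, h2, h4⟩ := Alt.threeCycle_distinct h3 hx
  have hm1 : g (g x) ≠ g x := fun e => hx (g.injective e)
  have hm2 : g (g (g x)) ≠ g (g x) := fun e => hm1 (g.injective e)
  obtain ⟨k, hk, k3, ks⟩ := tri_of_links h1 h2 h4 (h _ hm1) (h _ hm2)
  have hkx : k x ≠ x := by rw [← mem_support, ks]; simp
  obtain ⟨k1, k2, k4⟩ := Alt.threeCycle_distinct k3 hkx
  have hkm : k x = g x ∨ k x = g (g x) := by
    have : k x ∈ k.support := apply_mem_support.2 (mem_support.2 hkx)
    rw [ks] at this
    simp only [Finset.mem_insert, Finset.mem_singleton] at this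
    exact this.resolve_left k1.symm
  have hkk : k (k x) = g x ∨ k (k x) = g (g x) := by
    have : k (k x) ∈ k.support := apply_mem_support.2 (apply_mem_support.2 (mem_support.2 hkx))
    rw [ks] at this
    simp only [Finset.mem_insert, Finset.mem_singleton] at this
    exact this.resolve_left k2.symm
  rcases hkm with e | e
  · have e2 : k (k x) = g (g x) := hkk.resolve_left fun e' => k4 (e.trans e'.symm)
    have : g = k := by rw [Alt.eq_cyc3 h3 hx, Alt.eq_cyc3 k3 hkx, e2, e]
    exact this ▸ hk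
  · have e2 : k (k x) = g x := hkk.resolve_right fun e' => k4 (e.trans e'.symm)
    have hx' : (k * k) x ≠ x := by simpa [e2] using hx
    have k3' : IsThreeCycle (k * k) := k3.isThreeCycle_sq
    have e3 : (k * k) x = g x := e2
    have e4 : (k * k) ((k * k) x) = g (g x) := by
      simp only [Perm.mul_apply, Alt.threeCycle_apply_three k3, e]
    have : g = k * k := by rw [Alt.eq_cyc3 h3 hx, Alt.eq_cyc3 k3' hx', e4, e3]
    exact this ▸ K.mul_mem hk hk

/-- A single class means that `K` contains the alternating group. -/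
theorem alternatingGroup_le (h : ∀ x y : α, Link K x y) : alternatingGroup α ≤ K := by
  rw [← closure_three_cycles_eq_alternating, Subgroup.closure_le]
  intro g hg
  obtain ⟨x, hx⟩ : ∃ x, g x ≠ x := by
    by_contra hall
    push Not at hall
    exact IsThreeCycle.ne_one hg (Equiv.ext hall)
  exact threeCycle_mem hg hx fun y _ => h x y

open scoped Classical in
/-- The class of `x`. -/
noncomputable def cls (K : Subgroup (Perm α)) (x : α) : Finset α := Finset.univ.filter (Link K x)

theorem mem_cls {x y : α} : y ∈ cls K x ↔ Link K x y := by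
  classical
  simp [cls]

/-- The alternating group of a set of points, as a permutation group. -/
def altOn (S : Finset α) : Subgroup (Perm α) :=
  (alternatingGroup {y // y ∈ S}).map (Perm.ofSubtype : Perm {y // y ∈ S} →* Perm α)

/-- The alternating group of a set, abstractly. -/
noncomputable def altOnEquiv (S : Finset α) : altOn S ≃* alternatingGroup (Fin S.card) :=
  (Subgroup.equivMapOfInjective _ _ Perm.ofSubtype_injective).symm.trans
    (Equiv.altCongrHom S.equivFin)

theorem apply_eq_of_mem_altOn {S : Finset α} {g : Perm α} (hg : g ∈ altOn S) {y : α} (hy : y ∉ S) :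
    g y = y := by
  obtain ⟨h, -, rfl⟩ := hg
  exact Perm.ofSubtype_apply_of_not_mem h hy

theorem isThreeCycle_ofSubtype {S : Finset α} {g : Perm {y // y ∈ S}} (h : IsThreeCycle g) :
    IsThreeCycle (Perm.ofSubtype g) := by
  rw [IsThreeCycle, Equiv.Perm.cycleType_ofSubtype]
  exact h

theorem altOn_le (x : α) : altOn (cls K x) ≤ K := by
  rw [altOn, Subgroup.map_le_iff_le_comap, ← closure_three_cycles_eq_alternating, Subgroup.closure_le]
  intro g hg
  have h3 : IsThreeCycle (Perm.ofSubtype g) := isThreeCycle_ofSubtype hg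
  obtain ⟨z, hz⟩ : ∃ z, (Perm.ofSubtype g) z ≠ z := by
    by_contra hall
    push Not at hall
    exact h3.ne_one (Equiv.ext hall)
  have hin : ∀ y, (Perm.ofSubtype g) y ≠ y → Link K x y := fun y hy => by
    by_contra hn
    exact hy (Perm.ofSubtype_apply_of_not_mem g fun h => hn (mem_cls.1 h))
  rw [SetLike.mem_coe, Subgroup.mem_comap]
  exact threeCycle_mem h3 hz fun y hy => link_trans (link_symm (hin z hz)) (hin y hy)

theorem mem_altOn_of_threeCycle {g : Perm α} (hg : g ∈ K) (h3 : IsThreeCycle g) {x : α} (hx : g x ≠ x) :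
    g ∈ altOn (cls K x) := by
  have hsupp : ∀ y, g y ≠ y → y ∈ cls K x := fun y hy => mem_cls.2 (Or.inr ⟨g, hg, h3, hx, hy⟩)
  have hinv : ∀ y, g y ∈ cls K x ↔ y ∈ cls K x := fun y => by
    by_cases hy : g y = y
    · rw [hy]
    · exact ⟨fun _ => hsupp y hy, fun _ => hsupp _ fun e => hy (g.injective e)⟩
  let g' : Perm {y // y ∈ cls K x} := g.subtypePerm hinv
  have e : Perm.ofSubtype g' = g := Perm.ofSubtype_subtypePerm hinv hsupp
  refine ⟨g', ?_, e⟩
  show g' ∈ alternatingGroup _
  rw [mem_alternatingGroup, ← Perm.sign_ofSubtype, e]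
  exact h3.sign

theorem image_cls {p : Perm α} (hp : p ∈ K) (x : α) : (cls K x).image p = cls K (p x) := by
  ext y
  rw [Finset.mem_image, mem_cls]
  constructor
  · rintro ⟨z, hz, rfl⟩
    exact link_map (mem_cls.1 hz) hp
  · intro h
    refine ⟨p⁻¹ y, mem_cls.2 ?_, by simp⟩
    simpa using link_map h (K.inv_mem hp)

/-- Conjugation carries the alternating group of a class to that of the image class. -/
theorem conj_mem_altOn {p : Perm α} (hp : p ∈ K) {x : α} {g : Perm α} (hg : g ∈ altOn (cls K x)) :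
    p * g * p⁻¹ ∈ altOn (cls K (p x)) := by
  have key : altOn (cls K x) ≤ (altOn (cls K (p x))).comap (MulAut.conj p).toMonoidHom := by
    rw [altOn, Subgroup.map_le_iff_le_comap, ← closure_three_cycles_eq_alternating, Subgroup.closure_le]
    intro h hh
    have h3 : IsThreeCycle (Perm.ofSubtype h) := isThreeCycle_ofSubtype hh
    have hK : Perm.ofSubtype h ∈ K :=
      altOn_le x ⟨h, show h ∈ alternatingGroup _ from mem_alternatingGroup.2 hh.sign, rfl⟩
    obtain ⟨z, hz⟩ : ∃ z, (Perm.ofSubtype h) z ≠ z := by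
      by_contra hall
      push Not at hall
      exact h3.ne_one (Equiv.ext hall)
    have hzx : Link K x z := by
      by_contra hn
      exact hz (Perm.ofSubtype_apply_of_not_mem h fun h' => hn (mem_cls.1 h'))
    have hcls : cls K (p z) = cls K (p x) := by
      ext y
      rw [mem_cls, mem_cls]
      exact ⟨link_trans (link_map hzx hp), link_trans (link_symm (link_map hzx hp))⟩
    show p * Perm.ofSubtype h * p⁻¹ ∈ altOn (cls K (p x))
    rw [← hcls]
    exact mem_altOn_of_threeCycle (K.mul_mem (K.mul_mem hp hK) (K.inv_mem hp)) (isThreeCycle_conj p h3)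
      (by simpa using hz)
  exact key hg

end Cfsg.Agent.ThreeClass
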